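import Cfsg.Agent.Lib.F24.Coll
import Cfsg.Agent.Lib.F24.Inv
import Cfsg.Agent.Lib.KS71.ChevFix

/-!
# The root classes of `²F₄` and the normal form of the elements of `U¹`
-/

set_option autoImplicit false
set_option linter.unusedSectionVars false
set_option linter.unusedVariables false
set_option linter.ambiguousOpen false
set_option linter.dupNamespace false
set_option linter.unusedSimpArgs false

namespace Cfsg.Agent.Lib.F24.Cls

open scoped MatrixGroups Matrix
open Cfsg _root_.Cfsg.Lie ChevalleyDatum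
open Cfsg.Agent.Lib.Chev
open Tables Tables2 Tables3 Raise Basic AxBasic Torus Products Products2 Mono1 Mono2 Mono3 Bn ChevSimple
open Cfsg.Agent.Lib.Twisted.Fact Cfsg.Agent.Lib.Twisted.Bruhat Cfsg.Agent.Lib.Twisted.Tw
open Cfsg.Agent.Lib.Twisted.Struct Cfsg.Agent.Lib.Twisted.Check Cfsg.Agent.Lib.Twisted.Ortho
open Cfsg.Agent.Lib.F24.Blocks Cfsg.Agent.Lib.F24.F4Data Cfsg.Agent.Lib.F24.Tw Cfsg.Agent.Lib.F24.WordEq
open Cfsg.Agent.Lib.F24.TD Cfsg.Agent.Lib.F24.Main Cfsg.Agent.Lib.F24.InvForm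
open Cfsg.Agent.Lib.F24.Coll Cfsg.Agent.Lib.KS71.ChevFix
open Cfsg.Agent.Lib.Twisted.Struct.TD

variable {K : Type*} [Field K] [CharP K 2]

/-! ### Conjugation by the representatives of the simple reflections -/

section conj

variable (ax : Ax chevF4 K)

/-- The map from the prime field. -/
noncomputable def ι₂ : ZMod 2 →+* K := ZMod.castHom (dvd_refl 2) K

theorem conj_x (j : Fin 2) {r : ℕ} (hr : r < 48) (t : K) :
    nF ax j * xG ax r t * (nF ax j)⁻¹ = xG ax (Inv.pw j r) t := by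
  obtain ⟨c, H⟩ := n_nor ax j
  have h2 := Inv.conj_x j hr (1 : ZMod 2)
  have h3 := congrArg (mapX chevF4 (ι₂ (K := K))) h2
  simp only [map_mul, map_inv, mapX_xG Inv.ax2 ax, map_one] at h3
  have hn : mapX chevF4 (ι₂ (K := K)) (nF Inv.ax2 j) = nF ax j := mapX_nw Inv.ax2 ax _ _
  rw [hn] at h3
  have hπ : ((wPw hF (Cf.wl j) ⟨r, hr⟩ : Fin chevF4.nroots) : ℕ) = Inv.pw j r := by
    rw [wPw_val hF (wl_lt j)]
    exact Inv.pw_eq j ⟨r, hr⟩
  have h4 := H.conj ⟨r, hr⟩ 1
  rw [h3, hπ] at h4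
  have hlt : Inv.pw j r < chevF4.nroots := Inv.pw_lt j ⟨r, hr⟩
  have h5 := (xG_eq_iff ax hF hF2 hlt hlt one_ne_zero h4).2
  have hc : (c ⟨r, hr⟩ : K) = 1 := by
    have h6 : (1 : K) = (c ⟨r, hr⟩ : K) * 1 := h5
    rw [mul_one] at h6
    exact h6.symm
  have h7 := H.conj ⟨r, hr⟩ t
  rw [hπ, hc, one_mul] at h7
  exact h7

end conj

/-! ### The classes -/

section classes

variable (ax : Ax chevF4 K) (φ : K →+* K)

/-- A class of the first type. -/
noncomputable def C0 (r s : ℕ) (a : K) : GL chevF4.Idx K := xG ax r (φ a) * xG ax s a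

noncomputable abbrev A1 (a : K) := C0 ax φ 33 24 a
noncomputable abbrev A2 (t u : K) := αV ax φ 34 26 36 42 t u
noncomputable abbrev A3 (a : K) := C0 ax φ 38 43 a
noncomputable abbrev A4 (t u : K) := αV ax φ 29 41 44 47 t u
noncomputable abbrev A5 (a : K) := C0 ax φ 39 45 a
noncomputable abbrev A6 (t u : K) := αV ax φ 35 31 40 46 t u
noncomputable abbrev A7 (a : K) := C0 ax φ 37 32 a
noncomputable abbrev A8 (t u : K) := αV ax φ 27 25 28 30 t u

/-- The general element of `U¹`. -/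
noncomputable def gg (a1 t2 u2 a3 t4 u4 a5 t6 u6 a7 t8 u8 : K) : GL chevF4.Idx K :=
  A1 ax φ a1 * A2 ax φ t2 u2 * A3 ax φ a3 * A4 ax φ t4 u4 * A5 ax φ a5 * A6 ax φ t6 u6 * A7 ax φ a7 * A8 ax φ t8 u8

/-- A word of the first type. -/
def wA (r s : ℕ) (a : Pol) : PW := [(r, pPhi a), (s, a)]

/-- A word of the second type. -/
def wB (a b ab aab : ℕ) (t u : Pol) : PW :=
  [(a, pPhi t), (b, t), (ab, pAdd (pMul (pPhi t) t) u), (aab, pF u)]

/-- The word of the general element. -/
def gW (a1 t2 u2 a3 t4 u4 a5 t6 u6 a7 t8 u8 : Pol) : PW :=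
  wA 33 24 a1 ++ wB 34 26 36 42 t2 u2 ++ wA 38 43 a3 ++ wB 29 41 44 47 t4 u4 ++ wA 39 45 a5 ++ wB 35 31 40 46 t6 u6 ++
    wA 37 32 a7 ++ wB 27 25 28 30 t8 u8

variable (hφ2 : ∀ t, (φ (φ t)) ^ 2 = t) (vals : List K)

include hφ2

lemma word_wA (r s : ℕ) (a : Pol) (ha : pEven a = true) :
    wordG ax (evalW (envOf φ vals) (wA r s a)) = C0 ax φ r s (evalP (envOf φ vals) a) := by
  simp only [evalW, wA, List.map_cons, List.map_nil, wordG, List.prod_cons, List.prod_nil, mul_one, C0]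
  rw [evalP_Phi φ hφ2 _ _ ha]

lemma word_wB (a b ab aab : ℕ) (t u : Pol) (ht : pEven t = true) :
    wordG ax (evalW (envOf φ vals) (wB a b ab aab t u)) =
      αV ax φ a b ab aab (evalP (envOf φ vals) t) (evalP (envOf φ vals) u) := by
  simp only [evalW, wB, List.map_cons, List.map_nil, wordG, List.prod_cons, List.prod_nil, mul_one, αV, V]
  rw [evalP_add, evalP_mul, evalP_Phi φ hφ2 _ _ ht, evalP_F φ hφ2]
  simp only [mul_assoc]

lemma evalW_append (env : List K) (W W' : PW) : evalW env (W ++ W') = evalW env W ++ evalW env W' := by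
  simp [evalW]

/-- The parameters that have to be even. -/
def gEven (a1 t2 a3 t4 a5 t6 a7 t8 : Pol) : Bool :=
  pEven a1 && pEven t2 && pEven a3 && pEven t4 && pEven a5 && pEven t6 && pEven a7 && pEven t8

lemma word_gW (a1 t2 u2 a3 t4 u4 a5 t6 u6 a7 t8 u8 : Pol) (h : gEven a1 t2 a3 t4 a5 t6 a7 t8 = true) :
    wordG ax (evalW (envOf φ vals) (gW a1 t2 u2 a3 t4 u4 a5 t6 u6 a7 t8 u8)) =
      gg ax φ (evalP (envOf φ vals) a1) (evalP (envOf φ vals) t2) (evalP (envOf φ vals) u2) (evalP (envOf φ vals) a3)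
        (evalP (envOf φ vals) t4) (evalP (envOf φ vals) u4) (evalP (envOf φ vals) a5) (evalP (envOf φ vals) t6)
        (evalP (envOf φ vals) u6) (evalP (envOf φ vals) a7) (evalP (envOf φ vals) t8) (evalP (envOf φ vals) u8) := by
  simp only [gEven, Bool.and_eq_true] at h
  obtain ⟨⟨⟨⟨⟨⟨⟨h1, h2⟩, h3⟩, h4⟩, h5⟩, h6⟩, h7⟩, h8⟩ := h
  simp only [gW, evalW_append φ hφ2, wordG_append]
  rw [word_wA ax φ hφ2, word_wA ax φ hφ2, word_wA ax φ hφ2, word_wA ax φ hφ2, word_wB ax φ hφ2, word_wB ax φ hφ2,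
    word_wB ax φ hφ2, word_wB ax φ hφ2] <;> try assumption
  rfl

omit hφ2 in
lemma word_rev (env : List K) (W : PW) : (wordG ax (evalW env W))⁻¹ = wordG ax (evalW env W.reverse) := by
  induction W with
  | nil => simp [evalW, wordG]
  | cons l W ih =>
    simp only [evalW, List.map_cons, List.reverse_cons, List.map_append, List.map_nil] at ih ⊢
    rw [wordG_append, wordG_cons, mul_inv_rev, ih, xG_inv, neg_eq]
    simp [wordG]

end classes

/-! ### Reading the parameters of a word -/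

/-- The fuel of the collector. -/
def fu : ℕ := 40

/-- Collecting. -/
def nf (W : PW) : PW := nfOf cT g4 fu W

/-- Reading a coordinate. -/
def lk : PW → ℕ → Pol
  | [], _ => []
  | (s, q) :: N, r => bif Nat.beq s r then q else lk N r

/-- Peeling off a class of the first type. -/
def pl0 (r s : ℕ) (st : List Pol × PW) : List Pol × PW :=
  let a := lk (nf st.2) s
  (st.1 ++ [a], wA r s a ++ st.2)

/-- Peeling off a class of the second type. -/
def pl1 (a b ab aab : ℕ) (st : List Pol × PW) : List Pol × PW :=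
  let t := lk (nf st.2) b
  let c1 := wB a b ab aab t (pMul (pPhi t) t) ++ st.2
  let u := lk (nf c1) ab
  (st.1 ++ [t, u], wB a b ab aab [] u ++ c1)

/-- The parameters of a word. -/
def peel (W : PW) : List Pol :=
  (pl1 27 25 28 30 (pl0 37 32 (pl1 35 31 40 46 (pl0 39 45 (pl1 29 41 44 47 (pl0 38 43 (pl1 34 26 36 42 (pl0 33 24 ([], W))))))))).1

/-- The word of a list of parameters. -/
def gWL (L : List Pol) : PW :=
  gW (L.getD 0 []) (L.getD 1 []) (L.getD 2 []) (L.getD 3 []) (L.getD 4 []) (L.getD 5 []) (L.getD 6 []) (L.getD 7 [])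
    (L.getD 8 []) (L.getD 9 []) (L.getD 10 []) (L.getD 11 [])

/-- The parameters of a word are right. -/
def okW (W : PW) : Bool :=
  let L := peel W
  gEven (L.getD 0 []) (L.getD 1 []) (L.getD 3 []) (L.getD 4 []) (L.getD 6 []) (L.getD 7 []) (L.getD 9 []) (L.getD 10 []) &&
    decide (nf W = nf (gWL L))

section read

variable (ax : Ax chevF4 K) (φ : K →+* K) (hφ2 : ∀ t, (φ (φ t)) ^ 2 = t) (vals : List K)

/-- The value of a parameter. -/
def ev (vals : List K) (φ : K →+* K) (L : List Pol) (i : ℕ) : K := evalP (envOf φ vals) (L.getD i [])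

include hφ2

/-- A word is the general element with the computed parameters. -/
theorem word_gg {W : PW} (h : okW W = true) :
    wordG ax (evalW (envOf φ vals) W) =
      gg ax φ (ev vals φ (peel W) 0) (ev vals φ (peel W) 1) (ev vals φ (peel W) 2) (ev vals φ (peel W) 3)
        (ev vals φ (peel W) 4) (ev vals φ (peel W) 5) (ev vals φ (peel W) 6) (ev vals φ (peel W) 7)
        (ev vals φ (peel W) 8) (ev vals φ (peel W) 9) (ev vals φ (peel W) 10) (ev vals φ (peel W) 11) := by
  simp only [okW, Bool.and_eq_true, decide_eq_true_eq] at h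
  have e := word_gW ax φ hφ2 vals ((peel W).getD 0 []) ((peel W).getD 1 []) ((peel W).getD 2 []) ((peel W).getD 3 [])
    ((peel W).getD 4 []) ((peel W).getD 5 []) ((peel W).getD 6 []) ((peel W).getD 7 []) ((peel W).getD 8 [])
    ((peel W).getD 9 []) ((peel W).getD 10 []) ((peel W).getD 11 []) h.1
  simp only [ev]
  rw [← e]
  exact word_eq (law4 ax) cT_pos' fu h.2

end read

end Cfsg.Agent.Lib.F24.Cls
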