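import Cfsg.Agent.Lib.F24.InvForm

/-!
# A reflective collector for words in root elements of `F₄` in characteristic two

Words in the root elements whose parameters are polynomials over `𝔽₂` are brought to the normal form by a function that
the kernel can evaluate; identities between words are then checked by evaluation.
-/

set_option autoImplicit false
set_option linter.unusedSectionVars false
set_option linter.unusedVariables false
set_option linter.ambiguousOpen false
set_option linter.dupNamespace false

namespace Cfsg.Agent.Lib.F24.Coll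

open scoped MatrixGroups Matrix
open Cfsg _root_.Cfsg.Lie ChevalleyDatum
open Cfsg.Agent.Lib.Chev
open Tables Tables2 Tables3 Raise Basic AxBasic Torus Products Products2 Mono1 Mono2 Mono3 Bn ChevSimple
open Cfsg.Agent.Lib.Twisted.Fact Cfsg.Agent.Lib.Twisted.Bruhat Cfsg.Agent.Lib.Twisted.Tw
open Cfsg.Agent.Lib.Twisted.Struct Cfsg.Agent.Lib.Twisted.Check Cfsg.Agent.Lib.Twisted.Ortho
open Cfsg.Agent.Lib.F24.Blocks Cfsg.Agent.Lib.F24.F4Data Cfsg.Agent.Lib.F24.Tw

/-! ### Polynomials over `𝔽₂` -/

/-- A monomial: the list of the exponents. -/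
abbrev Mono := List ℕ

/-- A polynomial: the list of its monomials. -/
abbrev Pol := List Mono

/-- Equality of monomials. -/
def mEq : Mono → Mono → Bool
  | [], [] => true
  | a :: as, b :: bs => Nat.beq a b && mEq as bs
  | _, _ => false

lemma mEq_eq : ∀ {m m' : Mono}, mEq m m' = true → m = m'
  | [], [], _ => rfl
  | [], _ :: _, h => by simp [mEq] at h
  | _ :: _, [], h => by simp [mEq] at h
  | a :: as, b :: bs, h => by
    simp only [mEq, Bool.and_eq_true] at h
    rw [Nat.eq_of_beq_eq_true h.1, mEq_eq h.2]

/-- The lexicographic order. -/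
def mLt : Mono → Mono → Bool
  | [], [] => false
  | [], _ :: _ => true
  | _ :: _, [] => false
  | a :: as, b :: bs => bif Nat.beq a b then mLt as bs else Nat.blt a b

/-- The product of monomials. -/
def mMul : Mono → Mono → Mono
  | [], m => m
  | a :: as, [] => a :: as
  | a :: as, b :: bs => (a + b) :: mMul as bs

/-- Adding a monomial. -/
def pIns (m : Mono) : Pol → Pol
  | [] => [m]
  | x :: xs => bif mEq m x then xs else bif mLt m x then m :: x :: xs else x :: pIns m xs

/-- The sum. -/
def pAdd (p q : Pol) : Pol := p.foldr pIns q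

/-- Adding the product by a monomial. -/
def pMul1 (m : Mono) (q : Pol) (acc : Pol) : Pol := q.foldr (fun x a => pIns (mMul m x) a) acc

/-- The product. -/
def pMul (p q : Pol) : Pol := p.foldr (fun m a => pMul1 m q a) []

/-- The powers. -/
def pPow (p : Pol) : ℕ → Pol
  | 0 => [[]]
  | 1 => p
  | n + 2 => pMul p (pPow p (n + 1))

section eval

variable {K : Type*} [Field K] [CharP K 2]

/-- The value of a monomial. -/
def evalM : List K → Mono → K
  | [], _ => 1
  | _ :: _, [] => 1
  | x :: xs, a :: as => x ^ a * evalM xs as

/-- The value of a polynomial. -/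
def evalP (env : List K) (p : Pol) : K := (p.map (evalM env)).sum

@[simp] lemma evalM_nil (env : List K) : evalM env [] = 1 := by
  cases env <;> rfl

lemma evalM_mul : ∀ (env : List K) (m m' : Mono), evalM env (mMul m m') = evalM env m * evalM env m'
  | [], m, m' => by simp [evalM]
  | x :: xs, [], m' => by simp [mMul, evalM]
  | x :: xs, a :: as, [] => by simp [mMul, evalM]
  | x :: xs, a :: as, b :: bs => by
    simp only [mMul, evalM, evalM_mul xs as bs, pow_add]
    ring

lemma evalP_nil (env : List K) : evalP env [] = 0 := rfl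

lemma evalP_cons (env : List K) (m : Mono) (p : Pol) : evalP env (m :: p) = evalM env m + evalP env p := by
  simp [evalP]

lemma evalP_ins (env : List K) (m : Mono) (p : Pol) : evalP env (pIns m p) = evalM env m + evalP env p := by
  induction p with
  | nil => simp [pIns, evalP]
  | cons x xs ih =>
    rw [pIns, evalP_cons]
    cases h : mEq m x with
    | true =>
      simp only [cond_true]
      rw [mEq_eq h, ← add_assoc, add_self', zero_add]
    | false =>
      simp only [cond_false]
      cases h' : mLt m x with
      | true =>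
        simp only [cond_true]
        rw [evalP_cons, evalP_cons]
      | false =>
        simp only [cond_false]
        rw [evalP_cons, ih]
        ring

lemma evalP_add (env : List K) (p q : Pol) : evalP env (pAdd p q) = evalP env p + evalP env q := by
  induction p with
  | nil => simp [pAdd, evalP]
  | cons x xs ih =>
    have e : pAdd (x :: xs) q = pIns x (pAdd xs q) := rfl
    rw [e, evalP_ins, ih, evalP_cons, add_assoc]

lemma evalP_mul1 (env : List K) (m : Mono) (q acc : Pol) :
    evalP env (pMul1 m q acc) = evalM env m * evalP env q + evalP env acc := by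
  induction q with
  | nil => simp [pMul1, evalP]
  | cons x xs ih =>
    have e : pMul1 m (x :: xs) acc = pIns (mMul m x) (pMul1 m xs acc) := rfl
    rw [e, evalP_ins, ih, evalM_mul, evalP_cons]
    ring

lemma evalP_mul (env : List K) (p q : Pol) : evalP env (pMul p q) = evalP env p * evalP env q := by
  induction p with
  | nil => simp [pMul, evalP]
  | cons x xs ih =>
    have e : pMul (x :: xs) q = pMul1 x q (pMul xs q) := rfl
    rw [e, evalP_mul1, ih, evalP_cons]
    ring

lemma evalP_pow (env : List K) (p : Pol) (n : ℕ) (hn : 1 ≤ n) : evalP env (pPow p n) = evalP env p ^ n := by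
  induction n with
  | zero => omega
  | succ n ih =>
    cases n with
    | zero => simp [pPow]
    | succ n =>
      rw [pPow, evalP_mul, ih (by omega), pow_succ' _ (n + 1)]

end eval

/-! ### The collector -/

/-- The table of the commutator relations. -/
abbrev CT := ℕ → ℕ → List (ℕ × ℕ × ℕ)

/-- A word with polynomial parameters, in reversed order. -/
abbrev PW := List (ℕ × Pol)

/-- Multiplying a reversed word on the right by a letter, and collecting. -/
def cIns (T : CT) (g : ℕ → ℕ → Bool) : ℕ → PW → ℕ → Pol → PW
  | 0, N, r, p => (r, p) :: N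
  | f + 1, N, r, p =>
    match p with
    | [] => N
    | m :: p' =>
      match N with
      | [] => [(r, m :: p')]
      | (s, q) :: N' =>
        bif Nat.beq s r then
          (match pAdd q (m :: p') with
            | [] => N'
            | v :: vs => (s, v :: vs) :: N')
        else bif g r s then
          (T r s).foldl (fun A c => cIns T g f A c.1 (pMul (pPow (m :: p') c.2.1) (pPow q c.2.2)))
            (cIns T g f (cIns T g f N' r (m :: p')) s q)
        else (r, m :: p') :: (s, q) :: N'

/-- Collecting a word. -/
def nfOf (T : CT) (g : ℕ → ℕ → Bool) (f : ℕ) (W : PW) : PW :=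
  W.foldl (fun N l => cIns T g f N l.1 l.2) []

section semantics

variable {K : Type*} [Field K] [CharP K 2] (ax : Ax chevF4 K) (env : List K)

/-- The value of a reversed word. -/
noncomputable def rv : PW → GL chevF4.Idx K
  | [] => 1
  | (s, q) :: N => rv N * xG ax s (evalP env q)

/-- The value of a word. -/
def evalW (W : PW) : List (ℕ × K) := W.map fun l => (l.1, evalP env l.2)

/-- The validity of a table. -/
def LawOK (T : CT) (g : ℕ → ℕ → Bool) : Prop :=
  ∀ r s (x y : K), g r s = true →
    xG ax s y * xG ax r x = xG ax r x * xG ax s y * wordG ax ((T r s).map fun c => (c.1, x ^ c.2.1 * y ^ c.2.2))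

variable {ax env}
variable {T : CT} {g : ℕ → ℕ → Bool}

theorem rv_cIns (hL : LawOK ax T g) (hi : ∀ r s, g r s = true → ∀ c ∈ T r s, 1 ≤ c.2.1 ∧ 1 ≤ c.2.2) (f : ℕ) :
    ∀ (N : PW) (r : ℕ) (p : Pol), rv ax env (cIns T g f N r p) = rv ax env N * xG ax r (evalP env p) := by
  induction f with
  | zero =>
    intro N r p
    simp [cIns, rv]
  | succ f ih =>
    intro N r p
    cases p with
    | nil => simp [cIns, evalP_nil, xG_zero]
    | cons m p' =>
      cases N with
      | nil => simp [cIns, rv]
      | cons l N' =>
        obtain ⟨s, q⟩ := l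
        simp only [cIns]
        cases hb : Nat.beq s r with
        | true =>
          have hsr : s = r := Nat.eq_of_beq_eq_true hb
          subst hsr
          simp only [cond_true]
          have e : rv ax env N' * xG ax s (evalP env q + evalP env (m :: p')) =
              rv ax env ((s, q) :: N') * xG ax s (evalP env (m :: p')) := by
            simp only [rv]
            rw [mul_assoc, xG_add]
          rw [← e, ← evalP_add]
          cases pAdd q (m :: p') with
          | nil => simp [evalP_nil, xG_zero]
          | cons v vs => simp [rv]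
        | false =>
          simp only [cond_false]
          cases hg : g r s with
          | false => simp [rv]
          | true =>
            simp only [cond_true]
            have hf : ∀ (cs : List (ℕ × ℕ × ℕ)), (∀ c ∈ cs, 1 ≤ c.2.1 ∧ 1 ≤ c.2.2) → ∀ A : PW,
                rv ax env (cs.foldl (fun A c => cIns T g f A c.1 (pMul (pPow (m :: p') c.2.1) (pPow q c.2.2))) A) =
                rv ax env A * wordG ax (cs.map fun c => (c.1, evalP env (m :: p') ^ c.2.1 * evalP env q ^ c.2.2)) := by
              intro cs
              induction cs with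
              | nil => simp [wordG]
              | cons c cs ihc =>
                intro hc A
                simp only [List.foldl_cons, List.map_cons]
                rw [ihc (fun c' hc' => hc c' (List.mem_cons_of_mem _ hc')), ih, evalP_mul,
                  evalP_pow _ _ _ (hc c List.mem_cons_self).1, evalP_pow _ _ _ (hc c List.mem_cons_self).2, wordG_cons, mul_assoc]
            rw [hf _ (hi r s hg), ih, ih]
            simp only [rv]
            rw [mul_assoc (rv ax env N'), mul_assoc (rv ax env N'), ← hL r s _ _ hg, mul_assoc]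

theorem rv_nfOf (hL : LawOK ax T g) (hi : ∀ r s, g r s = true → ∀ c ∈ T r s, 1 ≤ c.2.1 ∧ 1 ≤ c.2.2) (f : ℕ) (W : PW) :
    rv ax env (nfOf T g f W) = wordG ax (evalW env W) := by
  have key : ∀ (W : PW) (N : PW), rv ax env (W.foldl (fun N l => cIns T g f N l.1 l.2) N) = rv ax env N * wordG ax (evalW env W) := by
    intro W
    induction W with
    | nil => simp [evalW, wordG]
    | cons l W ih =>
      intro N
      simp only [List.foldl_cons]
      rw [ih, rv_cIns hL hi]
      simp only [evalW, List.map_cons]
      rw [wordG_cons, mul_assoc]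
  rw [nfOf, key]
  simp [rv]

/-- Two words with the same normal form are equal. -/
theorem word_eq (hL : LawOK ax T g) (hi : ∀ r s, g r s = true → ∀ c ∈ T r s, 1 ≤ c.2.1 ∧ 1 ≤ c.2.2) (f : ℕ) {W W' : PW}
    (h : nfOf T g f W = nfOf T g f W') : wordG ax (evalW env W) = wordG ax (evalW env W') := by
  rw [← rv_nfOf hL hi f W, ← rv_nfOf hL hi f W', h]

end semantics

/-! ### The table of `F₄` -/

/-- The pairs of roots that are swapped. -/
def g4 (r s : ℕ) : Bool := Nat.ble 24 r && Nat.blt r s && Nat.blt s 48

/-- The commutator relations modulo two. -/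
def cT (r s : ℕ) : List (ℕ × ℕ × ℕ) :=
  ((chevF4.commTerms r s).filter fun c => c.2.1 % 2 != 0).map fun c => (c.1, c.2.2.1, c.2.2.2)

set_option maxRecDepth 100000 in
theorem neg_ne : ∀ r s : Fin 48, g4 r s = true → (s : ℕ) ≠ chevF4.neg r := by
  decide +kernel

lemma g4_lt {r s : ℕ} (h : g4 r s = true) : r < 48 ∧ s < 48 ∧ s ≠ r := by
  simp only [g4, Bool.and_eq_true, Nat.ble_eq, Nat.blt_eq] at h
  omega

set_option maxRecDepth 100000 in
theorem cT_pos : ∀ r s : Fin 48, g4 r s = true → ∀ c ∈ cT r s, 1 ≤ c.2.1 ∧ 1 ≤ c.2.2 := by
  decide +kernel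

theorem cT_pos' (r s : ℕ) (h : g4 r s = true) : ∀ c ∈ cT r s, 1 ≤ c.2.1 ∧ 1 ≤ c.2.2 :=
  cT_pos ⟨r, (g4_lt h).1⟩ ⟨s, (g4_lt h).2.1⟩ h

section law

variable {K : Type*} [Field K] [CharP K 2] (ax : Ax chevF4 K)

lemma wordG_terms (L : List (ℕ × ℤ × ℕ × ℕ)) (x y : K) :
    wordG ax (L.map fun c => (c.1, ((c.2.1 : ℤ) : K) * (-x) ^ c.2.2.1 * y ^ c.2.2.2)) =
    wordG ax (((L.filter fun c => c.2.1 % 2 != 0).map fun c => (c.1, c.2.2.1, c.2.2.2)).map
      fun c => (c.1, x ^ c.2.1 * y ^ c.2.2)) := by
  induction L with
  | nil => rfl
  | cons c L ih =>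
    simp only [List.map_cons]
    rw [wordG_cons]
    by_cases hc : c.2.1 % 2 = 0
    · have e : ((c.2.1 : ℤ) : K) = 0 := by
        obtain ⟨k, hk⟩ := Int.dvd_of_emod_eq_zero hc
        rw [hk]
        push_cast
        have h2 := two_eq_zero (K := K)
        rw [h2, zero_mul]
      rw [List.filter_cons_of_neg (by simp [hc]), ← ih]
      simp [e, xG_zero]
    · have e : ((c.2.1 : ℤ) : K) = 1 := by
        have : Odd c.2.1 := Int.odd_iff.mpr (by omega)
        exact odd_cast this
      rw [List.filter_cons_of_pos (by simpa using hc)]
      simp only [List.map_cons]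
      rw [wordG_cons, ← ih, e, neg_eq, one_mul]

theorem law4 : LawOK ax cT g4 := by
  intro r s x y h
  obtain ⟨hr, hs, hne⟩ := g4_lt h
  have e := xG_comm ax (D := chevF4) hr hs hne (neg_ne ⟨r, hr⟩ ⟨s, hs⟩ h) x y
  rw [e, commWord, wordG_terms]
  rfl

end law

/-! ### Evaluation in the twisted setting -/

/-- The effect of the Tits endomorphism `t ↦ (φ t)²` on a monomial. -/
def mF : Mono → Mono
  | [] => []
  | [i] => [0, 2 * i]
  | i :: j :: m => j :: (2 * i) :: mF m

/-- The effect of `φ` on a monomial. -/
def mPhi : Mono → Mono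
  | [] => []
  | [i] => [0, i]
  | i :: j :: m => (j / 2) :: i :: mPhi m

/-- The condition under which `mPhi` is right. -/
def mEven : Mono → Bool
  | [] => true
  | [_] => true
  | _ :: j :: m => Nat.beq (j % 2) 0 && mEven m

/-- The effect of the Tits endomorphism on a polynomial. -/
def pF (p : Pol) : Pol := p.foldr (fun m a => pIns (mF m) a) []

/-- The effect of `φ` on a polynomial. -/
def pPhi (p : Pol) : Pol := p.foldr (fun m a => pIns (mPhi m) a) []

/-- The condition under which `pPhi` is right. -/
def pEven (p : Pol) : Bool := p.all mEven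

/-- The zero exponents. -/
def zrs (n : ℕ) : Mono := List.replicate (2 * n) 0

/-- A variable, given by its number, among `n` variables. -/
def vm : ℕ → ℕ → Mono
  | 0, _ => []
  | n + 1, 0 => 1 :: 0 :: zrs n
  | n + 1, i + 1 => 0 :: 0 :: vm n i

/-- A variable as a polynomial. -/
def vr (n i : ℕ) : Pol := [vm n i]

section env

variable {K : Type*} [Field K] [CharP K 2] (φ : K →+* K)

/-- The values of the variables and of their images. -/
def envOf : List K → List K
  | [] => []
  | v :: vs => v :: φ v :: envOf vs

lemma evalM_zrs (vals : List K) (n : ℕ) : evalM (envOf φ vals) (zrs n) = 1 := by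
  induction n generalizing vals with
  | zero =>
    cases vals <;> simp [zrs, evalM, envOf]
  | succ n ih =>
    cases vals with
    | nil => simp [evalM, envOf]
    | cons v vs =>
      have e : zrs (n + 1) = 0 :: 0 :: zrs n := by
        simp only [zrs]
        rw [show 2 * (n + 1) = 2 * n + 2 by ring]
        rfl
      rw [e]
      simp [evalM, envOf, ih]

lemma evalP_vr (vals : List K) (n i : ℕ) (hi : i < n) (hn : n ≤ vals.length) :
    evalP (envOf φ vals) (vr n i) = vals.getD i 0 := by
  induction n generalizing vals i with
  | zero => omega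
  | succ n ih =>
    cases vals with
    | nil => simp at hn
    | cons v vs =>
      cases i with
      | zero =>
        simp [vr, evalP, vm, evalM, envOf, evalM_zrs]
      | succ i =>
        have := ih vs i (by omega) (by simpa using hn)
        simp only [vr, evalP, List.map_cons, List.map_nil, List.sum_cons, List.sum_nil, add_zero] at this ⊢
        simp [vm, evalM, envOf, this]

variable (hφ2 : ∀ t, (φ (φ t)) ^ 2 = t)

include hφ2

lemma evalM_mF (vals : List K) (m : Mono) :
    evalM (envOf φ vals) (mF m) = (φ (evalM (envOf φ vals) m)) ^ 2 := by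
  induction vals generalizing m with
  | nil => simp [envOf, evalM]
  | cons v vs ih =>
    match m with
    | [] => simp [mF, envOf, evalM]
    | [i] =>
      simp only [mF, envOf, evalM, pow_zero, one_mul, evalM_nil, mul_one, map_pow]
      rw [← pow_mul, mul_comm]
    | i :: j :: m' =>
      simp only [mF, envOf, evalM, map_mul, map_pow, mul_pow, ih]
      rw [← pow_mul (φ (φ v)) j 2, mul_comm j 2, pow_mul (φ (φ v)) 2 j, hφ2, ← pow_mul (φ v) i 2, mul_comm i 2]
      ring

lemma evalM_mPhi (vals : List K) (m : Mono) (hm : mEven m = true) :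
    evalM (envOf φ vals) (mPhi m) = φ (evalM (envOf φ vals) m) := by
  induction vals generalizing m with
  | nil => simp [envOf, evalM]
  | cons v vs ih =>
    match m, hm with
    | [], _ => simp [mPhi, envOf, evalM]
    | [i], _ =>
      simp [mPhi, envOf, evalM, evalM_nil]
    | i :: j :: m', hm =>
      simp only [mEven, Bool.and_eq_true] at hm
      have hj : j % 2 = 0 := Nat.eq_of_beq_eq_true hm.1
      obtain ⟨k, rfl⟩ : ∃ k, j = 2 * k := ⟨j / 2, by omega⟩
      have e : 2 * k / 2 = k := by omega
      simp only [mPhi, envOf, evalM, map_mul, map_pow, ih _ hm.2, e]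
      rw [pow_mul (φ (φ v)) 2 k, hφ2]
      ring

lemma evalP_F (vals : List K) (p : Pol) : evalP (envOf φ vals) (pF p) = (φ (evalP (envOf φ vals) p)) ^ 2 := by
  induction p with
  | nil => simp [pF, evalP]
  | cons x xs ih =>
    have e : pF (x :: xs) = pIns (mF x) (pF xs) := rfl
    rw [e, evalP_ins, ih, evalP_cons, evalM_mF φ hφ2, map_add, Tw.add_sq]

lemma evalP_Phi (vals : List K) (p : Pol) (hp : pEven p = true) :
    evalP (envOf φ vals) (pPhi p) = φ (evalP (envOf φ vals) p) := by
  induction p with
  | nil => simp [pPhi, evalP]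
  | cons x xs ih =>
    simp only [pEven, List.all_cons, Bool.and_eq_true] at hp
    have e : pPhi (x :: xs) = pIns (mPhi x) (pPhi xs) := rfl
    rw [e, evalP_ins, ih hp.2, evalP_cons, evalM_mPhi φ hφ2 _ _ hp.1, map_add]

end env

end Cfsg.Agent.Lib.F24.Coll
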