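import Cfsg.Agent.Lib.F24.RelA

/-!
# The involutions of the unipotent radical of `²F₄` up to conjugation
-/

set_option autoImplicit false
set_option linter.unusedSectionVars false
set_option linter.unusedVariables false
set_option linter.ambiguousOpen false
set_option linter.dupNamespace false
set_option linter.unusedSimpArgs false
set_option maxRecDepth 100000

namespace Cfsg.Agent.Lib.F24.InvCls

open scoped MatrixGroups Matrix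
open Cfsg _root_.Cfsg.Lie ChevalleyDatum
open Cfsg.Agent.Lib.Chev
open Tables Tables2 Tables3 Raise Basic AxBasic Torus Products Products2 Mono1 Mono2 Mono3 Bn ChevSimple
open Cfsg.Agent.Lib.Twisted.Fact Cfsg.Agent.Lib.Twisted.Bruhat Cfsg.Agent.Lib.Twisted.Tw
open Cfsg.Agent.Lib.Twisted.Struct Cfsg.Agent.Lib.Twisted.Check Cfsg.Agent.Lib.Twisted.Ortho
open Cfsg.Agent.Lib.F24.Blocks Cfsg.Agent.Lib.F24.F4Data Cfsg.Agent.Lib.F24.Tw Cfsg.Agent.Lib.F24.WordEq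
open Cfsg.Agent.Lib.F24.TD Cfsg.Agent.Lib.F24.Main Cfsg.Agent.Lib.F24.InvForm
open Cfsg.Agent.Lib.F24.Cls Cfsg.Agent.Lib.F24.RelA
open Cfsg.Agent.Lib.Twisted.Struct.TD

variable {K : Type*} [Field K] [CharP K 2] (ax : Ax chevF4 K) (φ : K →+* K)

/-! ### Conjugation by the Weyl elements -/

section weyl

lemma conj_C0 (j : Fin 2) {r s r' s' : ℕ} (hr : r < 48) (hs : s < 48) (h1 : Inv.pw j r = r') (h2 : Inv.pw j s = s') (a : K) :
    nF ax j * C0 ax φ r s a * (nF ax j)⁻¹ = C0 ax φ r' s' a := by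
  have e1 : ∀ (g a b : GL chevF4.Idx K), g * (a * b) * g⁻¹ = (g * a * g⁻¹) * (g * b * g⁻¹) := by
    intro g a b
    group
  rw [C0, e1, conj_x ax j hr, conj_x ax j hs, h1, h2, C0]

lemma conj_αV (j : Fin 2) {a b ab aab a' b' ab' aab' : ℕ} (h0 : a < 48) (h1 : b < 48) (h2 : ab < 48) (h3 : aab < 48)
    (e0 : Inv.pw j a = a') (e1 : Inv.pw j b = b') (e2 : Inv.pw j ab = ab') (e3 : Inv.pw j aab = aab') (t u : K) :
    nF ax j * αV ax φ a b ab aab t u * (nF ax j)⁻¹ = αV ax φ a' b' ab' aab' t u := by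
  have e : ∀ (g a b : GL chevF4.Idx K), g * (a * b) * g⁻¹ = (g * a * g⁻¹) * (g * b * g⁻¹) := by
    intro g a b
    group
  simp only [αV, V, e]
  rw [conj_x ax j h0, conj_x ax j h1, conj_x ax j h2, conj_x ax j h3, e0, e1, e2, e3]

lemma n0_A2 (t u : K) : nF ax 0 * A2 ax φ t u * (nF ax 0)⁻¹ = A8 ax φ t u :=
  conj_αV ax φ 0 (by decide) (by decide) (by decide) (by decide) (by decide) (by decide) (by decide) (by decide) t u
lemma n0_A8 (t u : K) : nF ax 0 * A8 ax φ t u * (nF ax 0)⁻¹ = A2 ax φ t u :=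
  conj_αV ax φ 0 (by decide) (by decide) (by decide) (by decide) (by decide) (by decide) (by decide) (by decide) t u
lemma n0_A4 (t u : K) : nF ax 0 * A4 ax φ t u * (nF ax 0)⁻¹ = A6 ax φ t u :=
  conj_αV ax φ 0 (by decide) (by decide) (by decide) (by decide) (by decide) (by decide) (by decide) (by decide) t u
lemma n0_A6 (t u : K) : nF ax 0 * A6 ax φ t u * (nF ax 0)⁻¹ = A4 ax φ t u :=
  conj_αV ax φ 0 (by decide) (by decide) (by decide) (by decide) (by decide) (by decide) (by decide) (by decide) t u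
lemma n1_A2 (t u : K) : nF ax 1 * A2 ax φ t u * (nF ax 1)⁻¹ = A6 ax φ t u :=
  conj_αV ax φ 1 (by decide) (by decide) (by decide) (by decide) (by decide) (by decide) (by decide) (by decide) t u
lemma n1_A6 (t u : K) : nF ax 1 * A6 ax φ t u * (nF ax 1)⁻¹ = A2 ax φ t u :=
  conj_αV ax φ 1 (by decide) (by decide) (by decide) (by decide) (by decide) (by decide) (by decide) (by decide) t u
lemma n1_A4 (t u : K) : nF ax 1 * A4 ax φ t u * (nF ax 1)⁻¹ = A4 ax φ t u :=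
  conj_αV ax φ 1 (by decide) (by decide) (by decide) (by decide) (by decide) (by decide) (by decide) (by decide) t u
lemma n0_A3 (a : K) : nF ax 0 * A3 ax φ a * (nF ax 0)⁻¹ = A7 ax φ a :=
  conj_C0 ax φ 0 (by decide) (by decide) (by decide) (by decide) a
lemma n0_A7 (a : K) : nF ax 0 * A7 ax φ a * (nF ax 0)⁻¹ = A3 ax φ a :=
  conj_C0 ax φ 0 (by decide) (by decide) (by decide) (by decide) a
lemma n0_A5 (a : K) : nF ax 0 * A5 ax φ a * (nF ax 0)⁻¹ = A5 ax φ a :=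
  conj_C0 ax φ 0 (by decide) (by decide) (by decide) (by decide) a
lemma n1_A1 (a : K) : nF ax 1 * A1 ax φ a * (nF ax 1)⁻¹ = A7 ax φ a :=
  conj_C0 ax φ 1 (by decide) (by decide) (by decide) (by decide) a
lemma n1_A7 (a : K) : nF ax 1 * A7 ax φ a * (nF ax 1)⁻¹ = A1 ax φ a :=
  conj_C0 ax φ 1 (by decide) (by decide) (by decide) (by decide) a
lemma n1_A3 (a : K) : nF ax 1 * A3 ax φ a * (nF ax 1)⁻¹ = A5 ax φ a :=
  conj_C0 ax φ 1 (by decide) (by decide) (by decide) (by decide) a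
lemma n1_A5 (a : K) : nF ax 1 * A5 ax φ a * (nF ax 1)⁻¹ = A3 ax φ a :=
  conj_C0 ax φ 1 (by decide) (by decide) (by decide) (by decide) a

end weyl

/-! ### Vanishing parameters -/

lemma A1_zero : A1 ax φ 0 = 1 := by simp [C0, xG_zero]
lemma A3_zero : A3 ax φ 0 = 1 := by simp [C0, xG_zero]
lemma A5_zero : A5 ax φ 0 = 1 := by simp [C0, xG_zero]
lemma A7_zero : A7 ax φ 0 = 1 := by simp [C0, xG_zero]
lemma αV_zero (a b ab aab : ℕ) : αV ax φ a b ab aab 0 0 = 1 := by simp [αV, V, xG_zero]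
lemma A2_zero : A2 ax φ 0 0 = 1 := αV_zero ax φ _ _ _ _
lemma A4_zero : A4 ax φ 0 0 = 1 := αV_zero ax φ _ _ _ _
lemma A6_zero : A6 ax φ 0 0 = 1 := αV_zero ax φ _ _ _ _
lemma A8_zero : A8 ax φ 0 0 = 1 := αV_zero ax φ _ _ _ _

lemma gg_zero : gg ax φ 0 0 0 0 0 0 0 0 0 0 0 0 = 1 := by
  simp only [gg, A1_zero, A2_zero, A3_zero, A4_zero, A5_zero, A6_zero, A7_zero, A8_zero, one_mul]

lemma gg_A1 (a : K) : gg ax φ a 0 0 0 0 0 0 0 0 0 0 0 = A1 ax φ a := by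
  simp only [gg, A2_zero, A3_zero, A4_zero, A5_zero, A6_zero, A7_zero, A8_zero, mul_one]

lemma gg_A2 (u : K) : gg ax φ 0 0 u 0 0 0 0 0 0 0 0 0 = A2 ax φ 0 u := by
  simp only [gg, A1_zero, A3_zero, A4_zero, A5_zero, A6_zero, A7_zero, A8_zero, mul_one, one_mul]

lemma gg_A2A3 (u s : K) : gg ax φ 0 0 u s 0 0 0 0 0 0 0 0 = A2 ax φ 0 u * A3 ax φ s := by
  simp only [gg, A1_zero, A4_zero, A5_zero, A6_zero, A7_zero, A8_zero, mul_one, one_mul]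

/-! ### Conjugacy in the group -/

/-- Conjugacy in the group `²F₄`. -/
def Cj (e : ℕ) (g h : GL chevF4.Idx K) : Prop := ∃ n ∈ twistedF4 K e, n * g * n⁻¹ = h

variable {e : ℕ}

lemma Cj.refl (g : GL chevF4.Idx K) : Cj e g g := ⟨1, Subgroup.one_mem _, by simp⟩

lemma Cj.symm {g h : GL chevF4.Idx K} (H : Cj e g h) : Cj e h g := by
  obtain ⟨n, hn, rfl⟩ := H
  exact ⟨n⁻¹, Subgroup.inv_mem _ hn, by group⟩

lemma Cj.trans {g h k : GL chevF4.Idx K} (H : Cj e g h) (H' : Cj e h k) : Cj e g k := by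
  obtain ⟨n, hn, rfl⟩ := H
  obtain ⟨n', hn', rfl⟩ := H'
  exact ⟨n' * n, Subgroup.mul_mem _ hn' hn, by group⟩

lemma Cj.sq {g h : GL chevF4.Idx K} (H : Cj e g h) (hg : g * g = 1) : h * h = 1 := by
  obtain ⟨n, hn, rfl⟩ := H
  calc n * g * n⁻¹ * (n * g * n⁻¹) = n * (g * g) * n⁻¹ := by group
    _ = 1 := by rw [hg]; group

lemma Cj.ne {g h : GL chevF4.Idx K} (H : Cj e g h) (hg : g ≠ 1) : h ≠ 1 := by
  obtain ⟨n, hn, rfl⟩ := H
  intro h1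
  apply hg
  have : g = n⁻¹ * (n * g * n⁻¹) * n := by group
  rw [this, h1]
  group

variable (hφ : ∀ t, φ t = t ^ e) (hφ2 : ∀ t, (φ (φ t)) ^ 2 = t)

include hφ in
lemma mem_A1 (a : K) : A1 ax φ a ∈ twistedF4 K e :=
  mem_pair ax φ hφ (a := f4p1) (b := f4p4) (Or.inl ⟨rfl, rfl⟩) a

include hφ in
lemma mem_A8 (t u : K) : A8 ax φ t u ∈ twistedF4 K e :=
  mem_α ax φ hφ (a := f4a) (b := f4b) (ab := f4ab) (aab := f4aab) (Or.inl ⟨rfl, rfl, rfl, rfl⟩) t u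

include hφ in
lemma mem_n (j : Fin 2) : nF ax j ∈ twistedF4 K e := n_mem φ hφ ax j

lemma conj_mem {g h n : GL chevF4.Idx K} (hn : n ∈ twistedF4 K e) (hg : g ∈ twistedF4 K e) (H : n * g * n⁻¹ = h) :
    h ∈ twistedF4 K e := by
  rw [← H]
  exact Subgroup.mul_mem _ (Subgroup.mul_mem _ hn hg) (Subgroup.inv_mem _ hn)

include hφ in
lemma mem_A7 (a : K) : A7 ax φ a ∈ twistedF4 K e :=
  conj_mem (mem_n ax φ hφ 1) (mem_A1 ax φ hφ a) (n1_A1 ax φ a)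

include hφ in
lemma mem_A3 (a : K) : A3 ax φ a ∈ twistedF4 K e :=
  conj_mem (mem_n ax φ hφ 0) (mem_A7 ax φ hφ a) (n0_A7 ax φ a)

include hφ in
lemma mem_A5 (a : K) : A5 ax φ a ∈ twistedF4 K e :=
  conj_mem (mem_n ax φ hφ 1) (mem_A3 ax φ hφ a) (n1_A3 ax φ a)

include hφ in
lemma mem_A2 (t u : K) : A2 ax φ t u ∈ twistedF4 K e :=
  conj_mem (mem_n ax φ hφ 0) (mem_A8 ax φ hφ t u) (n0_A8 ax φ t u)

include hφ in
lemma mem_A6 (t u : K) : A6 ax φ t u ∈ twistedF4 K e :=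
  conj_mem (mem_n ax φ hφ 1) (mem_A2 ax φ hφ t u) (n1_A2 ax φ t u)

include hφ in
lemma mem_A4 (t u : K) : A4 ax φ t u ∈ twistedF4 K e :=
  conj_mem (mem_n ax φ hφ 0) (mem_A6 ax φ hφ t u) (n0_A6 ax φ t u)

/-! ### The Tits endomorphism -/

include hφ2 in
lemma F_φ (w : K) : (φ (φ w)) ^ 2 = w := hφ2 w

include hφ2 in
lemma φ_F (w : K) : φ ((φ w) ^ 2) = w := by
  rw [map_pow, hφ2]

lemma φ_ne {x : K} (h : x ≠ 0) : φ x ≠ 0 := (map_ne_zero _).mpr h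

lemma eq_zero_of_φ {x : K} (h : φ x = 0) : x = 0 := (map_eq_zero _).mp h

/-- The predicate of the end result. -/
def Good (e : ℕ) (ax : Ax chevF4 K) (φ : K →+* K) (g : GL chevF4.Idx K) : Prop :=
  (∃ a : K, a ≠ 0 ∧ Cj e g (A1 ax φ a)) ∨ (∃ u : K, u ≠ 0 ∧ Cj e g (A8 ax φ 0 u))

lemma Good.of_cj {g h : GL chevF4.Idx K} (H : Cj e g h) (hh : Good e ax φ h) : Good e ax φ g := by
  rcases hh with ⟨a, ha, h1⟩ | ⟨a, ha, h1⟩
  · exact Or.inl ⟨a, ha, H.trans h1⟩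
  · exact Or.inr ⟨a, ha, H.trans h1⟩

include hφ hφ2

/-! ### The first family -/

theorem F1 {a : K} (ha : a ≠ 0) (t2 u2 a3 t4 u4 a5 t6 u6 a7 : K)
    (h : gg ax φ a t2 u2 a3 t4 u4 a5 t6 u6 a7 0 0 * gg ax φ a t2 u2 a3 t4 u4 a5 t6 u6 a7 0 0 = 1) :
    Cj e (gg ax φ a t2 u2 a3 t4 u4 a5 t6 u6 a7 0 0) (A1 ax φ a) := by
  have hφa : φ a ≠ 0 := φ_ne φ ha
  have hFa : (φ a) ^ 2 ≠ 0 := pow_ne_zero _ hφa
  set c := t2 / a with hc
  set x := t4 / (φ a) ^ 2 + c * (φ c) ^ 2 with hx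
  set d := φ x with hd
  have e1 : a * c = t2 := by
    rw [hc]
    field_simp
  have e2 : (φ a) ^ 2 * (c * (φ c) ^ 2 + (φ d) ^ 2) = t4 := by
    rw [hd, hφ2, hx]
    have : c * (φ c) ^ 2 + (t4 / (φ a) ^ 2 + c * (φ c) ^ 2) = t4 / (φ a) ^ 2 := by
      have h2 : c * (φ c) ^ 2 + c * (φ c) ^ 2 = 0 := add_self' _
      linear_combination h2
    rw [this]
    field_simp
  obtain ⟨z2, z3, z5, z6, z7, z8, z9, hR⟩ := R2 ax φ hφ2 a c d u2 a3 u4 a5 t6 u6 a7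
  rw [e1, e2] at hR
  have hc1 : Cj e (gg ax φ a t2 u2 a3 t4 u4 a5 t6 u6 a7 0 0) (gg ax φ a 0 z2 z3 0 z5 z6 z7 z8 z9 0 0) :=
    ⟨_, mem_A8 ax φ hφ c d, hR⟩
  have hs := hc1.sq h
  obtain ⟨h36, h39, h44⟩ := R3 ax φ hφ2 a z2 z3 z5 z6 z7 z8 z9 hs
  have hz7 : z7 = 0 := eq_zero_of_φ φ ((mul_eq_zero.mp h36).resolve_left ha)
  have hz9 : z9 = 0 := (mul_eq_zero.mp h39).resolve_left (φ_ne φ ha)
  subst hz7 hz9
  have hz8 : z8 = 0 := by
    simp only [map_zero, mul_zero, zero_mul, add_zero, zero_add] at h44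
    exact (mul_eq_zero.mp h44).resolve_left (φ_ne φ ha)
  subst hz8
  refine hc1.trans ?_
  -- the last step
  set e' := φ (z6 / a) with he'
  have hFe : (φ e') ^ 2 = z6 / a := by rw [he', hφ2]
  set f := φ ((z3 + (φ a) ^ 2 * e') / a) with hf
  have hFf : (φ f) ^ 2 = (z3 + (φ a) ^ 2 * e') / a := by rw [hf, hφ2]
  set w := (z2 + a * φ f) / φ a with hw
  set j := (φ w) ^ 2 with hj
  have hφj : φ j = w := by rw [hj, φ_F φ hφ2]
  set h' := (z5 + φ a * φ e' * φ j + a * φ e' * φ f) / φ a with hh'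
  have hR4 := R4 ax φ hφ2 a e' f h' j
  have i1 : φ a * φ j + a * φ f = z2 := by
    rw [hφj, hw]
    have := φ_ne φ ha
    field_simp
    have h2 : a * φ f + a * φ f = 0 := add_self' _
    linear_combination h2
  have i2 : (φ a) ^ 2 * e' + a * (φ f) ^ 2 = z3 := by
    rw [hFf]
    field_simp
    have h2 : (φ a) ^ 2 * e' + (φ a) ^ 2 * e' = 0 := add_self' _
    linear_combination h2
  have i3 : φ a * φ e' * φ j + φ a * h' + a * φ e' * φ f = z5 := by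
    rw [hh']
    have := φ_ne φ ha
    field_simp
    have h2 : φ a * φ e' * φ j + φ a * φ e' * φ j = 0 := add_self' _
    have h3 : a * φ e' * φ f + a * φ e' * φ f = 0 := add_self' _
    linear_combination h2 + h3
  have i4 : a * (φ e') ^ 2 = z6 := by
    rw [hFe]
    field_simp
  rw [i1, i2, i3, i4, gg_A1] at hR4
  exact Cj.symm ⟨_, Subgroup.mul_mem _ (Subgroup.mul_mem _ (mem_A7 ax φ hφ _) (mem_A6 ax φ hφ _ _)) (mem_A4 ax φ hφ _ _), hR4⟩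

/-! ### The Weyl moves -/

omit hφ2 in
theorem shift (a3 t4 u4 a5 t6 u6 a7 t8 u8 : K) :
    Cj e (gg ax φ 0 0 0 a3 t4 u4 a5 t6 u6 a7 t8 u8) (gg ax φ a3 t4 u4 a5 t6 u6 a7 t8 u8 0 0 0) := by
  have hn : nF ax 1 * nF ax 0 ∈ twistedF4 K e := Subgroup.mul_mem _ (mem_n ax φ hφ 1) (mem_n ax φ hφ 0)
  refine ⟨_, hn, ?_⟩
  have e1 : ∀ (g a b : GL chevF4.Idx K), g * (a * b) * g⁻¹ = (g * a * g⁻¹) * (g * b * g⁻¹) := by
    intro g a b
    group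
  have key : ∀ X : GL chevF4.Idx K, nF ax 1 * nF ax 0 * X * (nF ax 1 * nF ax 0)⁻¹ =
      nF ax 1 * (nF ax 0 * X * (nF ax 0)⁻¹) * (nF ax 1)⁻¹ := by
    intro X
    group
  rw [key]
  simp only [gg, A1_zero, A2_zero, A7_zero, A8_zero, one_mul, mul_one, e1, n0_A3, n0_A4, n0_A5, n0_A6, n0_A7, n0_A8,
    n1_A7, n1_A6, n1_A5, n1_A4, n1_A3, n1_A2]

omit hφ2 in
theorem wmove (u s : K) : Cj e (A2 ax φ 0 u * A3 ax φ s) (A2 ax φ 0 u * A1 ax φ s) := by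
  have e1 : ∀ (g a b : GL chevF4.Idx K), g * (a * b) * g⁻¹ = (g * a * g⁻¹) * (g * b * g⁻¹) := by
    intro g a b
    group
  have c1 : Cj e (A2 ax φ 0 u * A3 ax φ s) (A6 ax φ 0 u * A5 ax φ s) :=
    ⟨_, mem_n ax φ hφ 1, by rw [e1, n1_A2, n1_A3]⟩
  have c2 : Cj e (A6 ax φ 0 u * A5 ax φ s) (A4 ax φ 0 u * A5 ax φ s) :=
    ⟨_, mem_n ax φ hφ 0, by rw [e1, n0_A6, n0_A5]⟩
  have c3 : Cj e (A4 ax φ 0 u * A5 ax φ s) (A4 ax φ 0 u * A3 ax φ s) :=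
    ⟨_, mem_n ax φ hφ 1, by rw [e1, n1_A4, n1_A5]⟩
  have c4 : Cj e (A4 ax φ 0 u * A3 ax φ s) (A6 ax φ 0 u * A7 ax φ s) :=
    ⟨_, mem_n ax φ hφ 0, by rw [e1, n0_A4, n0_A3]⟩
  have c5 : Cj e (A6 ax φ 0 u * A7 ax φ s) (A2 ax φ 0 u * A1 ax φ s) :=
    ⟨_, mem_n ax φ hφ 1, by rw [e1, n1_A6, n1_A7]⟩
  exact c1.trans (c2.trans (c3.trans (c4.trans c5)))

omit hφ2 in
theorem A2_A8 (t u : K) : Cj e (A2 ax φ t u) (A8 ax φ t u) := ⟨_, mem_n ax φ hφ 0, n0_A2 ax φ t u⟩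

/-! ### The second family -/

omit hφ hφ2 in
lemma φmul_eq_one (hφ2 : ∀ t, (φ (φ t)) ^ 2 = t) {r : K} (h : φ r * r = 1) : r = 1 := by
  have h0 : r ≠ 0 := by
    rintro rfl
    simp at h
  have h1 : φ r = r⁻¹ := eq_inv_of_mul_eq_one_left h
  have h2 : φ (φ r) = r := by
    rw [h1, map_inv₀, h1, inv_inv]
  have h3 := hφ2 r
  rw [h2] at h3
  have h4 : r * (r - 1) = 0 := by linear_combination h3
  exact sub_eq_zero.mp ((mul_eq_zero.mp h4).resolve_left h0)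

omit hφ hφ2 in
lemma φmul_surj [Finite K] (hφ2 : ∀ t, (φ (φ t)) ^ 2 = t) (u : K) : ∃ t, φ t * t = u := by
  have hinj : Function.Injective fun t : K => φ t * t := by
    intro s t hst
    simp only at hst
    by_cases ht : t = 0
    · subst ht
      simp only [map_zero, mul_zero] at hst
      have := mul_eq_zero.mp hst
      rcases this with h | h
      · exact (map_eq_zero _).mp h
      · exact h
    · have h1 : φ (s / t) * (s / t) = 1 := by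
        have h2 : φ t ≠ 0 := (map_ne_zero _).mpr ht
        rw [map_div₀, div_mul_div_comm, hst, div_self (mul_ne_zero h2 ht)]
      exact (div_eq_one_iff_eq ht).mp (φmul_eq_one φ hφ2 h1)
  exact (Finite.injective_iff_surjective.mp hinj) u

/-- The element `A₂(0,u)A₃(s)` with `s ≠ 0` is conjugate to `A₁(s)`. -/
theorem A2A3_A1 {s : K} (hs : s ≠ 0) (u : K) : Cj e (gg ax φ 0 0 u s 0 0 0 0 0 0 0 0) (A1 ax φ s) := by
  have hφs := φ_ne φ hs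
  rw [gg_A2A3]
  refine (wmove ax φ hφ u s).trans ?_
  -- the two factors commute
  have h1 := R11 ax φ hφ2 s u
  rw [gg_A2] at h1
  have h2 : A2 ax φ 0 u * A1 ax φ s = A1 ax φ s * A2 ax φ 0 u := by
    have : A1 ax φ s * A2 ax φ 0 u = A1 ax φ s * A2 ax φ 0 u * (A1 ax φ s)⁻¹ * A1 ax φ s := by group
    rw [this, h1]
  rw [h2]
  have h3 := R10 ax φ hφ2 s ((φ (u / φ s)) ^ 2)
  rw [φ_F φ hφ2] at h3
  have h4 : φ s * (u / φ s) = u := by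
    field_simp
  rw [h4, gg_A1] at h3
  have h5 : gg ax φ s 0 u 0 0 0 0 0 0 0 0 0 = A1 ax φ s * A2 ax φ 0 u := by
    simp only [gg, A3_zero, A4_zero, A5_zero, A6_zero, A7_zero, A8_zero, A2_zero, mul_one]
  rw [h5] at h3
  exact Cj.symm ⟨_, mem_A4 ax φ hφ _ _, h3⟩

theorem F2 [Finite K] {u : K} (hu : u ≠ 0) (a3 t4 u4 a5 t6 u6 a7 : K)
    (h : gg ax φ 0 0 u a3 t4 u4 a5 t6 u6 a7 0 0 * gg ax φ 0 0 u a3 t4 u4 a5 t6 u6 a7 0 0 = 1) :
    Good e ax φ (gg ax φ 0 0 u a3 t4 u4 a5 t6 u6 a7 0 0) := by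
  have hφu : φ u ≠ 0 := φ_ne φ hu
  have hFu : (φ u) ^ 2 ≠ 0 := pow_ne_zero _ hφu
  set c := a3 / (φ u) ^ 2 with hc
  set d := φ (a5 / (φ u) ^ 2) with hd
  have e1 : (φ u) ^ 2 * c = a3 := by
    rw [hc]
    field_simp
  have e2 : (φ u) ^ 2 * (φ d) ^ 2 = a5 := by
    rw [hd, hφ2]
    field_simp
  obtain ⟨z5, z8, z9, hR⟩ := R7 ax φ hφ2 u c d t4 u4 t6 u6 a7
  rw [e1, e2] at hR
  have hc1 : Cj e (gg ax φ 0 0 u a3 t4 u4 a5 t6 u6 a7 0 0) (gg ax φ 0 0 u 0 t4 z5 0 t6 z8 z9 0 0) :=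
    ⟨_, mem_A8 ax φ hφ c d, hR⟩
  refine Good.of_cj ax φ hc1 ?_
  have hs := hc1.sq h
  obtain ⟨h40, h44, h45⟩ := R5 ax φ hφ2 u 0 t4 z5 0 t6 z8 z9 0 hs
  simp only [map_zero, mul_zero, zero_mul, add_zero, zero_add, ne_eq, OfNat.ofNat_ne_zero, not_false_eq_true,
    zero_pow] at h40 h44 h45
  have ht4 : t4 = 0 := by
    by_contra ht
    have ht6 : t6 = 0 := (mul_eq_zero.mp h45).resolve_left ht
    subst ht6
    simp only [map_zero, mul_zero, zero_mul, add_zero, zero_add] at h40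
    have hz9 : z9 = 0 := eq_zero_of_φ φ ((mul_eq_zero.mp h40).resolve_right (φ_ne φ ht))
    subst hz9
    simp only [map_zero, mul_zero, zero_mul, add_zero, zero_add] at h44
    exact (mul_ne_zero ht (φ_ne φ ht)) h44
  subst ht4
  simp only [map_zero, mul_zero, zero_mul, add_zero, zero_add] at h40 h44
  have hz9 : z9 = 0 := eq_zero_of_φ φ ((mul_eq_zero.mp h44).resolve_right hu)
  subst hz9
  have ht6 : t6 = 0 := by
    rcases mul_eq_zero.mp h40 with h1 | h1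
    · exact h1
    · exact eq_zero_of_φ φ h1
  subst ht6
  -- killing the parameter `u₄`
  have hk : ∀ s v z : K, Cj e (gg ax φ 0 0 u s 0 z 0 0 v 0 0 0) (gg ax φ 0 0 u s 0 0 0 0 v 0 0 0) := by
    intro s v z
    have h1 := R8 ax φ hφ2 u s ((φ (z / u)) ^ 2) v
    rw [φ_F φ hφ2] at h1
    have h2 : u * (z / u) = z := by
      field_simp
    rw [h2] at h1
    exact ⟨_, mem_A7 ax φ hφ _, h1⟩
  refine Good.of_cj ax φ (hk 0 z8 z5) ?_
  by_cases hv : z8 = 0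
  · subst hv
    rw [gg_A2]
    exact Or.inr ⟨u, hu, A2_A8 ax φ hφ 0 u⟩
  · obtain ⟨w, hw⟩ := φmul_surj φ hφ2 (z8 / u)
    set c' := φ w with hc'
    have hFc : (φ c') ^ 2 = w := by rw [hc', hφ2]
    have hv' : u * c' * (φ c') ^ 2 = z8 := by
      rw [hFc, hc', mul_assoc, hw]
      field_simp
    have hc0 : c' ≠ 0 := by
      intro h0
      rw [h0] at hv'
      simp only [mul_zero, zero_mul] at hv'
      exact hv hv'.symm
    have h1 := R9 ax φ hφ2 u c'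
    rw [hv'] at h1
    have hc2 : Cj e (gg ax φ 0 0 u 0 0 0 0 0 z8 0 0 0) (gg ax φ 0 0 u ((φ u) ^ 2 * c') 0 ((φ u) ^ 2 * (φ c' * c')) 0 0 0 0 0 0) :=
      ⟨_, mem_A8 ax φ hφ _ _, h1⟩
    refine Good.of_cj ax φ hc2 ?_
    have h2 := hk ((φ u) ^ 2 * c') 0 ((φ u) ^ 2 * (φ c' * c'))
    refine Good.of_cj ax φ h2 ?_
    exact Or.inl ⟨_, mul_ne_zero hFu hc0, A2A3_A1 ax φ hφ hφ2 (mul_ne_zero hFu hc0) u⟩

/-! ### The end of the reduction -/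

theorem kill [Finite K] (a1 t2 u2 a3 t4 u4 a5 t6 u6 a7 : K)
    (h : gg ax φ a1 t2 u2 a3 t4 u4 a5 t6 u6 a7 0 0 * gg ax φ a1 t2 u2 a3 t4 u4 a5 t6 u6 a7 0 0 = 1) :
    Good e ax φ (gg ax φ a1 t2 u2 a3 t4 u4 a5 t6 u6 a7 0 0) ∨ (a1 = 0 ∧ t2 = 0 ∧ u2 = 0) := by
  by_cases ha : a1 = 0
  · subst ha
    obtain ⟨-, h36⟩ := sqA ax φ hφ2 0 t2 u2 a3 t4 u4 a5 t6 u6 a7 0 h
    simp only [map_zero, mul_zero, zero_mul, add_zero, zero_add] at h36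
    have ht2 : t2 = 0 := by
      rcases mul_eq_zero.mp h36 with h1 | h1
      · exact h1
      · exact eq_zero_of_φ φ h1
    subst ht2
    by_cases hu : u2 = 0
    · exact Or.inr ⟨rfl, rfl, hu⟩
    · exact Or.inl (F2 ax φ hφ hφ2 hu _ _ _ _ _ _ _ h)
  · exact Or.inl (Or.inl ⟨a1, ha, F1 ax φ hφ hφ2 ha _ _ _ _ _ _ _ _ _ h⟩)

theorem T3 [Finite K] (a1 t2 u2 : K)
    (h : gg ax φ a1 t2 u2 0 0 0 0 0 0 0 0 0 * gg ax φ a1 t2 u2 0 0 0 0 0 0 0 0 0 = 1)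
    (hne : gg ax φ a1 t2 u2 0 0 0 0 0 0 0 0 0 ≠ 1) : Good e ax φ (gg ax φ a1 t2 u2 0 0 0 0 0 0 0 0 0) := by
  rcases kill ax φ hφ hφ2 _ _ _ _ _ _ _ _ _ _ h with hg | ⟨rfl, rfl, rfl⟩
  · exact hg
  · exact absurd (gg_zero ax φ) hne

theorem T2 [Finite K] (a1 t2 u2 a3 t4 u4 : K)
    (h : gg ax φ a1 t2 u2 a3 t4 u4 0 0 0 0 0 0 * gg ax φ a1 t2 u2 a3 t4 u4 0 0 0 0 0 0 = 1)
    (hne : gg ax φ a1 t2 u2 a3 t4 u4 0 0 0 0 0 0 ≠ 1) : Good e ax φ (gg ax φ a1 t2 u2 a3 t4 u4 0 0 0 0 0 0) := by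
  rcases kill ax φ hφ hφ2 _ _ _ _ _ _ _ _ _ _ h with hg | ⟨rfl, rfl, rfl⟩
  · exact hg
  · have hc := shift ax φ hφ a3 t4 u4 0 0 0 0 0 0
    exact Good.of_cj ax φ hc (T3 ax φ hφ hφ2 _ _ _ (hc.sq h) (hc.ne hne))

theorem T1 [Finite K] (a1 t2 u2 a3 t4 u4 a5 t6 u6 : K)
    (h : gg ax φ a1 t2 u2 a3 t4 u4 a5 t6 u6 0 0 0 * gg ax φ a1 t2 u2 a3 t4 u4 a5 t6 u6 0 0 0 = 1)
    (hne : gg ax φ a1 t2 u2 a3 t4 u4 a5 t6 u6 0 0 0 ≠ 1) : Good e ax φ (gg ax φ a1 t2 u2 a3 t4 u4 a5 t6 u6 0 0 0) := by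
  rcases kill ax φ hφ hφ2 _ _ _ _ _ _ _ _ _ _ h with hg | ⟨rfl, rfl, rfl⟩
  · exact hg
  · have hc := shift ax φ hφ a3 t4 u4 a5 t6 u6 0 0 0
    exact Good.of_cj ax φ hc (T2 ax φ hφ hφ2 _ _ _ _ _ _ (hc.sq h) (hc.ne hne))

/-- The classification of the involutions of `U¹`. -/
theorem T0 [Finite K] (a1 t2 u2 a3 t4 u4 a5 t6 u6 a7 t8 u8 : K)
    (h : gg ax φ a1 t2 u2 a3 t4 u4 a5 t6 u6 a7 t8 u8 * gg ax φ a1 t2 u2 a3 t4 u4 a5 t6 u6 a7 t8 u8 = 1)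
    (hne : gg ax φ a1 t2 u2 a3 t4 u4 a5 t6 u6 a7 t8 u8 ≠ 1) :
    Good e ax φ (gg ax φ a1 t2 u2 a3 t4 u4 a5 t6 u6 a7 t8 u8) := by
  have h28 := sqT8 ax φ hφ2 _ _ _ _ _ _ _ _ _ _ _ _ h
  have ht8 : t8 = 0 := by
    rcases mul_eq_zero.mp h28 with h1 | h1
    · exact h1
    · exact eq_zero_of_φ φ h1
  subst ht8
  obtain ⟨h29, h36⟩ := sqA ax φ hφ2 _ _ _ _ _ _ _ _ _ _ _ h
  by_cases ha : a1 = 0
  · subst ha
    simp only [map_zero, mul_zero, zero_mul, add_zero, zero_add] at h36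
    have ht2 : t2 = 0 := by
      rcases mul_eq_zero.mp h36 with h1 | h1
      · exact h1
      · exact eq_zero_of_φ φ h1
    subst ht2
    have hsh : ∀ a3 t4 u4 a5 t6 u6 a7 u8 : K,
        gg ax φ 0 0 0 a3 t4 u4 a5 t6 u6 a7 0 u8 * gg ax φ 0 0 0 a3 t4 u4 a5 t6 u6 a7 0 u8 = 1 →
        gg ax φ 0 0 0 a3 t4 u4 a5 t6 u6 a7 0 u8 ≠ 1 → Good e ax φ (gg ax φ 0 0 0 a3 t4 u4 a5 t6 u6 a7 0 u8) := by
      intro a3 t4 u4 a5 t6 u6 a7 u8 h hne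
      have hc := shift ax φ hφ a3 t4 u4 a5 t6 u6 a7 0 u8
      exact Good.of_cj ax φ hc (T1 ax φ hφ hφ2 _ _ _ _ _ _ _ _ _ (hc.sq h) (hc.ne hne))
    by_cases hu8 : u8 = 0
    · subst hu8
      rcases kill ax φ hφ hφ2 _ _ _ _ _ _ _ _ _ _ h with hg | ⟨-, -, rfl⟩
      · exact hg
      · exact hsh _ _ _ _ _ _ _ _ h hne
    · by_cases hu2 : u2 = 0
      · subst hu2
        exact hsh _ _ _ _ _ _ _ _ h hne
      · have hFu8 : (φ u8) ^ 2 ≠ 0 := pow_ne_zero _ (φ_ne φ hu8)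
        set x := φ (t4 / (φ u8) ^ 2) with hx
        have hφu8 := φ_ne φ hu8
        have e1 : (φ x) ^ 2 * (φ u8) ^ 2 = t4 := by
          rw [hx, hφ2]
          field_simp
        obtain ⟨z2, z3, z5, z6, z7, z8, z9, hR⟩ := R6 ax φ hφ2 x u2 a3 u4 a5 t6 u6 a7 u8
        rw [e1] at hR
        have hc : Cj e (gg ax φ 0 0 u2 a3 t4 u4 a5 t6 u6 a7 0 u8) (gg ax φ 0 0 z2 z3 0 z5 z6 z7 z8 z9 0 u8) :=
          ⟨_, mem_A1 ax φ hφ x, hR⟩
        have hs := hc.sq h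
        have hne' := hc.ne hne
        obtain ⟨-, -, h45⟩ := R5 ax φ hφ2 _ _ _ _ _ _ _ _ _ hs
        simp only [map_zero, mul_zero, zero_mul, add_zero, zero_add] at h45
        have hz2 : z2 = 0 := by
          rcases mul_eq_zero.mp h45 with h1 | h1
          · exact eq_zero_of_φ φ (pow_eq_zero_iff (two_ne_zero)|>.mp h1)
          · exact absurd h1 hFu8
        subst hz2
        exact Good.of_cj ax φ hc (hsh _ _ _ _ _ _ _ _ hs hne')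
  · have hu8 : u8 = 0 := (mul_eq_zero.mp h29).resolve_left ha
    subst hu8
    exact Or.inl ⟨a1, ha, F1 ax φ hφ hφ2 ha _ _ _ _ _ _ _ _ _ h⟩

end Cfsg.Agent.Lib.F24.InvCls
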