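import Cfsg.Agent.Lib.Twisted.OutB
import Cfsg.Agent.Lib.Twisted.F4O
import Cfsg.Agent.Lib.F24.InvForm
import Cfsg.Agent.Lib.F24.Simple
import Cfsg.Agent.Lib.KS71.ChevFix
import Cfsg.Agent.Lib.KS71.PSLAutGroup
import Cfsg.Agent.Lib.Classical.OmegaOut

/-!
# The automorphisms of the large Ree groups

Every automorphism of `²F₄(q)`, `q = 2^(2m+1) ≥ 8`, is an inner automorphism times a field automorphism,
and `Out(²F₄(q))` has order `2m+1`.
-/

set_option autoImplicit false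
set_option linter.unusedTactic false
set_option linter.unreachableTactic false
set_option linter.unusedSectionVars false
set_option linter.unusedVariables false
set_option linter.ambiguousOpen false
set_option linter.dupNamespace false
set_option linter.style.haveILetI false

namespace Cfsg.Agent.Lib.F24.OutF

open scoped MatrixGroups Matrix commutatorElement Pointwise
open Cfsg _root_.Cfsg.Lie ChevalleyDatum
open Cfsg.Agent.Lib.Chev
open Tables Tables2 Tables3 Raise Basic AxBasic Torus Products Products2 Mono1 Mono2 Mono3 Bn ChevSimple Diag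
open Cfsg.Agent.Lib.Twisted.Fact Cfsg.Agent.Lib.Twisted.Bruhat Cfsg.Agent.Lib.Twisted.Tw
open Cfsg.Agent.Lib.Twisted.Struct Cfsg.Agent.Lib.Twisted.Check Cfsg.Agent.Lib.Twisted.Ortho
open Cfsg.Agent.Lib.Twisted.TorusFix Cfsg.Agent.Lib.Twisted.OutA Cfsg.Agent.Lib.Twisted.OutB
open Cfsg.Agent.Lib.F24.Blocks Cfsg.Agent.Lib.F24.F4Data Cfsg.Agent.Lib.F24.Tw Cfsg.Agent.Lib.F24.WordEq
open Cfsg.Agent.Lib.F24.TD Cfsg.Agent.Lib.F24.Main Cfsg.Agent.Lib.F24.H1 Cfsg.Agent.Lib.F24.PerfF4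
open Cfsg.Agent.Lib.KS71.ChevFix

/-- The group. -/
abbrev GG (F : Type*) [Field F] (e : ℕ) := ↥(twistedF4 F e)

/-- The context. -/
structure Ctx (F : Type*) [Field F] [Fintype F] [CharP F 2] (e : ℕ) where
  ax : Ax chevF4 F
  φ : F →+* F
  hφ : ∀ t, φ t = t ^ e
  hφ2 : ∀ t, (φ (φ t)) ^ 2 = t
  hmov : ∃ a : F, φ a ≠ a
  hP : IsPGroup 2 (cU chevF4 F (twistedF4 F e))
  hI : ¬ 2 ∣ (cU chevF4 F (twistedF4 F e)).index
  hcen : Subgroup.center (GG F e) = ⊥

variable {F : Type*} [Field F] [Fintype F] [CharP F 2] {e : ℕ} (C : Ctx F e)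

/-- The values of a character. -/
lemma chi_vals2 (x y : Fˣ) (φ : F →+* F) :
    chi chevF4 (vec4 (φu φ x) (φu φ y) y x) 33 = φu φ x ∧ chi chevF4 (vec4 (φu φ x) (φu φ y) y x) 24 = x ∧
    chi chevF4 (vec4 (φu φ x) (φu φ y) y x) 27 = φu φ y ∧ chi chevF4 (vec4 (φu φ x) (φu φ y) y x) 25 = y ∧
    chi chevF4 (vec4 (φu φ x) (φu φ y) y x) 28 = φu φ y * y ∧ chi chevF4 (vec4 (φu φ x) (φu φ y) y x) 30 = (φu φ y) ^ 2 * y ∧
    chi chevF4 (vec4 (φu φ x) (φu φ y) y x) 23 = x⁻¹ ∧ chi chevF4 (vec4 (φu φ x) (φu φ y) y x) 26 = y * x := by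
  rw [chi_coef _ 33 1 0 0 0 (by decide +kernel), chi_coef _ 24 0 0 0 1 (by decide +kernel),
    chi_coef _ 27 0 1 0 0 (by decide +kernel), chi_coef _ 25 0 0 1 0 (by decide +kernel),
    chi_coef _ 28 0 1 1 0 (by decide +kernel), chi_coef _ 30 0 2 1 0 (by decide +kernel),
    chi_coef _ 23 0 0 0 (-1) (by decide +kernel), chi_coef _ 26 0 0 1 1 (by decide +kernel)]
  simp [vec4]

namespace Ctx

/-- The twisted data. -/
noncomputable def T : TD hF C.ax (twF C.φ C.ax) (twistedF4 F e) := TF C.φ C.hφ C.hφ2 C.ax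

/-- Elements of the first class. -/
noncomputable def x0 (t : F) : GG F e :=
  ⟨xG C.ax f4p1 (C.φ t) * xG C.ax f4p4 t, mem_pair C.ax C.φ C.hφ (Or.inl ⟨rfl, rfl⟩) t⟩

/-- Elements of the second class. -/
noncomputable def x1 (t u : F) : GG F e :=
  ⟨αV C.ax C.φ f4a f4b f4ab f4aab t u, mem_α C.ax C.φ C.hφ (Or.inl ⟨rfl, rfl, rfl, rfl⟩) t u⟩

/-- Elements of the negative of the first class. -/
noncomputable def y0 (t : F) : GG F e :=
  ⟨xG C.ax f4m1 (C.φ t) * xG C.ax f4m4 t, mem_pair C.ax C.φ C.hφ (Or.inr ⟨rfl, rfl⟩) t⟩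

/-- Elements of the negative of the second class. -/
noncomputable def y1 (t u : F) : GG F e :=
  ⟨αV C.ax C.φ f4ma f4mb f4mab f4maab t u, mem_α C.ax C.φ C.hφ (Or.inr ⟨rfl, rfl, rfl, rfl⟩) t u⟩

lemma x0_add (s t : F) : C.x0 s * C.x0 t = C.x0 (s + t) := by
  apply Subtype.ext
  show xG C.ax f4p1 (C.φ s) * xG C.ax f4p4 s * (xG C.ax f4p1 (C.φ t) * xG C.ax f4p4 t) =
    xG C.ax f4p1 (C.φ (s + t)) * xG C.ax f4p4 (s + t)
  rw [map_add, ← xG_add, ← xG_add]
  have H : CommPair chevF4 f4p4 f4p1 := by decide +kernel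
  have := H.comm C.ax s (C.φ t)
  calc xG C.ax f4p1 (C.φ s) * xG C.ax f4p4 s * (xG C.ax f4p1 (C.φ t) * xG C.ax f4p4 t)
      = xG C.ax f4p1 (C.φ s) * (xG C.ax f4p4 s * xG C.ax f4p1 (C.φ t)) * xG C.ax f4p4 t := by group
    _ = xG C.ax f4p1 (C.φ s) * (xG C.ax f4p1 (C.φ t) * xG C.ax f4p4 s) * xG C.ax f4p4 t := by rw [← this]
    _ = _ := by group

lemma x0_inj {s t : F} (h : C.x0 s = C.x0 t) : s = t := by
  have H' : CommPair chevF4 33 24 := by decide +kernel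
  have hg' : GoodList chevF4 [24, 33] := ⟨by decide, by decide +kernel, by decide +kernel⟩
  have e2 : xG C.ax 33 (C.φ s) * xG C.ax 24 s = xG C.ax 33 (C.φ t) * xG C.ax 24 t := congrArg Subtype.val h
  have e3 : xG C.ax 24 s * xG C.ax 33 (C.φ s) = xG C.ax 24 t * xG C.ax 33 (C.φ t) := by
    rw [H'.comm C.ax, H'.comm C.ax]
    exact e2
  exact (pair_unique hF hF2 C.ax (by decide) hg' e3).1

lemma x0_zero : C.x0 0 = 1 := by
  apply Subtype.ext
  show xG C.ax f4p1 (C.φ 0) * xG C.ax f4p4 0 = 1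
  simp [xG_zero]

lemma x1_mul (t u t' u' : F) : C.x1 t u * C.x1 t' u' = C.x1 (t + t') (u + u' + C.φ t * t') :=
  Subtype.ext (α_mul C.ax bt_pos btx_pos C.φ C.hφ2 t u t' u')

lemma x1_inj {t u t' u' : F} (h : C.x1 t u = C.x1 t' u') : t = t' ∧ u = u' := by
  have e2 : αV C.ax C.φ f4a f4b f4ab f4aab t u = αV C.ax C.φ f4a f4b f4ab f4aab t' u' := congrArg Subtype.val h
  obtain ⟨h1, h2, h3, h4⟩ := V_unique C.ax e2
  subst h2
  exact ⟨rfl, add_left_cancel h3⟩

lemma x1_zero : C.x1 0 0 = 1 := by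
  apply Subtype.ext
  show αV C.ax C.φ f4a f4b f4ab f4aab 0 0 = 1
  simp [αV, V, xG_zero]

lemma x1_sq (t u : F) : C.x1 t u * C.x1 t u = C.x1 0 (C.φ t * t) := by
  rw [x1_mul, add_self', add_self', zero_add]

/-- Each element is a product of two of a special form. -/
lemma x1_split (t u : F) : C.x1 t u = C.x1 t 0 * C.x1 0 u := by
  rw [x1_mul]
  simp

lemma mem_A0 {g : GG F e} : g ∈ cA C.T (0 : Fin 2) ↔ ∃ t, g = C.x0 t := by
  constructor
  · intro hg
    have h1 : (g : GL chevF4.Idx F) ∈ rootClosure C.ax (Psi chevF4 (· ∈ Cf.cls 0)) := Subgroup.mem_subgroupOf.mp hg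
    obtain ⟨t, ht⟩ := cl_pair C.φ C.ax h1 (G1_le C.φ C.hφ C.hφ2 C.ax g.2).2
    exact ⟨t, Subtype.ext ht⟩
  · rintro ⟨t, rfl⟩
    rw [Subgroup.mem_subgroupOf]
    exact Subgroup.mul_mem _ (xG_mem_rootClosure C.ax (mem_psi_of_check psi0 (by decide) (by simp [f4p1])) _)
      (xG_mem_rootClosure C.ax (mem_psi_of_check psi0 (by decide) (by simp [f4p4])) _)

lemma mem_A1 {g : GG F e} : g ∈ cA C.T (1 : Fin 2) ↔ ∃ t u, g = C.x1 t u := by
  constructor
  · intro hg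
    have h1 : (g : GL chevF4.Idx F) ∈ rootClosure C.ax (Psi chevF4 (· ∈ Cf.cls 1)) := Subgroup.mem_subgroupOf.mp hg
    obtain ⟨t, u, ht⟩ := cl_B C.φ C.hφ2 C.ax h1 (G1_le C.φ C.hφ C.hφ2 C.ax g.2).2
    exact ⟨t, u, Subtype.ext ht⟩
  · rintro ⟨t, u, rfl⟩
    rw [Subgroup.mem_subgroupOf]
    show αV C.ax C.φ f4a f4b f4ab f4aab t u ∈ _
    simp only [αV, V]
    have hm : ∀ r ∈ [25, 27, 28, 30], r < chevF4.nroots → ∀ t : F, xG C.ax r t ∈ rootClosure C.ax (Psi chevF4 (· ∈ Cf.cls 1)) :=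
      fun r hr hn t => xG_mem_rootClosure C.ax (mem_psi_of_check psi1 hn hr) t
    exact Subgroup.mul_mem _ (Subgroup.mul_mem _ (Subgroup.mul_mem _ (hm _ (by simp [f4a]) (by decide) _) (hm _ (by simp [f4b]) (by decide) _))
      (hm _ (by simp [f4ab]) (by decide) _)) (hm _ (by simp [f4aab]) (by decide) _)

/-- The torus, in terms of its action on the simple roots. -/
noncomputable def hh0 (x y : Fˣ) : GL chevF4.Idx F := tor chevF4 (vec4 (φu C.φ x) (φu C.φ y) y x)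

omit [Fintype F] in
lemma φu_φu (u : Fˣ) (φ : F →+* F) (hφ2 : ∀ t, (φ (φ t)) ^ 2 = t) : (φu φ (φu φ u)) ^ 2 = u := Units.ext (by
    rw [Units.val_pow_eq_pow_val]
    exact hφ2 u)

/-- The parameters of `Φ` in terms of the action on the simple roots. -/
lemma Φ_eq (a b : Fˣ) : Φ C.φ (a, b) = C.hh0 (a ^ 2 * b⁻¹) ((φu C.φ b)⁻¹ ^ 2 * b ^ 2 * a⁻¹) := by
  rw [Φ_apply, hh0, tor_eq_iff hF]
  obtain ⟨h0, h1, h2, h3⟩ := psi_F4 (vec4 (φu C.φ a) (φu C.φ b) b a)
  have hφφ := φu_φu b C.φ C.hφ2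
  intro j hj
  have hj' : j < 4 := hj
  interval_cases j
  · rw [h0]
    simp [vec4, map_mul, map_pow, map_inv]
  · rw [h1]
    simp [vec4, map_mul, map_pow, map_inv, hφφ]
    ac_rfl
  · rw [h2]
    simp [vec4]
  · rw [h3]
    simp [vec4]
    rw [mul_comm]

lemma hh0_mem' (x y : Fˣ) : C.hh0 x y ∈ chevF4.diagonalSubgroup F ⊓ twistedF4 F e := by
  let Ξ : Fˣ × Fˣ → Fˣ × Fˣ := fun p => (p.1 ^ 2 * p.2⁻¹, (φu C.φ p.2)⁻¹ ^ 2 * p.2 ^ 2 * p.1⁻¹)
  have hinj : Function.Injective Ξ := by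
    rintro ⟨a, b⟩ ⟨a', b'⟩ h
    have h1 : Φ C.φ (a, b) = Φ C.φ (a', b') := by
      rw [C.Φ_eq, C.Φ_eq]
      have h2 := congrArg Prod.fst h
      have h3 := congrArg Prod.snd h
      simp only [Ξ] at h2 h3
      rw [h2, h3]
    exact Φ_inj C.φ h1
  obtain ⟨⟨a, b⟩, hab⟩ := (Finite.injective_iff_surjective.mp hinj) (x, y)
  have h2 : a ^ 2 * b⁻¹ = x := congrArg Prod.fst hab
  have h3 : (φu C.φ b)⁻¹ ^ 2 * b ^ 2 * a⁻¹ = y := congrArg Prod.snd hab
  have h5 : Φ C.φ (a, b) = C.hh0 x y := by rw [C.Φ_eq, h2, h3]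
  rw [← h5, ← range_eq C.φ C.hφ C.hφ2 C.ax]
  exact ⟨_, rfl⟩

lemma hh0_mem (x y : Fˣ) : C.hh0 x y ∈ twistedF4 F e := (C.hh0_mem' x y).2

lemma mem_H {g : GG F e} : g ∈ cH chevF4 F (twistedF4 F e) ↔ ∃ x y, g.1 = C.hh0 x y := by
  constructor
  · intro hg
    have h1 : g.1 ∈ chevF4.diagonalSubgroup F ⊓ twistedF4 F e := ⟨Subgroup.mem_subgroupOf.mp hg, g.2⟩
    rw [← range_eq C.φ C.hφ C.hφ2 C.ax] at h1
    obtain ⟨⟨a, b⟩, hab⟩ := h1
    exact ⟨_, _, hab.symm.trans (C.Φ_eq a b)⟩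
  · rintro ⟨x, y, h⟩
    rw [Subgroup.mem_subgroupOf, h]
    exact (C.hh0_mem' x y).1

/-- The torus. -/
noncomputable def hh (x y : Fˣ) : GG F e := ⟨C.hh0 x y, C.hh0_mem x y⟩

lemma hh_mem (x y : Fˣ) : C.hh x y ∈ cH chevF4 F (twistedF4 F e) := C.mem_H.mpr ⟨x, y, rfl⟩

lemma hh_mul (x y x' y' : Fˣ) : C.hh x y * C.hh x' y' = C.hh (x * x') (y * y') := by
  apply Subtype.ext
  show tor chevF4 _ * tor chevF4 _ = tor chevF4 _
  rw [← tor_mul, tor_eq_iff hF]
  intro j hj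
  have hj' : j < 4 := hj
  interval_cases j <;> simp [vec4, map_mul] <;> ac_rfl

lemma hh_one : C.hh 1 1 = 1 := by
  apply Subtype.ext
  show tor chevF4 _ = 1
  rw [← tor_one, tor_eq_iff hF]
  intro j hj
  have hj' : j < 4 := hj
  interval_cases j <;> simp [vec4]

lemma hh_inv (x y : Fˣ) : (C.hh x y)⁻¹ = C.hh x⁻¹ y⁻¹ := by
  apply inv_eq_of_mul_eq_one_left
  rw [hh_mul, inv_mul_cancel, inv_mul_cancel, hh_one]

lemma hh_comm (x y x' y' : Fˣ) : C.hh x y * C.hh x' y' = C.hh x' y' * C.hh x y := by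
  rw [hh_mul, hh_mul, mul_comm x, mul_comm y]

lemma hh_inj {x y x' y' : Fˣ} (h : C.hh x y = C.hh x' y') : x = x' ∧ y = y' := by
  have h1 : tor chevF4 _ = (tor chevF4 _ : GL chevF4.Idx F) := congrArg Subtype.val h
  rw [tor_eq_iff hF] at h1
  exact ⟨h1 3 (by decide), h1 2 (by decide)⟩

lemma hh_conj0 (x y : Fˣ) (t : F) : C.hh x y * C.x0 t * (C.hh x y)⁻¹ = C.x0 ((x : F) * t) := by
  apply Subtype.ext
  show tor chevF4 _ * (xG C.ax f4p1 (C.φ t) * xG C.ax f4p4 t) * (tor chevF4 _)⁻¹ =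
    xG C.ax f4p1 (C.φ ((x : F) * t)) * xG C.ax f4p4 ((x : F) * t)
  obtain ⟨h1, h2, -⟩ := chi_vals2 x y C.φ
  have e1 : ∀ (g a b : GL chevF4.Idx F), g * (a * b) * g⁻¹ = (g * a * g⁻¹) * (g * b * g⁻¹) := by
    intro g a b
    group
  rw [e1, tor_conj_xG C.ax hF _ (by decide), tor_conj_xG C.ax hF _ (by decide)]
  simp only [f4p1, f4p4, h1, h2, map_mul]
  rfl

lemma hh_conj1 (x y : Fˣ) (t u : F) :
    C.hh x y * C.x1 t u * (C.hh x y)⁻¹ = C.x1 ((y : F) * t) (C.φ y * y * u) := by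
  apply Subtype.ext
  obtain ⟨-, -, h3, h4, h5, h6, -⟩ := chi_vals2 x y C.φ
  have hconj : ∀ (r : ℕ) (_ : r < chevF4.nroots) (t : F), (C.hh x y).1 * xG C.ax r t * ((C.hh x y).1)⁻¹ =
      xG C.ax r ((chi chevF4 (vec4 (φu C.φ x) (φu C.φ y) y x) r : Fˣ) * t) :=
    fun r hr t => tor_conj_xG C.ax hF _ hr t
  refine α_conj C.ax bt_pos btx_pos C.φ C.hφ2 y ?_ ?_ ?_ ?_ t u
  · intro t
    rw [hconj _ (by decide)]
    simp only [f4b, h4]
  · intro t
    rw [hconj _ (by decide)]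
    simp only [f4a, h3]
    rfl
  · intro t
    rw [hconj _ (by decide)]
    simp only [f4ab, h5]
    rfl
  · intro t
    rw [hconj _ (by decide)]
    simp only [f4aab, h6]
    rfl

include C in
lemma φmul_eq_one {r : F} (h : C.φ r * r = 1) : r = 1 := by
  have h0 : r ≠ 0 := by
    rintro rfl
    simp at h
  have h1 : C.φ r = r⁻¹ := eq_inv_of_mul_eq_one_left h
  have h2 : C.φ (C.φ r) = r := by
    rw [h1, map_inv₀, h1, inv_inv]
  have h3 := C.hφ2 r
  rw [h2] at h3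
  have h4 : r * (r - 1) = 0 := by linear_combination h3
  exact sub_eq_zero.mp ((mul_eq_zero.mp h4).resolve_left h0)

include C in
lemma φmul_surj (u : F) : ∃ t, C.φ t * t = u := by
  have hinj : Function.Injective fun t : F => C.φ t * t := by
    intro s t hst
    simp only at hst
    by_cases ht : t = 0
    · subst ht
      simp only [map_zero, mul_zero] at hst
      have := mul_eq_zero.mp hst
      rcases this with h | h
      · exact (map_eq_zero _).mp h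
      · exact h
    · have h1 : C.φ (s / t) * (s / t) = 1 := by
        have h2 : C.φ t ≠ 0 := (map_ne_zero _).mpr ht
        rw [map_div₀, div_mul_div_comm, hst, div_self (mul_ne_zero h2 ht)]
      exact (div_eq_one_iff_eq ht).mp (C.φmul_eq_one h1)
  exact (Finite.injective_iff_surjective.mp hinj) u

/-- An element of the field different from `0` and `1`. -/
lemma exists_unit : ∃ a : Fˣ, (a : F) ≠ 1 ∧ C.φ a ≠ a := by
  obtain ⟨a, ha⟩ := C.hmov
  have h0 : a ≠ 0 := by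
    rintro rfl
    simp at ha
  refine ⟨Units.mk0 a h0, ?_, ha⟩
  rintro (h1 : a = 1)
  subst h1
  simp at ha

theorem CA (j : Fin 2) (a : GG F e) (ha : a ∈ cA C.T j)
    (hc : ∀ x ∈ cH chevF4 F (twistedF4 F e), x * a * x⁻¹ = a) : a = 1 := by
  obtain ⟨l, hl1, -⟩ := C.exists_unit
  have hl2 : (l : F) - 1 ≠ 0 := sub_ne_zero.mpr hl1
  fin_cases j
  · obtain ⟨t, rfl⟩ := C.mem_A0.mp ha
    have h1 := hc _ (C.hh_mem l 1)
    rw [hh_conj0] at h1
    have h2 := C.x0_inj h1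
    have h3 : t = 0 := by
      have h4 : ((l : F) - 1) * t = 0 := by linear_combination h2
      exact (mul_eq_zero.mp h4).resolve_left hl2
    rw [h3, x0_zero]
  · obtain ⟨t, u, rfl⟩ := C.mem_A1.mp ha
    have h1 := hc _ (C.hh_mem 1 l)
    rw [hh_conj1] at h1
    obtain ⟨h2, h3⟩ := C.x1_inj h1
    have h4 : t = 0 := by
      have h4 : ((l : F) - 1) * t = 0 := by linear_combination h2
      exact (mul_eq_zero.mp h4).resolve_left hl2
    have h5 : u = 0 := by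
      have h6 : (C.φ l * l - 1) * u = 0 := by linear_combination h3
      refine (mul_eq_zero.mp h6).resolve_left fun h7 => hl1 (C.φmul_eq_one (sub_eq_zero.mp h7))
    rw [h4, h5, x1_zero]

lemma card_A0 : Nat.card (cA C.T (0 : Fin 2)) = Nat.card F := by
  symm
  refine Nat.card_congr (Equiv.ofBijective (fun t => (⟨C.x0 t, C.mem_A0.mpr ⟨t, rfl⟩⟩ : cA C.T (0 : Fin 2))) ⟨?_, ?_⟩)
  · intro s t h
    exact C.x0_inj (congrArg Subtype.val h)
  · rintro ⟨g, hg⟩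
    obtain ⟨t, rfl⟩ := C.mem_A0.mp hg
    exact ⟨t, rfl⟩

lemma card_A1 : Nat.card (cA C.T (1 : Fin 2)) = Nat.card (F × F) := by
  symm
  refine Nat.card_congr (Equiv.ofBijective (fun p : F × F => (⟨C.x1 p.1 p.2, C.mem_A1.mpr ⟨p.1, p.2, rfl⟩⟩ : cA C.T (1 : Fin 2))) ⟨?_, ?_⟩)
  · rintro ⟨s, t⟩ ⟨s', t'⟩ h
    obtain ⟨h1, h2⟩ := C.x1_inj (congrArg Subtype.val h)
    exact Prod.ext h1 h2
  · rintro ⟨g, hg⟩
    obtain ⟨t, u, rfl⟩ := C.mem_A1.mp hg
    exact ⟨(t, u), rfl⟩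

theorem A_card (j j' : Fin 2) (h : Nat.card (cA C.T j) = Nat.card (cA C.T j')) : j = j' := by
  have h2 : 1 < Nat.card F := Finite.one_lt_card
  have key : Nat.card (cA C.T (0 : Fin 2)) ≠ Nat.card (cA C.T (1 : Fin 2)) := by
    rw [card_A0, card_A1, Nat.card_prod]
    intro e
    have : Nat.card F * 1 = Nat.card F * Nat.card F := by rw [mul_one]; exact e
    have := Nat.eq_of_mul_eq_mul_left (by omega) this
    omega
  fin_cases j <;> fin_cases j'
  · rfl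
  · exact absurd h key
  · exact absurd h.symm key
  · rfl

theorem form (j : Fin 2) : ∃ a ∈ cA C.T j, ∃ y ∈ cA' C.T j, ∃ a' ∈ cA C.T j, cn C.T j = a * y * a' := by
  have hneg : ∀ {r r' : ℕ} {j : Fin 2} (_ : r < chevF4.nroots) (_ : chevF4.neg r = r') (_ : Psi chevF4 (· ∈ Cf.cls j) r') (t : F),
      xG C.ax r t ∈ rootClosure C.ax (NPsi chevF4 (· ∈ Cf.cls j)) := by
    intro r r' j hr he hp t
    exact xG_mem_rootClosure C.ax ⟨hr, he ▸ hp⟩ t
  fin_cases j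
  · refine ⟨C.x0 1, C.mem_A0.mpr ⟨1, rfl⟩, C.y0 1, ?_, C.x0 1, C.mem_A0.mpr ⟨1, rfl⟩, ?_⟩
    · rw [Subgroup.mem_subgroupOf]
      show xG C.ax f4m1 (C.φ 1) * xG C.ax f4m4 1 ∈ _
      exact Subgroup.mul_mem _
        (hneg (j := 0) (r' := 33) (by decide) (by decide) (mem_psi_of_check psi0 (by decide) (by simp)) _)
        (hneg (j := 0) (r' := 24) (by decide) (by decide) (mem_psi_of_check psi0 (by decide) (by simp)) _)
    · apply Subtype.ext
      show nw chevF4 C.ax [0, 3] = (xG C.ax f4p1 (C.φ 1) * xG C.ax f4p4 1) * (xG C.ax f4m1 (C.φ 1) * xG C.ax f4m4 1) *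
        (xG C.ax f4p1 (C.φ 1) * xG C.ax f4p4 1)
      have e33 : chevF4.simple 0 = 33 := by decide
      have e24 : chevF4.simple 3 = 24 := by decide
      have h := nG_pair C.ax (p := 33) (q := 24) (by decide +kernel) (by decide +kernel) (by decide +kernel)
      have n33 : chevF4.neg 33 = 14 := by decide
      have n24 : chevF4.neg 24 = 23 := by decide
      rw [n33, n24, neg_eq] at h
      have e1 : nw chevF4 C.ax [0, 3] = nG C.ax 33 1 * nG C.ax 24 1 := by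
        simp only [nw, List.map_cons, List.map_nil, List.prod_cons, List.prod_nil, mul_one, sG, e33, e24]
      rw [e1, h, map_one]
      rfl
  · refine ⟨C.x1 1 0, C.mem_A1.mpr ⟨1, 0, rfl⟩, C.y1 0 1, ?_, C.x1 1 1, C.mem_A1.mpr ⟨1, 1, rfl⟩, ?_⟩
    · rw [Subgroup.mem_subgroupOf]
      show αV C.ax C.φ f4ma f4mb f4mab f4maab 0 1 ∈ _
      simp only [αV, V]
      refine Subgroup.mul_mem _ (Subgroup.mul_mem _ (Subgroup.mul_mem _ ?_ ?_) ?_) ?_
      · exact hneg (j := 1) (r' := 27) (by decide) (by decide) (mem_psi_of_check psi1 (by decide) (by simp)) _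
      · exact hneg (j := 1) (r' := 25) (by decide) (by decide) (mem_psi_of_check psi1 (by decide) (by simp)) _
      · exact hneg (j := 1) (r' := 28) (by decide) (by decide) (mem_psi_of_check psi1 (by decide) (by simp)) _
      · exact hneg (j := 1) (r' := 30) (by decide) (by decide) (mem_psi_of_check psi1 (by decide) (by simp)) _
    · apply Subtype.ext
      show nw chevF4 C.ax [1, 2, 1, 2] = αV C.ax C.φ f4a f4b f4ab f4aab 1 0 * αV C.ax C.φ f4ma f4mb f4mab f4maab 0 1 *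
        αV C.ax C.φ f4a f4b f4ab f4aab 1 1
      rw [n₁_eq C.ax]
      simp only [αV, map_one, map_zero, mul_one, add_zero, zero_mul, zero_add, one_pow, add_self']
      have e0 : (0 : F) ^ 2 = 0 := by simp
      rw [e0]

open Cfsg.Agent.Lib.F24.InvForm in
theorem gen_top : Subgroup.closure ((⋃ j : C.T.ι, ((cA C.T j : Subgroup (GG F e)) : Set (GG F e))) ∪ Set.range (cn C.T)) = ⊤ := by
  set Cl := Subgroup.closure ((⋃ j : C.T.ι, ((cA C.T j : Subgroup (GG F e)) : Set (GG F e))) ∪ Set.range (cn C.T)) with hCl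
  have hn : ∀ j, cn C.T j ∈ Cl := fun j => Subgroup.subset_closure (Or.inr ⟨j, rfl⟩)
  have hA : ∀ (j : C.T.ι) {x : GL chevF4.Idx F} (hx : x ∈ TD.fixCl (twF C.φ C.ax) (Psi chevF4 (C.T.J j))),
      ∃ hxG : x ∈ twistedF4 F e, (⟨x, hxG⟩ : GG F e) ∈ Cl := by
    intro j x hx
    have hxG : x ∈ twistedF4 F e := C.T.cl j x hx.1 hx.2.2
    refine ⟨hxG, Subgroup.subset_closure (Or.inl (Set.mem_iUnion.mpr ⟨j, ?_⟩))⟩
    exact Subgroup.mem_subgroupOf.mpr hx.1
  have hForm : ∀ (L : List C.T.ι) (u : GL chevF4.Idx F), Form C.T L u →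
      ∃ hu : u ∈ twistedF4 F e, (⟨u, hu⟩ : GG F e) ∈ Cl := by
    intro L
    induction L with
    | nil =>
      intro u hu
      have hu' : u = 1 := hu
      subst hu'
      exact ⟨Subgroup.one_mem _, Subgroup.one_mem _⟩
    | cons j L ih =>
      rintro u ⟨x, hx, z, hz, rfl⟩
      obtain ⟨hxG, hxC⟩ := hA j hx
      obtain ⟨hzG, hzC⟩ := ih z hz
      have hnj := hn j
      refine ⟨Subgroup.mul_mem _ hxG (Subgroup.mul_mem _ (Subgroup.mul_mem _ (C.T.n_mem j) hzG) (Subgroup.inv_mem _ (C.T.n_mem j))), ?_⟩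
      exact Subgroup.mul_mem _ hxC (Subgroup.mul_mem _ (Subgroup.mul_mem _ hnj hzC) (Subgroup.inv_mem _ hnj))
  have hU : ∀ {u : GL chevF4.Idx F} (hu : u ∈ chevF4.posUnipotent F ⊓ twistedF4 F e), (⟨u, hu.2⟩ : GG F e) ∈ Cl := by
    intro u hu
    have hF' : Form C.T Cf.L₀ u :=
      form_of_tables Cf hF2 (factsF C.φ C.ax) (nF C.ax) (G1_le C.φ C.hφ C.hφ2 C.ax) (n_mem C.φ C.hφ C.ax) (n_mono C.ax)
        (n_nor C.ax) (cl C.φ C.hφ C.hφ2 C.ax) (x_ne C.φ C.hφ C.ax) (Cfsg.Agent.Lib.F24.TD.gen C.ax) chainCf hu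
    obtain ⟨_, h⟩ := hForm _ u hF'
    exact h
  have hprod : ∀ L : List (Fin 2), ∃ hp : ClsTab.prodN (nF C.ax) L ∈ twistedF4 F e, (⟨_, hp⟩ : GG F e) ∈ Cl := by
    intro L
    induction L with
    | nil => exact ⟨Subgroup.one_mem _, Subgroup.one_mem _⟩
    | cons j L ih =>
      obtain ⟨hp, hpC⟩ := ih
      exact ⟨Subgroup.mul_mem _ hp (C.T.n_mem j), Subgroup.mul_mem _ hpC (hn j)⟩
  obtain ⟨hN₀, hN₀C⟩ := hprod Cf.L₀
  have hV : ∀ {v : GL chevF4.Idx F} (hv : v ∈ chevF4.negUnipotent F ⊓ twistedF4 F e), (⟨v, hv.2⟩ : GG F e) ∈ Cl := by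
    intro v hv
    have h1 : C.T.n₀⁻¹ * v * C.T.n₀ ∈ chevF4.posUnipotent F := C.T.n₀_conj_V hF2 hv.1
    have h2 : C.T.n₀⁻¹ * v * C.T.n₀ ∈ twistedF4 F e :=
      Subgroup.mul_mem _ (Subgroup.mul_mem _ (Subgroup.inv_mem _ C.T.n₀_mem) hv.2) C.T.n₀_mem
    have h3 := hU ⟨h1, h2⟩
    have e1 : (⟨v, hv.2⟩ : GG F e) = ⟨_, hN₀⟩ * ⟨C.T.n₀⁻¹ * v * C.T.n₀, h2⟩ * (⟨_, hN₀⟩ : GG F e)⁻¹ := by
      apply Subtype.ext
      show v = C.T.n₀ * (C.T.n₀⁻¹ * v * C.T.n₀) * C.T.n₀⁻¹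
      group
    rw [e1]
    exact Subgroup.mul_mem _ (Subgroup.mul_mem _ hN₀C h3) (Subgroup.inv_mem _ hN₀C)
  have hle : twistedF4 F e ≤ Cl.map (twistedF4 F e).subtype := by
    refine (Cfsg.Agent.Lib.F24.TD.gen C.ax).trans (sup_le ?_ ?_)
    · intro u hu
      exact ⟨_, hU hu, rfl⟩
    · intro v hv
      exact ⟨_, hV hv, rfl⟩
  rw [eq_top_iff]
  intro g _
  obtain ⟨g', hg', e1⟩ := hle g.2
  have : g' = g := Subtype.ext e1
  exact this ▸ hg'

/-- The data of `OutA`. -/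
noncomputable def R : RD (GG F e) C.T.ι :=
  mkRD C.T hF2 C.CA C.A_card C.form C.gen_top

/-! ### The action of `n₀` on the torus -/

lemma chi_of_conj {g : GL chevF4.Idx F} {π : Equiv.Perm (Fin chevF4.nroots)} {c : Fin chevF4.nroots → Fˣ}
    (H : IsNor hF C.ax g π c) {y y' : ℕ → Fˣ} (he : g * tor chevF4 y * g⁻¹ = tor chevF4 y') (r : Fin chevF4.nroots) :
    chi chevF4 y' (π r) = chi chevF4 y r := by
  have h1 := H.conj r ((chi chevF4 y r : Fˣ) * 1)
  have h2 := H.conj r 1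
  have h3 := tor_conj_xG C.ax hF y r.isLt (1 : F)
  have h4 := tor_conj_xG C.ax hF y' (π r).isLt ((c r : F) * 1)
  have e1 : g * (tor chevF4 y * xG C.ax r 1 * (tor chevF4 y)⁻¹) * g⁻¹ =
      (g * tor chevF4 y * g⁻¹) * (g * xG C.ax r 1 * g⁻¹) * (g * tor chevF4 y * g⁻¹)⁻¹ := by group
  rw [h3, h1, he, h2, h4] at e1
  have h5 : (c r : F) * ((chi chevF4 y r : Fˣ) * 1) ≠ 0 :=
    mul_ne_zero (c r).ne_zero (mul_ne_zero (chi chevF4 y r).ne_zero one_ne_zero)
  have h6 := (xG_eq_iff C.ax hF hF2 (π r).isLt (π r).isLt h5 e1).2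
  apply Units.ext
  have h7 : (c r : F) * (((chi chevF4 y r : Fˣ) : F) - ((chi chevF4 y' (π r) : Fˣ) : F)) = 0 := by
    linear_combination h6
  have h8 := (mul_eq_zero.mp h7).resolve_left (c r).ne_zero
  exact (sub_eq_zero.mp h8).symm

theorem n0_conj_hh (x y : Fˣ) : cn C.T (0 : Fin 2) * C.hh x y * (cn C.T (0 : Fin 2))⁻¹ = C.hh x⁻¹ (x * y) := by
  have hg := n_H C.T hF2 (0 : Fin 2) _ (C.hh_mem x y)
  obtain ⟨a, b, hab⟩ := C.mem_H.mp hg
  obtain ⟨c, H⟩ := C.T.n_nor (0 : Fin 2)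
  have he : C.T.n (0 : Fin 2) * tor chevF4 (vec4 (φu C.φ x) (φu C.φ y) y x) * (C.T.n (0 : Fin 2))⁻¹ =
      tor chevF4 (vec4 (φu C.φ a) (φu C.φ b) b a) := hab
  have h23 := C.chi_of_conj H he ⟨23, by decide⟩
  have h26 := C.chi_of_conj H he ⟨26, by decide⟩
  have e23 : ((C.T.w (0 : Fin 2) ⟨23, by decide⟩ : Fin chevF4.nroots) : ℕ) = 24 :=
    (wPw_val hF (wl_lt (0 : Fin 2)) _).trans (by decide +kernel)
  have e26 : ((C.T.w (0 : Fin 2) ⟨26, by decide⟩ : Fin chevF4.nroots) : ℕ) = 25 :=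
    (wPw_val hF (wl_lt (0 : Fin 2)) _).trans (by decide +kernel)
  rw [e23] at h23
  rw [e26] at h26
  obtain ⟨-, h1, -, -, -, -, h3, -⟩ := chi_vals2 x y C.φ
  obtain ⟨-, -, -, -, -, -, -, h4⟩ := chi_vals2 x y C.φ
  obtain ⟨-, h5, -, h6, -⟩ := chi_vals2 a b C.φ
  rw [h5, h3] at h23
  rw [h6, h4] at h26
  apply Subtype.ext
  show _ = C.hh0 x⁻¹ (x * y)
  have e2 : (cn C.T (0 : Fin 2) * C.hh x y * (cn C.T (0 : Fin 2))⁻¹ : GG F e).1 = C.hh0 a b := hab
  rw [e2, h23, h26, mul_comm y x]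

/-! ### Field automorphisms -/

lemma f_comm (τ : F ≃+* F) (t : F) : τ (C.φ t) = C.φ (τ t) := by
  rw [C.hφ, C.hφ, map_pow]

lemma mapX_α (τ : F ≃+* F) {a b ab aab : ℕ} (t u : F) :
    mapX chevF4 (τ : F →+* F) (αV C.ax C.φ a b ab aab t u) = αV C.ax C.φ a b ab aab (τ t) (τ u) := by
  simp only [αV, V, map_mul, mapX_xG C.ax C.ax]
  simp only [RingEquiv.coe_toRingHom, map_add, map_mul, map_pow, f_comm]

include C in
lemma mapX_mem (τ : F ≃+* F) {g : GL chevF4.Idx F} (hg : g ∈ twistedF4 F e) :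
    mapX chevF4 (τ : F →+* F) g ∈ twistedF4 F e := by
  have key : twistedF4 F e ≤ (twistedF4 F e).comap (mapX chevF4 (τ : F →+* F)) := by
    rw [twistedF4, genSubgroup, Subgroup.closure_le]
    rintro g ⟨w, hw, hg⟩
    rw [SetLike.mem_coe, Subgroup.mem_comap]
    rcases hw with ⟨t, rfl | rfl⟩ | ⟨t, u, rfl | rfl⟩
    · have e1 : g = xG C.ax f4p1 (C.φ t) * xG C.ax f4p4 t := Units.ext (by
        rw [hg]; simp [wordMat, f4PairWord, C.hφ])
      rw [e1, map_mul, mapX_xG C.ax C.ax, mapX_xG C.ax C.ax]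
      simp only [RingEquiv.coe_toRingHom, f_comm]
      exact mem_pair C.ax C.φ C.hφ (Or.inl ⟨rfl, rfl⟩) _
    · have e1 : g = xG C.ax f4m1 (C.φ t) * xG C.ax f4m4 t := Units.ext (by
        rw [hg]; simp [wordMat, f4PairWord, C.hφ])
      rw [e1, map_mul, mapX_xG C.ax C.ax, mapX_xG C.ax C.ax]
      simp only [RingEquiv.coe_toRingHom, f_comm]
      exact mem_pair C.ax C.φ C.hφ (Or.inr ⟨rfl, rfl⟩) _
    · have e1 : g = αV C.ax C.φ f4a f4b f4ab f4aab t u := Units.ext (by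
        rw [hg]
        exact word_α C.ax C.φ C.hφ _ _ _ _ t u)
      rw [e1, C.mapX_α]
      exact mem_α C.ax C.φ C.hφ (Or.inl ⟨rfl, rfl, rfl, rfl⟩) _ _
    · have e1 : g = αV C.ax C.φ f4ma f4mb f4mab f4maab t u := Units.ext (by
        rw [hg]
        exact word_α C.ax C.φ C.hφ _ _ _ _ t u)
      rw [e1, C.mapX_α]
      exact mem_α C.ax C.φ C.hφ (Or.inr ⟨rfl, rfl, rfl, rfl⟩) _ _
  exact key hg

/-- The field automorphism. -/
noncomputable def fld (τ : F ≃+* F) : MulAut (GG F e) where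
  toFun g := ⟨mapX chevF4 (τ : F →+* F) g.1, C.mapX_mem τ g.2⟩
  invFun g := ⟨mapX chevF4 (τ.symm : F →+* F) g.1, C.mapX_mem τ.symm g.2⟩
  left_inv g := by
    apply Subtype.ext
    apply Units.ext
    ext a b
    simp
  right_inv g := by
    apply Subtype.ext
    apply Units.ext
    ext a b
    simp
  map_mul' a b := by
    apply Subtype.ext
    simp

lemma fld_x0 (τ : F ≃+* F) (t : F) : C.fld τ (C.x0 t) = C.x0 (τ t) := by
  apply Subtype.ext
  show mapX chevF4 (τ : F →+* F) (xG C.ax f4p1 (C.φ t) * xG C.ax f4p4 t) = xG C.ax f4p1 (C.φ (τ t)) * xG C.ax f4p4 (τ t)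
  rw [map_mul, mapX_xG C.ax C.ax, mapX_xG C.ax C.ax]
  simp only [RingEquiv.coe_toRingHom, f_comm]

lemma fld_x1 (τ : F ≃+* F) (t u : F) : C.fld τ (C.x1 t u) = C.x1 (τ t) (τ u) :=
  Subtype.ext (C.mapX_α τ t u)

lemma fld_hh (τ : F ≃+* F) (x y : Fˣ) :
    C.fld τ (C.hh x y) = C.hh (Units.map (τ : F →* F) x) (Units.map (τ : F →* F) y) := by
  apply Subtype.ext
  show mapX chevF4 (τ : F →+* F) (tor chevF4 _) = tor chevF4 _
  rw [mapX_tor, tor_eq_iff hF]
  intro j hj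
  have hj' : j < 4 := hj
  have e1 : ∀ v : Fˣ, Units.map (τ : F →* F) (φu C.φ v) = φu C.φ (Units.map (τ : F →* F) v) := by
    intro v
    apply Units.ext
    exact C.f_comm τ v
  interval_cases j
  · simp only [vec4]
    exact e1 x
  · simp only [vec4]
    exact e1 y
  · simp only [vec4]
    rfl
  · simp only [vec4]
    rfl

theorem fld_mul (σ τ : F ≃+* F) : C.fld (σ * τ) = C.fld σ * C.fld τ := by
  refine MulEquiv.ext fun g => ?_
  apply Subtype.ext
  apply Units.ext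
  ext a b
  rfl

theorem fld_one : C.fld (1 : F ≃+* F) = 1 := by
  refine MulEquiv.ext fun g => ?_
  apply Subtype.ext
  apply Units.ext
  ext a b
  rfl

theorem fld_inv (σ : F ≃+* F) : C.fld σ⁻¹ = (C.fld σ)⁻¹ := by
  rw [eq_inv_iff_mul_eq_one, ← fld_mul, inv_mul_cancel, fld_one]

lemma fld_U (τ : F ≃+* F) {g : GG F e} (hg : g ∈ cU chevF4 F (twistedF4 F e)) : C.fld τ g ∈ cU chevF4 F (twistedF4 F e) := by
  rw [Subgroup.mem_subgroupOf] at hg ⊢
  exact mapX_U C.ax C.ax _ hg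

lemma fld_V (τ : F ≃+* F) {g : GG F e} (hg : g ∈ cV chevF4 F (twistedF4 F e)) : C.fld τ g ∈ cV chevF4 F (twistedF4 F e) := by
  rw [Subgroup.mem_subgroupOf] at hg ⊢
  rw [negUnipotent_eq C.ax] at hg ⊢
  exact mapX_rootClosure C.ax C.ax _ hg

omit [Fintype F] [CharP F 2] in
/-- A semilinear additive map is a scalar multiple of a ring automorphism. -/
lemma exists_ring_aut [Finite F] (f : F → F) (ρ : Fˣ → Fˣ) (hadd : ∀ s t, f (s + t) = f s + f t)
    (hmul : ∀ (l : Fˣ) t, f (l * t) = ρ l * f t) (h1 : f 1 ≠ 0) :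
    ∃ σ : F ≃+* F, (∀ t, f t = f 1 * σ t) ∧ ∀ l : Fˣ, (ρ l : F) = σ l := by
  have hf0 : f 0 = 0 := by
    have h := hadd 0 0
    rw [add_zero] at h
    exact left_eq_add.mp h
  have hρ' : ∀ l : Fˣ, f (l : F) = (ρ l : F) * f 1 := by
    intro l
    have := hmul l 1
    rwa [mul_one] at this
  let s : F →+* F :=
    { toFun := fun x => f x * (f 1)⁻¹
      map_one' := mul_inv_cancel₀ h1
      map_mul' := by
        intro x y
        by_cases hx : x = 0
        · subst hx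
          simp [hf0]
        · have h2 := hmul (Units.mk0 x hx) y
          have h3 := hρ' (Units.mk0 x hx)
          simp only [Units.val_mk0] at h2 h3
          rw [h2, h3]
          field_simp
      map_zero' := by simp [hf0]
      map_add' := by
        intro x y
        rw [hadd]
        ring }
  let σ : F ≃+* F := RingEquiv.ofBijective s ⟨s.injective, Finite.surjective_of_injective s.injective⟩
  have hσ : ∀ x, σ x = f x * (f 1)⁻¹ := fun _ => rfl
  refine ⟨σ, fun t => ?_, fun l => ?_⟩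
  · rw [hσ]
    field_simp
  · rw [hσ, hρ', mul_assoc, mul_inv_cancel₀ h1, mul_one]

/-- An automorphism preserving `U` and `V` is a diagonal times a field automorphism. -/
theorem eq_conj_field (β : MulAut (GG F e)) (hβ : C.R.Pres β) :
    ∃ (σ : F ≃+* F) (c d : Fˣ), β = MulAut.conj (C.hh c d) * C.fld σ := by
  have hA0 : ∀ t, ∃ t', β (C.x0 t) = C.x0 t' := fun t =>
    C.mem_A0.mp (hβ.A (j := (0 : Fin 2)) (C.mem_A0.mpr ⟨t, rfl⟩))
  have hA1 : ∀ t u, ∃ t' u', β (C.x1 t u) = C.x1 t' u' := fun t u =>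
    C.mem_A1.mp (hβ.A (j := (1 : Fin 2)) (C.mem_A1.mpr ⟨t, u, rfl⟩))
  have hH : ∀ x y, ∃ x' y', β (C.hh x y) = C.hh x' y' := by
    intro x y
    obtain ⟨x', y', h⟩ := C.mem_H.mp (hβ.H (C.hh_mem x y))
    exact ⟨x', y', Subtype.ext h⟩
  choose f hf using hA0
  choose P Q hPQ using fun t => hA1 t 0
  choose A B hAB using hH
  have hsq : ∀ {t u}, C.x1 t u * C.x1 t u = 1 → t = 0 := by
    intro t u h
    rw [x1_sq, ← x1_zero C] at h
    have h1 := (C.x1_inj h).2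
    rcases mul_eq_zero.mp h1 with h2 | h2
    · exact (map_eq_zero _).mp h2
    · exact h2
  have hZ : ∀ u, ∃ u', β (C.x1 0 u) = C.x1 0 u' := by
    intro u
    obtain ⟨t', u', h⟩ := hA1 0 u
    have h1 : C.x1 t' u' * C.x1 t' u' = 1 := by
      rw [← h, ← map_mul, x1_sq, map_zero, zero_mul, x1_zero, map_one]
    have h2 := hsq h1
    subst h2
    exact ⟨u', h⟩
  choose Z hZ' using hZ
  have fadd : ∀ s t, f (s + t) = f s + f t := by
    intro s t
    have e1 := congrArg β (C.x0_add s t)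
    rw [map_mul, hf, hf, hf, x0_add] at e1
    exact (C.x0_inj e1).symm
  have Padd : ∀ s t, P (s + t) = P s + P t := by
    intro s t
    have e1 : C.x1 s 0 * C.x1 t 0 = C.x1 (s + t) 0 * C.x1 0 (C.φ s * t) := by
      rw [x1_mul, x1_mul]
      congr 1 <;> simp
    have e2 := congrArg β e1
    rw [map_mul, map_mul, hPQ, hPQ, hPQ, hZ', x1_mul, x1_mul] at e2
    have := (C.x1_inj e2).1
    rw [add_zero] at this
    exact this.symm
  have fmul : ∀ (x y : Fˣ) t, f (x * t) = A x y * f t := by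
    intro x y t
    have e1 := congrArg β (C.hh_conj0 x y t)
    rw [map_mul, map_mul, map_inv, hAB, hf, hf, hh_conj0] at e1
    exact (C.x0_inj e1).symm
  have Pmul : ∀ (x y : Fˣ) t, P (y * t) = B x y * P t := by
    intro x y t
    have e1 := congrArg β (C.hh_conj1 x y t 0)
    rw [mul_zero, map_mul, map_mul, map_inv, hAB, hPQ, hPQ, hh_conj1] at e1
    exact (C.x1_inj e1).1.symm
  have hf1 : f 1 ≠ 0 := by
    intro h
    have e1 : β (C.x0 1) = 1 := by rw [hf, h, x0_zero]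
    have e2 : C.x0 1 = C.x0 0 := by
      rw [x0_zero]
      exact β.injective (by rw [e1, map_one])
    exact one_ne_zero (C.x0_inj e2)
  have hP1 : P 1 ≠ 0 := by
    intro h
    have e1 : β (C.x1 1 0) = C.x1 0 (Q 1) := by rw [hPQ, h]
    have e2 : β (C.x1 0 1) = 1 := by
      have e3 : C.x1 0 1 = C.x1 1 0 * C.x1 1 0 := by
        rw [x1_sq]
        simp
      rw [e3, map_mul, e1, x1_sq]
      simp [x1_zero]
    have e4 : C.x1 0 1 = C.x1 0 0 := by
      rw [x1_zero]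
      exact β.injective (by rw [e2, map_one])
    exact one_ne_zero (C.x1_inj e4).2
  obtain ⟨σ, hfσ, hσA⟩ := exists_ring_aut f (fun x => A x 1) fadd (fun l t => fmul l 1 t) hf1
  obtain ⟨σ₁, hPσ, hσB⟩ := exists_ring_aut P (fun y => B 1 y) Padd (fun l t => Pmul 1 l t) hP1
  have hAσ : ∀ x y : Fˣ, (A x y : F) = σ x := by
    intro x y
    have h1 := fmul x y 1
    have h2 := fmul x 1 1
    rw [h2] at h1
    have h3 := mul_right_cancel₀ hf1 h1
    rw [← h3]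
    exact hσA x
  have hBσ : ∀ x y : Fˣ, (B x y : F) = σ₁ y := by
    intro x y
    have h1 := Pmul x y 1
    have h2 := Pmul 1 y 1
    rw [h2] at h1
    have h3 := mul_right_cancel₀ hP1 h1
    rw [← h3]
    exact hσB y
  have hσσ : ∀ x : Fˣ, σ₁ (x : F) = σ x := by
    intro x
    obtain ⟨h₀, hh₀, e₀⟩ := hβ.n (0 : Fin 2)
    obtain ⟨a₀, b₀, hh₀'⟩ := C.mem_H.mp hh₀
    have hh₀'' : h₀ = C.hh a₀ b₀ := Subtype.ext hh₀'
    subst hh₀''
    have e₀' : β (cn C.T (0 : Fin 2)) = cn C.T (0 : Fin 2) * C.hh a₀ b₀ := e₀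
    have e1 := congrArg β (C.n0_conj_hh x 1)
    rw [map_mul, map_mul, map_inv, e₀', hAB, hAB] at e1
    have e2 : cn C.T (0 : Fin 2) * C.hh a₀ b₀ * C.hh (A x 1) (B x 1) * (cn C.T (0 : Fin 2) * C.hh a₀ b₀)⁻¹ =
        cn C.T (0 : Fin 2) * C.hh (A x 1) (B x 1) * (cn C.T (0 : Fin 2))⁻¹ := by
      have hc := C.hh_comm a₀ b₀ (A x 1) (B x 1)
      calc cn C.T (0 : Fin 2) * C.hh a₀ b₀ * C.hh (A x 1) (B x 1) * (cn C.T (0 : Fin 2) * C.hh a₀ b₀)⁻¹
          = cn C.T (0 : Fin 2) * (C.hh a₀ b₀ * C.hh (A x 1) (B x 1)) * (C.hh a₀ b₀)⁻¹ * (cn C.T (0 : Fin 2))⁻¹ := by group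
        _ = cn C.T (0 : Fin 2) * (C.hh (A x 1) (B x 1) * C.hh a₀ b₀) * (C.hh a₀ b₀)⁻¹ * (cn C.T (0 : Fin 2))⁻¹ := by rw [hc]
        _ = _ := by group
    rw [e2, n0_conj_hh] at e1
    have e3 := (C.hh_inj e1).2
    have e4 := congrArg Units.val e3
    simp only [Units.val_mul, hAσ, hBσ, Units.val_one, map_one, mul_one] at e4
    exact e4.symm
  have hσ₁ : σ₁ = σ := by
    refine RingEquiv.ext fun a => ?_
    by_cases ha : a = 0
    · rw [ha]
      simp
    · exact hσσ (Units.mk0 a ha)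
  subst hσ₁
  have hAB' : ∀ x y, A x y = Units.map (σ₁ : F →* F) x ∧ B x y = Units.map (σ₁ : F →* F) y := by
    intro x y
    exact ⟨Units.ext (hAσ x y), Units.ext (hBσ x y)⟩
  let c : Fˣ := Units.mk0 (f 1) hf1
  let d : Fˣ := Units.mk0 (P 1) hP1
  have hc : (c : F) = f 1 := rfl
  have hd : (d : F) = P 1 := rfl
  refine ⟨σ₁, c, d, ?_⟩
  let X : MulAut (GG F e) := MulAut.conj (C.hh c d) * C.fld σ₁
  have hX : ∀ z, X z = C.hh c d * C.fld σ₁ z * (C.hh c d)⁻¹ := fun _ => rfl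
  let γ : MulAut (GG F e) := X⁻¹ * β
  have key : ∀ y z, β y = X z → γ y = z := by
    intro y z h
    show X⁻¹ (β y) = z
    rw [h]
    exact MulEquiv.symm_apply_apply X z
  have hXx0 : ∀ t, X (C.x0 t) = C.x0 (f t) := by
    intro t
    rw [hX, fld_x0, hh_conj0, hc, ← hfσ]
  have hXx1 : ∀ t u, X (C.x1 t u) = C.x1 (P t) (C.φ d * d * σ₁ u) := by
    intro t u
    rw [hX, fld_x1, hh_conj1, hd, ← hPσ]
  have hXh : ∀ x y, X (C.hh x y) = β (C.hh x y) := by
    intro x y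
    rw [hX, fld_hh, hh_comm, mul_assoc, mul_inv_cancel, mul_one, hAB, (hAB' x y).1, (hAB' x y).2]
  have hγ0 : ∀ t, γ (C.x0 t) = C.x0 t := fun t => key _ _ (by rw [hXx0, hf])
  have hγh : ∀ x y, γ (C.hh x y) = C.hh x y := fun x y => key _ _ (hXh x y).symm
  let D₀ : F := C.φ d * d
  have hD₀ : D₀ ≠ 0 := mul_ne_zero ((map_ne_zero C.φ).mpr d.ne_zero) d.ne_zero
  let K : F → F := fun t => σ₁.symm (Q t / D₀)
  have hγ1 : ∀ t, γ (C.x1 t 0) = C.x1 t (K t) := by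
    intro t
    apply key
    rw [hXx1, hPQ, RingEquiv.apply_symm_apply]
    congr 1
    exact (mul_div_cancel₀ _ hD₀).symm
  have hγ2 : ∀ u, γ (C.x1 0 u) = C.x1 0 u := by
    intro u
    obtain ⟨t, rfl⟩ := C.φmul_surj u
    have e3 : C.x1 0 (C.φ t * t) = C.x1 t 0 * C.x1 t 0 := (C.x1_sq t 0).symm
    rw [e3, map_mul, hγ1, x1_sq, x1_sq]
  have Kadd : ∀ s t, K (s + t) = K s + K t := by
    intro s t
    have e1 : C.x1 s 0 * C.x1 t 0 = C.x1 (s + t) 0 * C.x1 0 (C.φ s * t) := by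
      rw [x1_mul, x1_mul]
      congr 1 <;> simp
    have e2 := congrArg γ e1
    rw [map_mul, map_mul, hγ1, hγ1, hγ1, hγ2, x1_mul, x1_mul] at e2
    have e3 := (C.x1_inj e2).2
    simp only [add_zero, mul_zero] at e3
    exact (add_right_cancel e3).symm
  have Kmul : ∀ (y : Fˣ) t, K (y * t) = C.φ y * y * K t := by
    intro y t
    have e1 := C.hh_conj1 1 y t 0
    rw [mul_zero] at e1
    have e2 := congrArg γ e1
    rw [map_mul, map_mul, map_inv, hγh, hγ1, hγ1, hh_conj1] at e2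
    exact (C.x1_inj e2).2.symm
  have hK1 : K 1 = 0 := by
    obtain ⟨a, ha1, ha2⟩ := C.exists_unit
    have ha3 : (a : F) + 1 ≠ 0 := by
      intro h
      apply ha1
      have : (a : F) + 1 + 1 = 1 := by rw [h, zero_add]
      rwa [add_assoc, add_self', add_zero] at this
    have e1 := Kadd a 1
    have e2 := Kmul a 1
    have e3 := Kmul (Units.mk0 _ ha3) 1
    simp only [Units.val_mk0, mul_one, map_add, map_one] at e2 e3
    rw [e3, e2] at e1
    have e4 : (C.φ a + a) * K 1 = 0 := by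
      linear_combination e1
    have e5 : C.φ a + a ≠ 0 := by
      intro h
      apply ha2
      have : C.φ a + a + a = a := by rw [h, zero_add]
      rwa [add_assoc, add_self', add_zero] at this
    exact (mul_eq_zero.mp e4).resolve_left e5
  have hK : ∀ t, K t = 0 := by
    intro t
    by_cases ht : t = 0
    · have h1 := Kadd 0 0
      rw [add_zero] at h1
      rw [ht]
      exact left_eq_add.mp h1
    · have h1 := Kmul (Units.mk0 t ht) 1
      simp only [Units.val_mk0, mul_one] at h1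
      rw [h1, hK1, mul_zero]
  have hγx1 : ∀ t u, γ (C.x1 t u) = C.x1 t u := by
    intro t u
    rw [x1_split, map_mul, hγ1, hγ2, hK, ← x1_split]
  have hXP : C.R.Pres X := by
    constructor
    · intro z hz
      rw [hX]
      exact C.R.H_U (C.hh_mem c d) (C.fld_U σ₁ hz)
    · intro z hz
      rw [hX]
      exact C.R.H_V (C.hh_mem c d) (C.fld_V σ₁ hz)
  have hγP : C.R.Pres γ := by
    constructor
    · intro z hz
      exact hXP.inv.U _ (hβ.U z hz)
    · intro z hz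
      exact hXP.inv.V _ (hβ.V z hz)
  have hγ : γ = 1 := by
    apply hγP.eq_one
    intro (j : Fin 2) a ha
    fin_cases j
    · obtain ⟨t, rfl⟩ := C.mem_A0.mp ha
      exact hγ0 t
    · obtain ⟨t, u, rfl⟩ := C.mem_A1.mp ha
      exact hγx1 t u
  exact (inv_mul_eq_one.mp hγ).symm

/-- A field automorphism is inner only if it is trivial. -/
theorem conj_eq_field {k : GG F e} {τ : F ≃+* F} (h : MulAut.conj k = C.fld τ) : k = 1 ∧ τ = 1 := by
  have hconj : ∀ z, k * z * k⁻¹ = C.fld τ z := fun z => by rw [← h]; rfl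
  have hk : k ∈ cH chevF4 F (twistedF4 F e) := by
    refine (C.R.H_iff k).mpr ⟨fun u hu => ?_, fun v hv => ?_⟩
    · rw [hconj]
      exact C.fld_U τ hu
    · rw [hconj]
      exact C.fld_V τ hv
  obtain ⟨c, d, hcd⟩ := C.mem_H.mp hk
  have hk' : k = C.hh c d := Subtype.ext hcd
  subst hk'
  have hτ : ∀ l : Fˣ, Units.map (τ : F →* F) l = l := by
    intro l
    have h1 := hconj (C.hh l 1)
    rw [fld_hh, hh_comm, mul_assoc, mul_inv_cancel, mul_one] at h1
    exact (C.hh_inj h1).1.symm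
  have hτ1 : τ = 1 := by
    refine RingEquiv.ext fun a => ?_
    by_cases ha : a = 0
    · rw [ha]
      simp
    · have := congrArg Units.val (hτ (Units.mk0 a ha))
      simpa using this
  subst hτ1
  refine ⟨?_, rfl⟩
  have h1 : C.hh c d ∈ Subgroup.center (GG F e) := by
    rw [Subgroup.mem_center_iff]
    intro z
    have h2 := hconj z
    rw [fld_one] at h2
    have h3 : (1 : MulAut (GG F e)) z = z := rfl
    rw [h3] at h2
    exact (mul_inv_eq_iff_eq_mul.mp h2).symm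
  rw [C.hcen, Subgroup.mem_bot] at h1
  exact h1

/-- Parametrisation of the automorphism group. -/
noncomputable def Φ (x : GG F e × (F ≃+* F)) : MulAut (GG F e) := MulAut.conj x.1 * C.fld x.2

theorem Φ_bijective : Function.Bijective C.Φ := by
  constructor
  · rintro ⟨h, σ⟩ ⟨h', σ'⟩ e
    have e' : MulAut.conj h * C.fld σ = MulAut.conj h' * C.fld σ' := e
    have h1 : MulAut.conj (h'⁻¹ * h) = C.fld (σ' * σ⁻¹) := by
      rw [fld_mul, fld_inv, map_mul, map_inv, eq_mul_inv_iff_mul_eq, mul_assoc, e']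
      group
    obtain ⟨h2, h3⟩ := C.conj_eq_field h1
    have h4 : h = h' := by
      rw [inv_mul_eq_one] at h2
      exact h2.symm
    have h5 : σ = σ' := by
      rw [mul_inv_eq_one] at h3
      exact h3.symm
    rw [h4, h5]
  · intro α
    haveI : Fact (Nat.Prime 2) := ⟨Nat.prime_two⟩
    obtain ⟨g, β, rfl, hβ⟩ := C.R.exists_pres (p := 2) C.hP C.hI α
    obtain ⟨σ, c, d, rfl⟩ := C.eq_conj_field β hβ
    refine ⟨(g * C.hh c d, σ), ?_⟩
    show MulAut.conj (g * C.hh c d) * C.fld σ = _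
    rw [map_mul, mul_assoc]

include C in
theorem card_out_aux {m : ℕ} (hF' : Fintype.card F = 2 ^ (2 * m + 1)) :
    Nat.card (Cfsg.Out (GG F e)) = 2 * m + 1 := by
  haveI : Fact (Nat.Prime 2) := ⟨Nat.prime_two⟩
  haveI : Finite (GG F e) := inferInstance
  have h1 := Cfsg.Agent.Lib.Classical.OmegaOut.card_out C.hcen
  rw [← Nat.card_congr (Equiv.ofBijective _ C.Φ_bijective), Nat.card_prod,
    Cfsg.Agent.Lib.KS71.PSLAutGroup.card_ringEquiv hF' (by omega), mul_comm (Nat.card (GG F e))] at h1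
  exact Nat.eq_of_mul_eq_mul_right Nat.card_pos h1

end Ctx

section Final

variable {K : Type*} [Field K] [Fintype K] {m : ℕ}

theorem mk_ctx (hm : 1 ≤ m) (hK : Fintype.card K = 2 ^ (2 * m + 1)) [CharP K 2] : Nonempty (Ctx K (2 ^ m)) := by
  haveI : Fact (Nat.Prime 2) := ⟨Nat.prime_two⟩
  have ax : Ax chevF4 K := Cfsg.Agent.Lib.Lie.AxOf.ax_of_mem hmemF4
  obtain ⟨φ, hφ, hφ2⟩ := exists_φ hK
  obtain ⟨g, hg⟩ := IsCyclic.exists_generator (α := Kˣ)
  have hcardK : Nat.card K = 2 ^ (2 * m + 1) := by rw [Nat.card_eq_fintype_card, hK]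
  have hord : orderOf g = 2 ^ (2 * m + 1) - 1 := by
    rw [orderOf_eq_card_of_forall_mem_zpowers hg, Nat.card_units, hcardK]
  have hmov : ∃ a : K, φ a ≠ a := by
    refine ⟨g, fun h1 => ?_⟩
    rw [hφ] at h1
    have h2 : g ^ (2 ^ m - 1) = 1 := by
      apply Units.ext
      have h3 : (g : K) ^ (2 ^ m - 1) * g = g := by
        rw [← pow_succ]
        have : 2 ^ m - 1 + 1 = 2 ^ m := Nat.sub_add_cancel (Nat.one_le_pow _ _ (by norm_num))
        rw [this]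
        exact h1
      have h4 : (g : K) ≠ 0 := g.ne_zero
      simpa using mul_right_cancel₀ h4 (h3.trans (one_mul _).symm)
    have h5 : 2 ^ 1 ≤ 2 ^ m := Nat.pow_le_pow_right (by norm_num) hm
    have h3 := Nat.le_of_dvd (by omega) (orderOf_dvd_of_pow_eq_one h2)
    rw [hord] at h3
    have h6 : 2 ^ m < 2 ^ (2 * m + 1) := Nat.pow_lt_pow_right (by norm_num) (by omega)
    omega
  have e1 : Nat.card (cU chevF4 K (twistedF4 K (2 ^ m))) = (2 ^ (2 * m + 1)) ^ 12 := by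
    rw [← card_U_main hK]
    have e2 : (chevF4.posUnipotent K ⊓ twistedF4 K (2 ^ m)).subgroupOf (twistedF4 K (2 ^ m)) =
        cU chevF4 K (twistedF4 K (2 ^ m)) := Subgroup.inf_subgroupOf_right _ _
    rw [← e2]
    exact Nat.card_congr (Subgroup.subgroupOfEquivOfLe inf_le_right).toEquiv
  have hP : IsPGroup 2 (cU chevF4 K (twistedF4 K (2 ^ m))) := by
    apply IsPGroup.of_card (n := (2 * m + 1) * 12)
    rw [e1, pow_mul]
  have hidx : ¬ 2 ∣ (cU chevF4 K (twistedF4 K (2 ^ m))).index := by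
    have h1 := Subgroup.card_mul_index (cU chevF4 K (twistedF4 K (2 ^ m)))
    rw [e1, Cfsg.Agent.Lib.Twisted.F4O.card_F4 hK] at h1
    set Q := 2 ^ (2 * m + 1) with hQ
    have hQ2 : 2 ∣ Q := dvd_pow_self _ (by omega)
    have hQ1 : 1 ≤ Q := Nat.one_le_pow _ _ (by norm_num)
    have hQpos : 0 < Q ^ 12 := by positivity
    have h2 : (cU chevF4 K (twistedF4 K (2 ^ m))).index = (Q - 1) * (Q ^ 3 + 1) * (Q ^ 4 - 1) * (Q ^ 6 + 1) := by
      apply Nat.eq_of_mul_eq_mul_left hQpos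
      rw [h1]
      ring
    rw [h2]
    have h3 : ∀ k, 1 ≤ k → 2 ∣ Q ^ k := fun k hk => dvd_pow hQ2 (by omega)
    have h4 : ∀ k, 1 ≤ Q ^ k := fun k => Nat.one_le_pow _ _ (by omega)
    intro hd
    rcases (Nat.prime_two.dvd_mul).mp hd with hd | hd
    · rcases (Nat.prime_two.dvd_mul).mp hd with hd | hd
      · rcases (Nat.prime_two.dvd_mul).mp hd with hd | hd
        · omega
        · have := h3 3 (by norm_num)
          omega
      · have := h3 4 (by norm_num)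
        have := h4 4
        omega
    · have := h3 6 (by norm_num)
      omega
  have hcen : Subgroup.center ↥(twistedF4 K (2 ^ m)) = ⊥ := by
    obtain ⟨hs, hna⟩ := Cfsg.Agent.Lib.F24.Simple.simple_F4 hm hK
    haveI := hs
    rcases (Subgroup.center ↥(twistedF4 K (2 ^ m))).normal_of_characteristic.eq_bot_or_eq_top with h | h
    · exact h
    · exfalso
      apply hna
      refine ⟨⟨fun a b => ?_⟩⟩
      have : (a : ↥(twistedF4 K (2 ^ m))) ∈ Subgroup.center ↥(twistedF4 K (2 ^ m)) := by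
        rw [h]
        trivial
      exact ((Subgroup.mem_center_iff.mp this) b).symm
  exact ⟨⟨ax, φ, hφ, hφ2, hmov, hP, hidx, hcen⟩⟩

/-- The main theorem. -/
theorem main (hm : 1 ≤ m) (hK : Fintype.card K = 2 ^ (2 * m + 1)) :
    Nat.card (Cfsg.Out ↥(twistedF4 K (2 ^ m))) = 2 * m + 1 := by
  haveI : CharP K 2 := charP_of_card hK
  obtain ⟨C⟩ := mk_ctx hm hK
  exact C.card_out_aux hK

end Final

end Cfsg.Agent.Lib.F24.OutF
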