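import Cfsg.Agent.Lib.F24.InvCls
import Cfsg.Agent.Lib.F24.InvRank
import Cfsg.Agent.Lib.F24.OutF
import Cfsg.Agent.Lib.Tits.Main

/-!
# The classes of involutions of `²F₄`
-/

set_option autoImplicit false
set_option linter.unusedSectionVars false
set_option linter.unusedVariables false
set_option linter.ambiguousOpen false
set_option linter.dupNamespace false
set_option linter.unusedSimpArgs false
set_option maxRecDepth 100000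

namespace Cfsg.Agent.Lib.F24.InvMain

open scoped MatrixGroups Matrix
open Cfsg _root_.Cfsg.Lie ChevalleyDatum
open Cfsg.Agent.Lib.Chev
open Tables Tables2 Tables3 Raise Basic AxBasic Torus Products Products2 Mono1 Mono2 Mono3 Bn ChevSimple
open Cfsg.Agent.Lib.Twisted.Fact Cfsg.Agent.Lib.Twisted.Bruhat Cfsg.Agent.Lib.Twisted.Tw
open Cfsg.Agent.Lib.Twisted.Struct Cfsg.Agent.Lib.Twisted.Check Cfsg.Agent.Lib.Twisted.Ortho
open Cfsg.Agent.Lib.Twisted.OutB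
open Cfsg.Agent.Lib.F24.Blocks Cfsg.Agent.Lib.F24.F4Data Cfsg.Agent.Lib.F24.Tw Cfsg.Agent.Lib.F24.WordEq
open Cfsg.Agent.Lib.F24.TD Cfsg.Agent.Lib.F24.Main Cfsg.Agent.Lib.F24.InvForm
open Cfsg.Agent.Lib.F24.Cls Cfsg.Agent.Lib.F24.InvCls Cfsg.Agent.Lib.F24.RelA
open Cfsg.Agent.Lib.Twisted.Struct.TD

section form

variable {K : Type*} [Field K] [CharP K 2] (ax : Ax chevF4 K) (φ : K →+* K) {e : ℕ}
variable (hφ : ∀ t, φ t = t ^ e) (hφ2 : ∀ t, (φ (φ t)) ^ 2 = t)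

include hφ hφ2 in
/-- The factorization of the elements of `U¹`. -/
theorem exists_gg {u : GL chevF4.Idx K} (hu : u ∈ chevF4.posUnipotent K ⊓ twistedF4 K e) :
    ∃ a1 t2 u2 a3 t4 u4 a5 t6 u6 a7 t8 u8 : K, u = gg ax φ a1 t2 u2 a3 t4 u4 a5 t6 u6 a7 t8 u8 := by
  have hf : Form (TF φ hφ hφ2 ax) ([0, 1, 0, 1, 0, 1, 0, 1] : List (Fin 2)) u :=
    form_of_tables Cf hF2 (factsF φ ax) (nF ax) (G1_le φ hφ hφ2 ax) (n_mem φ hφ ax) (n_mono ax)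
      (n_nor ax) (cl φ hφ hφ2 ax) (x_ne φ hφ ax) (gen ax) chainCf hu
  have fc : ∀ (j : Fin 2) (L : List (Fin 2)) {u : GL chevF4.Idx K}, Form (TF φ hφ hφ2 ax) (j :: L) u →
      ∃ x ∈ fixCl (twF φ ax) (Psi chevF4 (· ∈ Cf.cls j)), ∃ z, Form (TF φ hφ hφ2 ax) L z ∧ u = x * (nF ax j * z * (nF ax j)⁻¹) :=
    fun j L u h => h
  have ex0 : ∀ {x : GL chevF4.Idx K}, x ∈ fixCl (twF φ ax) (Psi chevF4 (· ∈ Cf.cls 0)) → ∃ a, x = A1 ax φ a :=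
    fun hx => cl_pair φ ax hx.1 hx.2.2
  have ex1 : ∀ {x : GL chevF4.Idx K}, x ∈ fixCl (twF φ ax) (Psi chevF4 (· ∈ Cf.cls 1)) → ∃ t u, x = A8 ax φ t u :=
    fun hx => cl_B φ hφ2 ax hx.1 hx.2.2
  obtain ⟨x0, hx0, z0, hz0, rfl⟩ := fc _ _ hf
  obtain ⟨x1, hx1, z1, hz1, rfl⟩ := fc _ _ hz0
  obtain ⟨x2, hx2, z2, hz2, rfl⟩ := fc _ _ hz1
  obtain ⟨x3, hx3, z3, hz3, rfl⟩ := fc _ _ hz2
  obtain ⟨x4, hx4, z4, hz4, rfl⟩ := fc _ _ hz3
  obtain ⟨x5, hx5, z5, hz5, rfl⟩ := fc _ _ hz4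
  obtain ⟨x6, hx6, z6, hz6, rfl⟩ := fc _ _ hz5
  obtain ⟨x7, hx7, z7, hz7, rfl⟩ := fc _ _ hz6
  obtain rfl : z7 = 1 := hz7
  obtain ⟨a0, rfl⟩ := ex0 hx0
  obtain ⟨t1, u1, rfl⟩ := ex1 hx1
  obtain ⟨a2, rfl⟩ := ex0 hx2
  obtain ⟨t3, u3, rfl⟩ := ex1 hx3
  obtain ⟨a4, rfl⟩ := ex0 hx4
  obtain ⟨t5, u5, rfl⟩ := ex1 hx5
  obtain ⟨a6, rfl⟩ := ex0 hx6
  obtain ⟨t7, u7, rfl⟩ := ex1 hx7
  refine ⟨a0, t1, u1, a2, t3, u3, a4, t5, u5, a6, t7, u7, ?_⟩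
  have e1 : ∀ (g a b : GL chevF4.Idx K), g * (a * b) * g⁻¹ = (g * a * g⁻¹) * (g * b * g⁻¹) := by
    intro g a b
    group
  simp only [mul_one, mul_inv_cancel, e1, n0_A2 ax φ, n0_A3 ax φ, n0_A4 ax φ, n0_A5 ax φ, n0_A6 ax φ, n0_A7 ax φ, n0_A8 ax φ,
    n1_A1 ax φ, n1_A2 ax φ, n1_A3 ax φ, n1_A4 ax φ, n1_A5 ax φ, n1_A6 ax φ, n1_A7 ax φ, gg, mul_assoc]

end form

section sylow

variable {K : Type*} [Field K] [Fintype K] {m : ℕ} (hK : Fintype.card K = 2 ^ (2 * m + 1))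

include hK

theorem hP_U : IsPGroup 2 (cU chevF4 K (twistedF4 K (2 ^ m))) := by
  have e1 : Nat.card (cU chevF4 K (twistedF4 K (2 ^ m))) = (2 ^ (2 * m + 1)) ^ 12 := by
    rw [← card_U_main hK]
    have e2 : (chevF4.posUnipotent K ⊓ twistedF4 K (2 ^ m)).subgroupOf (twistedF4 K (2 ^ m)) =
        cU chevF4 K (twistedF4 K (2 ^ m)) := Subgroup.inf_subgroupOf_right _ _
    rw [← e2]
    exact Nat.card_congr (Subgroup.subgroupOfEquivOfLe inf_le_right).toEquiv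
  apply IsPGroup.of_card (n := (2 * m + 1) * 12)
  rw [e1, pow_mul]

theorem hI_U : ¬ 2 ∣ (cU chevF4 K (twistedF4 K (2 ^ m))).index := by
  have e1 : Nat.card (cU chevF4 K (twistedF4 K (2 ^ m))) = (2 ^ (2 * m + 1)) ^ 12 := by
    rw [← card_U_main hK]
    have e2 : (chevF4.posUnipotent K ⊓ twistedF4 K (2 ^ m)).subgroupOf (twistedF4 K (2 ^ m)) =
        cU chevF4 K (twistedF4 K (2 ^ m)) := Subgroup.inf_subgroupOf_right _ _
    rw [← e2]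
    exact Nat.card_congr (Subgroup.subgroupOfEquivOfLe inf_le_right).toEquiv
  have h1 := Subgroup.card_mul_index (cU chevF4 K (twistedF4 K (2 ^ m)))
  rw [e1, Cfsg.Agent.Lib.Twisted.F4O.card_F4 hK] at h1
  set Q := 2 ^ (2 * m + 1) with hQ
  have hQ2 : 2 ∣ Q := dvd_pow_self _ (by omega)
  have hQ1 : 1 ≤ Q := Nat.one_le_pow _ _ (by norm_num)
  have hQpos : 0 < Q ^ 12 := by positivity
  have h2 : (cU chevF4 K (twistedF4 K (2 ^ m))).index = (Q - 1) * (Q ^ 3 + 1) * (Q ^ 4 - 1) * (Q ^ 6 + 1) := by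
    apply Nat.eq_of_mul_eq_mul_left hQpos
    rw [h1]
    ring
  rw [h2]
  have h3 : ∀ k, 1 ≤ k → 2 ∣ Q ^ k := fun k hk => dvd_pow hQ2 (by omega)
  have h4 : ∀ k, 1 ≤ Q ^ k := fun k => Nat.one_le_pow _ _ (by omega)
  intro hd
  rcases (Nat.prime_two.dvd_mul).mp hd with hd | hd
  · rcases (Nat.prime_two.dvd_mul).mp hd with hd | hd
    · rcases (Nat.prime_two.dvd_mul).mp hd with hd | hd
      · omega
      · have := h3 3 (by norm_num)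
        omega
    · have := h3 4 (by norm_num)
      have := h4 4
      omega
  · have := h3 6 (by norm_num)
    omega

/-- Every involution is conjugate into `U¹`. -/
theorem exists_conj_U (g : ↥(twistedF4 K (2 ^ m))) (hg : orderOf g = 2) :
    ∃ h : ↥(twistedF4 K (2 ^ m)), ((h * g * h⁻¹ : ↥(twistedF4 K (2 ^ m))) : GL chevF4.Idx K) ∈
      chevF4.posUnipotent K ⊓ twistedF4 K (2 ^ m) := by
  have : Fact (Nat.Prime 2) := ⟨Nat.prime_two⟩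
  let S := (hP_U hK).toSylow (hI_U hK)
  have hz : IsPGroup 2 (Subgroup.zpowers g) := by
    rw [IsPGroup.iff_card, Nat.card_zpowers, hg]
    exact ⟨1, (pow_one 2).symm⟩
  obtain ⟨S', hS'⟩ := hz.exists_le_sylow
  obtain ⟨h, hh⟩ := MulAction.exists_smul_eq ↥(twistedF4 K (2 ^ m)) S' S
  refine ⟨h, ?_⟩
  have h0 : h * g * h⁻¹ ∈ (S : Subgroup ↥(twistedF4 K (2 ^ m))) := by
    rw [← hh]
    rw [Sylow.coe_subgroup_smul, Subgroup.mem_pointwise_smul_iff_inv_smul_mem]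
    have h1 : (MulAut.conj h)⁻¹ • (h * g * h⁻¹) = g := by
      show (MulAut.conj h)⁻¹ (h * g * h⁻¹) = g
      rw [← map_inv, MulAut.conj_apply]
      group
    rw [h1]
    exact hS' (Subgroup.mem_zpowers g)
  have h2 : h * g * h⁻¹ ∈ cU chevF4 K (twistedF4 K (2 ^ m)) := h0
  exact ⟨Subgroup.mem_subgroupOf.mp h2, (h * g * h⁻¹).2⟩

end sylow

section scale

variable {K : Type*} [Field K] [Fintype K] [CharP K 2] {m : ℕ} (hK : Fintype.card K = 2 ^ (2 * m + 1))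
variable (ax : Ax chevF4 K) (φ : K →+* K) (hφ : ∀ t, φ t = t ^ (2 ^ m)) (hφ2 : ∀ t, (φ (φ t)) ^ 2 = t)

include hK hφ hφ2

theorem scale_A1 {a : K} (ha : a ≠ 0) : Cj (2 ^ m) (A1 ax φ a) (A1 ax φ 1) := by
  rcases Nat.eq_zero_or_pos m with rfl | hm
  · have hφ1 : ∀ t, φ t = t := fun t => by simpa using hφ t
    have h1 := hφ2 a
    rw [hφ1, hφ1] at h1
    have h2 : a * (a - 1) = 0 := by linear_combination h1
    have h3 : a = 1 := sub_eq_zero.mp ((mul_eq_zero.mp h2).resolve_left ha)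
    rw [h3]
    exact Cj.refl _
  · obtain ⟨C⟩ := OutF.mk_ctx hm hK
    obtain rfl : C.φ = φ := RingHom.ext fun t => by rw [C.hφ, hφ]
    have h1 := C.hh_conj0 (Units.mk0 a⁻¹ (inv_ne_zero ha)) 1 a
    have h2 : ((Units.mk0 a⁻¹ (inv_ne_zero ha) : Kˣ) : K) * a = 1 := by
      simp [ha]
    rw [h2] at h1
    exact ⟨_, (C.hh _ _).2, congrArg Subtype.val h1⟩

theorem scale_A8 {u : K} (hu : u ≠ 0) : Cj (2 ^ m) (A8 ax φ 0 u) (A8 ax φ 0 1) := by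
  obtain ⟨y, hy⟩ := φmul_surj φ hφ2 u⁻¹
  rcases Nat.eq_zero_or_pos m with rfl | hm
  · have hφ1 : ∀ t, φ t = t := fun t => by simpa using hφ t
    have h1 := hφ2 u
    rw [hφ1, hφ1] at h1
    have h2 : u * (u - 1) = 0 := by linear_combination h1
    have h3 : u = 1 := sub_eq_zero.mp ((mul_eq_zero.mp h2).resolve_left hu)
    rw [h3]
    exact Cj.refl _
  · obtain ⟨C⟩ := OutF.mk_ctx hm hK
    obtain rfl : C.φ = φ := RingHom.ext fun t => by rw [C.hφ, hφ]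
    have hy0 : y ≠ 0 := by
      rintro rfl
      simp only [map_zero, mul_zero] at hy
      exact inv_ne_zero hu hy.symm
    have h1 := C.hh_conj1 1 (Units.mk0 y hy0) 0 u
    have h2 : C.φ ((Units.mk0 y hy0 : Kˣ) : K) * ((Units.mk0 y hy0 : Kˣ) : K) * u = 1 := by
      simp only [Units.val_mk0, hy]
      exact inv_mul_cancel₀ hu
    rw [h2, mul_zero] at h1
    exact ⟨_, (C.hh _ _).2, congrArg Subtype.val h1⟩

end scale

section reps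

variable {K : Type*} [Field K] [CharP K 2] (ax : Ax chevF4 K) (φ : K →+* K)

open Cfsg.Agent.Lib.InvE.Fusion Cfsg.Agent.Lib.InvE.Tree Cfsg.Agent.Lib.InvE.Bits

lemma A1_PP : A1 ax φ 1 = PP ax [33, 24] := by
  simp [C0, PP_cons]

lemma A8_PP : A8 ax φ 0 1 = PP ax [28, 30] := by
  simp [αV, V, xG_zero, PP_cons]

lemma rank_A1 : (((A1 ax φ 1 : GL chevF4.Idx K) : Matrix chevF4.Idx chevF4.Idx K) - 1).rank = 24 := by
  rw [A1_PP]
  exact rank_of_chk ax InvRank.ltB InvRank.rkB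

lemma rank_A8 : (((A8 ax φ 0 1 : GL chevF4.Idx K) : Matrix chevF4.Idx chevF4.Idx K) - 1).rank = 21 := by
  rw [A8_PP]
  exact rank_of_chk ax InvRank.ltA InvRank.rkA

lemma sq_A1 : A1 ax φ 1 * A1 ax φ 1 = 1 := by
  rw [A1_PP]
  exact sq_of_chk ax InvRank.ltB InvRank.sqB

lemma sq_A8 : A8 ax φ 0 1 * A8 ax φ 0 1 = 1 := by
  rw [A8_PP]
  exact sq_of_chk ax InvRank.ltA InvRank.sqA

lemma ne_of_rank {g : GL chevF4.Idx K} {n : ℕ} (h : ((g : Matrix chevF4.Idx chevF4.Idx K) - 1).rank = n) (hn : n ≠ 0) : g ≠ 1 := by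
  rintro rfl
  rw [Units.val_one, sub_self, Matrix.rank_zero] at h
  exact hn h.symm

lemma A1_ne : A1 ax φ 1 ≠ 1 := ne_of_rank (rank_A1 ax φ) (by norm_num)

lemma A8_ne : A8 ax φ 0 1 ≠ 1 := ne_of_rank (rank_A8 ax φ) (by norm_num)

theorem not_conj (n : GL chevF4.Idx K) : n * A1 ax φ 1 * n⁻¹ ≠ A8 ax φ 0 1 := by
  intro h
  have h1 := rank_conj K n (A1 ax φ 1)
  rw [h, rank_A1, rank_A8] at h1
  omega

lemma orderOf_two_of {G : Type*} [Group G] {x : G} (h1 : x * x = 1) (h2 : x ≠ 1) : orderOf x = 2 := by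
  have : Fact (Nat.Prime 2) := ⟨Nat.prime_two⟩
  apply orderOf_eq_prime
  · rw [pow_two, h1]
  · exact h2

end reps

section final

variable {K : Type*} [Field K] [Fintype K] [CharP K 2] {m : ℕ} (hK : Fintype.card K = 2 ^ (2 * m + 1))
variable (ax : Ax chevF4 K) (φ : K →+* K) (hφ : ∀ t, φ t = t ^ (2 ^ m)) (hφ2 : ∀ t, (φ (φ t)) ^ 2 = t)

include hK hφ hφ2

/-- Every involution is conjugate to one of the representatives. -/
theorem conj_reps (g : ↥(twistedF4 K (2 ^ m))) (hg : orderOf g = 2) :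
    (∃ n ∈ twistedF4 K (2 ^ m), n * (g : GL chevF4.Idx K) * n⁻¹ = A1 ax φ 1) ∨
      (∃ n ∈ twistedF4 K (2 ^ m), n * (g : GL chevF4.Idx K) * n⁻¹ = A8 ax φ 0 1) := by
  obtain ⟨h, hh⟩ := exists_conj_U hK g hg
  obtain ⟨a1, t2, u2, a3, t4, u4, a5, t6, u6, a7, t8, u8, hu⟩ := exists_gg ax φ hφ hφ2 hh
  have hc : Cj (2 ^ m) (g : GL chevF4.Idx K) (gg ax φ a1 t2 u2 a3 t4 u4 a5 t6 u6 a7 t8 u8) :=
    ⟨h, h.2, hu⟩
  have hgg : (g : GL chevF4.Idx K) * g = 1 := by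
    have h4 := pow_orderOf_eq_one g
    rw [hg, sq] at h4
    exact congrArg Subtype.val h4
  have hg1 : (g : GL chevF4.Idx K) ≠ 1 := by
    intro h1
    have : g = 1 := Subtype.ext h1
    rw [this, orderOf_one] at hg
    omega
  have hG := T0 ax φ hφ hφ2 _ _ _ _ _ _ _ _ _ _ _ _ (hc.sq hgg) (hc.ne hg1)
  rcases hG with ⟨a, ha, h1⟩ | ⟨a, ha, h1⟩
  · obtain ⟨n, hn, e⟩ := hc.trans (h1.trans (scale_A1 hK ax φ hφ hφ2 ha))
    exact Or.inl ⟨n, hn, e⟩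
  · obtain ⟨n, hn, e⟩ := hc.trans (h1.trans (scale_A8 hK ax φ hφ hφ2 ha))
    exact Or.inr ⟨n, hn, e⟩

end final

/-- The number of classes of involutions of `²F₄(q)`. -/
theorem main_A {K : Type*} [Field K] [Fintype K] {m : ℕ} (hK : Fintype.card K = 2 ^ (2 * m + 1)) :
    (ConjClasses.mk '' {g : ↥(twistedF4 K (2 ^ m)) | orderOf g = 2}).ncard = 2 := by
  have := charP_of_card hK
  obtain ⟨φ, hφ, hφ2⟩ := exists_φ hK
  have ax : Ax chevF4 K := Cfsg.Agent.Lib.Lie.AxOf.ax_of_mem hmemF4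
  let r1 : ↥(twistedF4 K (2 ^ m)) := ⟨A1 ax φ 1, mem_A1 ax φ hφ 1⟩
  let r2 : ↥(twistedF4 K (2 ^ m)) := ⟨A8 ax φ 0 1, mem_A8 ax φ hφ 0 1⟩
  have o1 : orderOf r1 = 2 := orderOf_two_of (Subtype.ext (sq_A1 ax φ)) (fun h => A1_ne ax φ (congrArg Subtype.val h))
  have o2 : orderOf r2 = 2 := orderOf_two_of (Subtype.ext (sq_A8 ax φ)) (fun h => A8_ne ax φ (congrArg Subtype.val h))
  have nc : ConjClasses.mk r1 ≠ ConjClasses.mk r2 := by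
    intro h
    obtain ⟨c, hc⟩ := isConj_iff.mp (ConjClasses.mk_eq_mk_iff_isConj.mp h)
    exact not_conj ax φ c (congrArg Subtype.val hc)
  have key : ConjClasses.mk '' {g : ↥(twistedF4 K (2 ^ m)) | orderOf g = 2} = {ConjClasses.mk r1, ConjClasses.mk r2} := by
    ext c
    simp only [Set.mem_image, Set.mem_ofPred_eq, Set.mem_insert_iff, Set.mem_singleton_iff]
    constructor
    · rintro ⟨g, hg, rfl⟩
      rcases conj_reps hK ax φ hφ hφ2 g hg with ⟨n, hn, e⟩ | ⟨n, hn, e⟩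
      · exact Or.inl (ConjClasses.mk_eq_mk_iff_isConj.mpr (isConj_iff.mpr ⟨⟨n, hn⟩, Subtype.ext e⟩))
      · exact Or.inr (ConjClasses.mk_eq_mk_iff_isConj.mpr (isConj_iff.mpr ⟨⟨n, hn⟩, Subtype.ext e⟩))
    · rintro (rfl | rfl)
      · exact ⟨r1, o1, rfl⟩
      · exact ⟨r2, o2, rfl⟩
  rw [key, Set.ncard_pair nc]

/-! ### The Tits group -/

section tits

local notation "G₂" => twistedF4 (ZMod 2) 1

lemma hT_index : (commutator ↥G₂).index = 2 := Cfsg.Agent.Lib.Tits.Main.main.1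

lemma card2 : Fintype.card (ZMod 2) = 2 ^ (2 * 0 + 1) := by simp [ZMod.card]

theorem A_W1_ne : Inv.A (wordG Inv.ax2 (Inv.W1 1 0)) ≠ 1 := by
  intro h
  have hle : cU chevF4 (ZMod 2) G₂ ≤ commutator ↥G₂ := by
    intro u hu
    have hu' : (u : GL chevF4.Idx (ZMod 2)) ∈ chevF4.posUnipotent (ZMod 2) ⊓ G₂ := ⟨Subgroup.mem_subgroupOf.mp hu, u.2⟩
    obtain ⟨a0, t1, u1, a2, t3, u3, a4, t5, u5, a6, t7, u7, hE⟩ := Inv.exists_params hu'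
    have hA : Inv.A (u : GL chevF4.Idx (ZMod 2)) = 1 := by
      rw [hE, Inv.A_nest (Inv.mem_W0 _) (Inv.mem_W1 _ _) (Inv.mem_W0 _) (Inv.mem_W1 _ _) (Inv.mem_W0 _) (Inv.mem_W1 _ _)
        (Inv.mem_W0 _) (Inv.mem_W1 _ _)]
      rw [Inv.A_W0, Inv.A_W0, Inv.A_W0, Inv.A_W0, Inv.A_W1 t1 u1, Inv.A_W1 t3 u3, Inv.A_W1 t5 u5, Inv.A_W1 t7 u7, h]
      simp
    rw [← Abelianization.ker_of, MonoidHom.mem_ker]
    rw [Inv.A_of u.2] at hA
    exact hA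
  have hd := Subgroup.index_dvd_of_le hle
  rw [hT_index] at hd
  exact hI_U (m := 0) (K := ZMod 2) card2 hd

/-- The element outside the derived group. -/
noncomputable def yT : ↥G₂ := ⟨A2 Inv.ax2 Inv.φ2 1 0, mem_A2 Inv.ax2 Inv.φ2 Inv.hφ 1 0⟩

/-- The first representative. -/
noncomputable def r1T : ↥G₂ := ⟨A1 Inv.ax2 Inv.φ2 1, mem_A1 Inv.ax2 Inv.φ2 Inv.hφ 1⟩

/-- The second representative. -/
noncomputable def r2T : ↥G₂ := ⟨A2 Inv.ax2 Inv.φ2 0 1, mem_A2 Inv.ax2 Inv.φ2 Inv.hφ 0 1⟩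

lemma yT_val : (yT : GL chevF4.Idx (ZMod 2)) = A2 Inv.ax2 Inv.φ2 1 0 := rfl
lemma r1T_val : (r1T : GL chevF4.Idx (ZMod 2)) = A1 Inv.ax2 Inv.φ2 1 := rfl
lemma r2T_val : (r2T : GL chevF4.Idx (ZMod 2)) = A2 Inv.ax2 Inv.φ2 0 1 := rfl

theorem yT_not_mem : yT ∉ commutator ↥G₂ := by
  intro h
  rw [← Abelianization.ker_of, MonoidHom.mem_ker] at h
  have h1 : Inv.A (yT : GL chevF4.Idx (ZMod 2)) = Abelianization.of yT := Inv.A_of yT.2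
  have h2 : Inv.A (nF Inv.ax2 0 * A8 Inv.ax2 Inv.φ2 1 0 * (nF Inv.ax2 0)⁻¹) = Inv.A (A8 Inv.ax2 Inv.φ2 1 0) :=
    Inv.A_conj (Inv.n_memG 0) (mem_A8 Inv.ax2 Inv.φ2 Inv.hφ 1 0)
  have h3 : nF Inv.ax2 0 * A8 Inv.ax2 Inv.φ2 1 0 * (nF Inv.ax2 0)⁻¹ = (yT : GL chevF4.Idx (ZMod 2)) := n0_A8 _ _ _ _
  have h4 : wordG Inv.ax2 (Inv.W1 1 0) = A8 Inv.ax2 Inv.φ2 1 0 := Inv.W1_eq 1 0
  apply A_W1_ne
  rw [h4, ← h2, h3, h1, h]

lemma yT_r1T : yT * r1T * yT⁻¹ = r1T := by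
  apply Subtype.ext
  have h := R12 Inv.ax2 Inv.φ2 Inv.hφ2 1 1
  rw [gg_A1] at h
  exact h

lemma yT_r2T : yT * r2T * yT⁻¹ = r2T := by
  apply Subtype.ext
  have h := R13 Inv.ax2 Inv.φ2 Inv.hφ2 1 1
  rw [gg_A2] at h
  exact h

lemma r2T_conj : nF Inv.ax2 0 * A8 Inv.ax2 Inv.φ2 0 1 * (nF Inv.ax2 0)⁻¹ = (r2T : GL chevF4.Idx (ZMod 2)) :=
  n0_A8 _ _ _ _

lemma o1T : orderOf r1T = 2 :=
  orderOf_two_of (Subtype.ext (sq_A1 _ _)) (fun h => A1_ne _ _ (congrArg Subtype.val h))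

lemma o2T : orderOf r2T = 2 := by
  have h1 : (r2T : GL chevF4.Idx (ZMod 2)) * r2T = 1 := by
    rw [← r2T_conj]
    calc nF Inv.ax2 0 * A8 Inv.ax2 Inv.φ2 0 1 * (nF Inv.ax2 0)⁻¹ * (nF Inv.ax2 0 * A8 Inv.ax2 Inv.φ2 0 1 * (nF Inv.ax2 0)⁻¹)
        = nF Inv.ax2 0 * (A8 Inv.ax2 Inv.φ2 0 1 * A8 Inv.ax2 Inv.φ2 0 1) * (nF Inv.ax2 0)⁻¹ := by group
      _ = 1 := by rw [sq_A8]; group
  refine orderOf_two_of (Subtype.ext h1) ?_
  intro h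
  have h2 := congrArg Subtype.val h
  have h3 : (r2T : GL chevF4.Idx (ZMod 2)) = 1 := h2
  rw [← r2T_conj] at h3
  apply A8_ne Inv.ax2 Inv.φ2
  have : A8 Inv.ax2 Inv.φ2 0 1 = (nF Inv.ax2 0)⁻¹ * (nF Inv.ax2 0 * A8 Inv.ax2 Inv.φ2 0 1 * (nF Inv.ax2 0)⁻¹) * nF Inv.ax2 0 := by group
  rw [this, h3]
  group

/-- The group elements conjugate in `²F₄(2)` to an element commuting with `yT` are conjugate in the derived group. -/
lemma conj_in_T {g r : ↥G₂} (hc : yT * r * yT⁻¹ = r) {n : ↥G₂} (hn : n * g * n⁻¹ = r) :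
    ∃ c ∈ commutator ↥G₂, c * g * c⁻¹ = r := by
  by_cases h : n ∈ commutator ↥G₂
  · exact ⟨n, h, hn⟩
  · refine ⟨yT⁻¹ * n, ?_, ?_⟩
    · rw [Subgroup.mul_mem_iff_of_index_two hT_index, Subgroup.inv_mem_iff]
      exact iff_of_false yT_not_mem h
    · calc yT⁻¹ * n * g * (yT⁻¹ * n)⁻¹ = yT⁻¹ * (n * g * n⁻¹) * yT := by group
        _ = yT⁻¹ * (yT * r * yT⁻¹) * yT := by rw [hn, hc]
        _ = r := by group

/-- The number of classes of involutions of the Tits group. -/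
theorem main_B : (ConjClasses.mk '' {g : TitsGroup | orderOf g = 2}).ncard = 2 := by
  have hT : ∀ g : ↥G₂, orderOf g = 2 → g ∈ commutator ↥G₂ := Inv.mem_commutator
  obtain ⟨s1, hs1⟩ : ∃ s1 : TitsGroup, (s1 : ↥G₂) = r1T := ⟨⟨r1T, hT _ o1T⟩, rfl⟩
  obtain ⟨s2, hs2⟩ : ∃ s2 : TitsGroup, (s2 : ↥G₂) = r2T := ⟨⟨r2T, hT _ o2T⟩, rfl⟩
  have os1 : orderOf s1 = 2 := by
    rw [← Subgroup.orderOf_coe, hs1]
    exact o1T
  have os2 : orderOf s2 = 2 := by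
    rw [← Subgroup.orderOf_coe, hs2]
    exact o2T
  have nc : ConjClasses.mk s1 ≠ ConjClasses.mk s2 := by
    intro h
    obtain ⟨c, hc⟩ := isConj_iff.mp (ConjClasses.mk_eq_mk_iff_isConj.mp h)
    have h1 : ((c : ↥G₂) : GL chevF4.Idx (ZMod 2)) * ((s1 : ↥G₂) : GL chevF4.Idx (ZMod 2)) * ((c : ↥G₂) : GL chevF4.Idx (ZMod 2))⁻¹ =
        ((s2 : ↥G₂) : GL chevF4.Idx (ZMod 2)) := by
      have := congrArg (fun x : TitsGroup => ((x : ↥G₂) : GL chevF4.Idx (ZMod 2))) hc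
      simpa only [Subgroup.coe_mul, Subgroup.coe_inv] using this
    rw [hs1, hs2, r1T_val, r2T_val] at h1
    apply not_conj Inv.ax2 Inv.φ2 ((nF Inv.ax2 0)⁻¹ * ((c : ↥G₂) : GL chevF4.Idx (ZMod 2)))
    have h2 : A2 Inv.ax2 Inv.φ2 0 1 = nF Inv.ax2 0 * A8 Inv.ax2 Inv.φ2 0 1 * (nF Inv.ax2 0)⁻¹ := r2T_conj.symm
    rw [h2] at h1
    calc (nF Inv.ax2 0)⁻¹ * ((c : ↥G₂) : GL chevF4.Idx (ZMod 2)) * A1 Inv.ax2 Inv.φ2 1 *
          ((nF Inv.ax2 0)⁻¹ * ((c : ↥G₂) : GL chevF4.Idx (ZMod 2)))⁻¹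
        = (nF Inv.ax2 0)⁻¹ * (((c : ↥G₂) : GL chevF4.Idx (ZMod 2)) * A1 Inv.ax2 Inv.φ2 1 * ((c : ↥G₂) : GL chevF4.Idx (ZMod 2))⁻¹) * nF Inv.ax2 0 := by group
      _ = A8 Inv.ax2 Inv.φ2 0 1 := by rw [h1]; group
  have key : ConjClasses.mk '' {g : TitsGroup | orderOf g = 2} = {ConjClasses.mk s1, ConjClasses.mk s2} := by
    ext c
    simp only [Set.mem_image, Set.mem_ofPred_eq, Set.mem_insert_iff, Set.mem_singleton_iff]
    constructor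
    · rintro ⟨g, hg, rfl⟩
      have hg' : orderOf (g : ↥G₂) = 2 := by
        rw [Subgroup.orderOf_coe]
        exact hg
      have hto : ∀ {s : TitsGroup} (hc : yT * (s : ↥G₂) * yT⁻¹ = (s : ↥G₂)) (n : ↥G₂), n * (g : ↥G₂) * n⁻¹ = (s : ↥G₂) →
          ConjClasses.mk g = ConjClasses.mk s := by
        intro s hc n hn
        obtain ⟨c, hc1, hc2⟩ := conj_in_T hc hn
        exact ConjClasses.mk_eq_mk_iff_isConj.mpr (isConj_iff.mpr ⟨⟨c, hc1⟩, Subtype.ext hc2⟩)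
      rcases conj_reps (m := 0) (K := ZMod 2) card2 Inv.ax2 Inv.φ2 (by simpa using Inv.hφ) Inv.hφ2 g hg' with
        ⟨n, hn, e⟩ | ⟨n, hn, e⟩
      · refine Or.inl (hto (by rw [hs1]; exact yT_r1T) ⟨n, hn⟩ ?_)
        rw [hs1]
        exact Subtype.ext e
      · refine Or.inr (hto (by rw [hs2]; exact yT_r2T) (⟨nF Inv.ax2 0, Inv.n_memG 0⟩ * ⟨n, hn⟩) ?_)
        rw [hs2]
        apply Subtype.ext
        rw [← r2T_conj, ← e]
        simp only [Subgroup.coe_mul, Subgroup.coe_inv]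
        group
    · rintro (rfl | rfl)
      · exact ⟨s1, os1, rfl⟩
      · exact ⟨s2, os2, rfl⟩
  rw [key, Set.ncard_pair nc]

end tits

end Cfsg.Agent.Lib.F24.InvMain
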