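import Cfsg.Agent.Lib.F24.Cls

/-!
# Relations in the unipotent radical of `²F₄`, checked by the collector
-/

set_option autoImplicit false
set_option linter.unusedSectionVars false
set_option linter.unusedVariables false
set_option linter.ambiguousOpen false
set_option linter.dupNamespace false
set_option linter.unusedSimpArgs false
set_option maxRecDepth 1000000

namespace Cfsg.Agent.Lib.F24.Rel

open scoped MatrixGroups Matrix
open Cfsg _root_.Cfsg.Lie ChevalleyDatum
open Cfsg.Agent.Lib.Chev
open Tables Tables2 Tables3 Raise Basic AxBasic Torus Products Products2 Mono1 Mono2 Mono3 Bn ChevSimple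
open Cfsg.Agent.Lib.Twisted.Fact Cfsg.Agent.Lib.Twisted.Bruhat Cfsg.Agent.Lib.Twisted.Tw
open Cfsg.Agent.Lib.Twisted.Struct Cfsg.Agent.Lib.Twisted.Check Cfsg.Agent.Lib.Twisted.Ortho
open Cfsg.Agent.Lib.F24.F4Data Cfsg.Agent.Lib.F24.Tw
open Cfsg.Agent.Lib.F24.Coll Cfsg.Agent.Lib.F24.Cls

variable {K : Type*} [Field K] [CharP K 2]

/-! ### Reading the coordinates -/

/-- The positive roots. -/
def L4 : List ℕ := [24, 25, 26, 27, 28, 29, 30, 31, 32, 33, 34, 35, 36, 37, 38, 39, 40, 41, 42, 43, 44, 45, 46, 47]

theorem L4_eq : chevF4.posRoots = L4 := by decide +kernel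

/-- The check for reading coordinates. -/
def chk2 : List ℕ → PW → Bool
  | [], [] => true
  | [], _ :: _ => false
  | _ :: L, [] => chk2 L []
  | a :: L, (s, q) :: M =>
    bif Nat.beq a s then (!L.contains a) && chk2 L M
    else (!Nat.beq a s) && (!M.any fun l => Nat.beq l.1 a) && chk2 L ((s, q) :: M)

lemma lk_nil (r : ℕ) : lk [] r = [] := rfl

section coord

variable (ax : Ax chevF4 K) (env : List K)

lemma rv_eq (N : PW) : rv ax env N = wordG ax (evalW env N.reverse) := by
  induction N with
  | nil => simp [rv, evalW, wordG]
  | cons l N ih =>
    obtain ⟨s, q⟩ := l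
    simp only [rv, List.reverse_cons, evalW, List.map_append, List.map_cons, List.map_nil, wordG_append, ih]
    simp [wordG, evalW]

lemma lk_of_not_mem {M : PW} {a : ℕ} (h : (M.any fun l => Nat.beq l.1 a) = false) : lk M a = [] := by
  induction M with
  | nil => rfl
  | cons l M ih =>
    obtain ⟨s, q⟩ := l
    simp only [List.any_cons, Bool.or_eq_false_iff] at h
    simp only [lk]
    rw [h.1, cond_false]
    exact ih h.2

lemma word_of_chk (L : List ℕ) (M : PW) (h : chk2 L M = true) :
    wordG ax (evalW env M) = wordL ax L fun r => evalP env (lk M r) := by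
  induction L generalizing M with
  | nil =>
    cases M with
    | nil => rfl
    | cons l M => simp [chk2] at h
  | cons a L ih =>
    cases M with
    | nil =>
      have h1 : chk2 L [] = true := by simpa [chk2] using h
      have h2 := ih [] h1
      rw [wordL_cons, ← h2]
      simp [evalW, wordG, lk, Coll.evalP_nil, xG_zero]
    | cons l M =>
      obtain ⟨s, q⟩ := l
      simp only [chk2] at h
      cases hb : Nat.beq a s with
      | true =>
        have has : a = s := Nat.eq_of_beq_eq_true hb
        subst has
        rw [hb, cond_true, Bool.and_eq_true] at h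
        have h2 := ih M h.2
        have h3 : L.contains a = false := by simpa using h.1
        rw [wordL_cons]
        have e1 : lk ((a, q) :: M) a = q := by simp [lk]
        simp only [evalW, List.map_cons]
        rw [wordG_cons, e1]
        congr 1
        have h4 := h2
        simp only [evalW] at h4
        rw [h4]
        apply wordL_congr
        intro r hr
        have hra : Nat.beq a r = false := by
          rw [Bool.eq_false_iff]
          intro e
          have := Nat.eq_of_beq_eq_true e
          subst this
          rw [List.contains_iff_mem.mpr hr] at h3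
          exact absurd h3 (by simp)
        simp [lk, hra]
      | false =>
        rw [hb, cond_false, Bool.and_eq_true, Bool.and_eq_true] at h
        have h2 := ih _ h.2
        rw [wordL_cons, ← h2]
        have h3 : (M.any fun l => Nat.beq l.1 a) = false := by simpa using h.1.2
        have hsa : Nat.beq s a = false := by
          rw [Bool.eq_false_iff]
          intro e
          have := Nat.eq_of_beq_eq_true e
          subst this
          rw [Nat.beq_refl] at hb
          exact absurd hb (by simp)
        have e1 : lk ((s, q) :: M) a = [] := by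
          simp only [lk]
          rw [hsa, cond_false]
          exact lk_of_not_mem h3
        rw [e1]
        simp [Coll.evalP_nil, xG_zero]

/-- The coordinates of a word that is trivial vanish. -/
theorem coord_zero {W : PW} (hc : chk2 L4 (nf W).reverse = true) (h1 : wordG ax (evalW env W) = 1) (r : ℕ) (hr : r ∈ L4) :
    evalP env (lk (nf W).reverse r) = 0 := by
  have e : wordL ax L4 (fun r => evalP env (lk (nf W).reverse r)) = wordL ax L4 (fun _ => (0 : K)) := by
    rw [← word_of_chk ax env L4 _ hc, ← rv_eq, nf, rv_nfOf (law4 ax) cT_pos', h1]
    have : ∀ L : List ℕ, wordL ax L (fun _ => (0 : K)) = 1 := by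
      intro L
      induction L with
      | nil => rfl
      | cons a L ih => rw [wordL_cons, ih, xG_zero, mul_one]
    rw [this]
  have hL := goodList_posRoots hF
  rw [L4_eq] at hL
  exact wordL_inj ax hF hF2 hL e r hr

end coord

section gen

variable (ax : Ax chevF4 K)

lemma evalW_app (env : List K) (W W' : PW) : evalW env (W ++ W') = evalW env W ++ evalW env W' := by
  simp [evalW]

lemma word_conj (env : List K) (Wy Wg : PW) : wordG ax (evalW env (Wy ++ Wg ++ Wy.reverse)) =
    wordG ax (evalW env Wy) * wordG ax (evalW env Wg) * (wordG ax (evalW env Wy))⁻¹ := by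
  rw [word_rev, evalW_app, evalW_app, wordG_append, wordG_append]

lemma ev_eq {vals : List K} {φ : K →+* K} {L : List Pol} {i : ℕ} {p : Pol} (h : L.getD i [] = p) :
    ev vals φ L i = evalP (envOf φ vals) p := by
  rw [ev, h]

end gen

end Cfsg.Agent.Lib.F24.Rel
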