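import Cfsg.Agent.Lib.F24.Rel

/-!
# Relations in the unipotent radical of `²F₄`: the instances

All of them are checked by evaluating the collector.
-/

set_option autoImplicit false
set_option linter.unusedSectionVars false
set_option linter.unusedVariables false
set_option linter.ambiguousOpen false
set_option linter.dupNamespace false
set_option linter.unusedSimpArgs false
set_option maxRecDepth 1000000

namespace Cfsg.Agent.Lib.F24.RelA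

open scoped MatrixGroups Matrix
open Cfsg _root_.Cfsg.Lie ChevalleyDatum
open Cfsg.Agent.Lib.Chev
open Tables Tables2 Tables3 Raise Basic AxBasic Torus Products Products2 Mono1 Mono2 Mono3 Bn ChevSimple
open Cfsg.Agent.Lib.Twisted.Fact Cfsg.Agent.Lib.Twisted.Bruhat Cfsg.Agent.Lib.Twisted.Tw
open Cfsg.Agent.Lib.Twisted.Struct Cfsg.Agent.Lib.Twisted.Check Cfsg.Agent.Lib.Twisted.Ortho
open Cfsg.Agent.Lib.F24.F4Data Cfsg.Agent.Lib.F24.Tw
open Cfsg.Agent.Lib.F24.Coll Cfsg.Agent.Lib.F24.Cls Cfsg.Agent.Lib.F24.Rel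

variable {K : Type*} [Field K] [CharP K 2]
variable (ax : Ax chevF4 K) (φ : K →+* K) (hφ2 : ∀ t, (φ (φ t)) ^ 2 = t)

def gsqT8 : PW := gW (vr 12 0) (vr 12 1) (vr 12 2) (vr 12 3) (vr 12 4) (vr 12 5) (vr 12 6) (vr 12 7) (vr 12 8) (vr 12 9) (vr 12 10) (vr 12 11)

theorem dsqT8 : chk2 L4 (nf (gsqT8 ++ gsqT8)).reverse = true ∧
    lk (nf (gsqT8 ++ gsqT8)).reverse 28 = (pMul (vr 12 10) (pPhi (vr 12 10))) := by decide +kernel

include hφ2 in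
theorem sqT8 (a1 t2 u2 a3 t4 u4 a5 t6 u6 a7 t8 u8 : K)
    (h : gg ax φ a1 t2 u2 a3 t4 u4 a5 t6 u6 a7 t8 u8 * gg ax φ a1 t2 u2 a3 t4 u4 a5 t6 u6 a7 t8 u8 = 1) :
    (t8 * (φ t8)) = 0 := by
  have hg := word_gW ax φ hφ2 [a1, t2, u2, a3, t4, u4, a5, t6, u6, a7, t8, u8] (vr 12 0) (vr 12 1) (vr 12 2) (vr 12 3) (vr 12 4) (vr 12 5) (vr 12 6) (vr 12 7) (vr 12 8) (vr 12 9) (vr 12 10) (vr 12 11) (by decide +kernel)
  simp (disch := first | simp | decide) only [evalP_add, evalP_mul, evalP_F φ hφ2, evalP_Phi φ hφ2, evalP_pow, evalP_vr φ _ 12 _, Coll.evalP_nil, List.getD_cons_zero, List.getD_cons_succ] at hg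
  have hw : wordG ax (evalW (envOf φ [a1, t2, u2, a3, t4, u4, a5, t6, u6, a7, t8, u8]) (gsqT8 ++ gsqT8)) = 1 := by
    rw [evalW_app, wordG_append]
    rw [show wordG ax (evalW (envOf φ [a1, t2, u2, a3, t4, u4, a5, t6, u6, a7, t8, u8]) gsqT8) = _ from hg]
    exact h
  obtain ⟨hc, e28⟩ := dsqT8
  have h28 := coord_zero ax _ hc hw 28 (by decide)
  rw [e28] at h28
  simp (disch := first | simp | decide) only [evalP_add, evalP_mul, evalP_F φ hφ2, evalP_Phi φ hφ2, evalP_pow, evalP_vr φ _ 12 _, Coll.evalP_nil, List.getD_cons_zero, List.getD_cons_succ] at h28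
  exact h28

def gsqA : PW := gW (vr 11 0) (vr 11 1) (vr 11 2) (vr 11 3) (vr 11 4) (vr 11 5) (vr 11 6) (vr 11 7) (vr 11 8) (vr 11 9) [] (vr 11 10)

theorem dsqA : chk2 L4 (nf (gsqA ++ gsqA)).reverse = true ∧
    lk (nf (gsqA ++ gsqA)).reverse 29 = (pMul (vr 11 0) (vr 11 10)) ∧
    lk (nf (gsqA ++ gsqA)).reverse 36 = (pAdd (pAdd (pAdd (pMul (pMul (vr 11 0) (pPhi (vr 11 0))) (vr 11 10)) (pMul (pPhi (vr 11 0)) (pPhi (vr 11 4)))) (pMul (vr 11 0) (pPhi (vr 11 7)))) (pMul (vr 11 1) (pPhi (vr 11 1)))) := by decide +kernel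

include hφ2 in
theorem sqA (a1 t2 u2 a3 t4 u4 a5 t6 u6 a7 u8 : K)
    (h : gg ax φ a1 t2 u2 a3 t4 u4 a5 t6 u6 a7 0 u8 * gg ax φ a1 t2 u2 a3 t4 u4 a5 t6 u6 a7 0 u8 = 1) :
    (a1 * u8) = 0 ∧ (((((a1 * (φ a1)) * u8) + ((φ a1) * (φ t4))) + (a1 * (φ t6))) + (t2 * (φ t2))) = 0 := by
  have hg := word_gW ax φ hφ2 [a1, t2, u2, a3, t4, u4, a5, t6, u6, a7, u8] (vr 11 0) (vr 11 1) (vr 11 2) (vr 11 3) (vr 11 4) (vr 11 5) (vr 11 6) (vr 11 7) (vr 11 8) (vr 11 9) [] (vr 11 10) (by decide +kernel)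
  simp (disch := first | simp | decide) only [evalP_add, evalP_mul, evalP_F φ hφ2, evalP_Phi φ hφ2, evalP_pow, evalP_vr φ _ 11 _, Coll.evalP_nil, List.getD_cons_zero, List.getD_cons_succ] at hg
  have hw : wordG ax (evalW (envOf φ [a1, t2, u2, a3, t4, u4, a5, t6, u6, a7, u8]) (gsqA ++ gsqA)) = 1 := by
    rw [evalW_app, wordG_append]
    rw [show wordG ax (evalW (envOf φ [a1, t2, u2, a3, t4, u4, a5, t6, u6, a7, u8]) gsqA) = _ from hg]
    exact h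
  obtain ⟨hc, e29, e36⟩ := dsqA
  have h29 := coord_zero ax _ hc hw 29 (by decide)
  rw [e29] at h29
  simp (disch := first | simp | decide) only [evalP_add, evalP_mul, evalP_F φ hφ2, evalP_Phi φ hφ2, evalP_pow, evalP_vr φ _ 11 _, Coll.evalP_nil, List.getD_cons_zero, List.getD_cons_succ] at h29
  have h36 := coord_zero ax _ hc hw 36 (by decide)
  rw [e36] at h36
  simp (disch := first | simp | decide) only [evalP_add, evalP_mul, evalP_F φ hφ2, evalP_Phi φ hφ2, evalP_pow, evalP_vr φ _ 11 _, Coll.evalP_nil, List.getD_cons_zero, List.getD_cons_succ] at h36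
  exact ⟨h29, h36⟩

def yR2 : PW := wB 27 25 28 30 (vr 10 1) (vr 10 2)

def gR2 : PW := gW (vr 10 0) (pMul (vr 10 0) (vr 10 1)) (vr 10 3) (vr 10 4) (pMul (pF (vr 10 0)) (pAdd (pMul (vr 10 1) (pF (vr 10 1))) (pF (vr 10 2)))) (vr 10 5) (vr 10 6) (vr 10 7) (vr 10 8) (vr 10 9) [] []

theorem dR2 : okW (yR2 ++ gR2 ++ yR2.reverse) = true ∧
    (peel (yR2 ++ gR2 ++ yR2.reverse)).getD 0 [] = (vr 10 0) ∧
    (peel (yR2 ++ gR2 ++ yR2.reverse)).getD 1 [] = [] ∧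
    (peel (yR2 ++ gR2 ++ yR2.reverse)).getD 4 [] = [] ∧
    (peel (yR2 ++ gR2 ++ yR2.reverse)).getD 10 [] = [] ∧
    (peel (yR2 ++ gR2 ++ yR2.reverse)).getD 11 [] = [] := by decide +kernel

include hφ2 in
theorem R2 (a c d u2 a3 u4 a5 t6 u6 a7 : K) :
    ∃ z2 z3 z5 z6 z7 z8 z9 : K, (A8 ax φ c d) * gg ax φ a (a * c) u2 a3 (((φ a) ^ 2) * ((c * ((φ c) ^ 2)) + ((φ d) ^ 2))) u4 a5 t6 u6 a7 0 0 * (A8 ax φ c d)⁻¹ = gg ax φ a 0 z2 z3 0 z5 z6 z7 z8 z9 0 0 := by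
  have hg := word_gW ax φ hφ2 [a, c, d, u2, a3, u4, a5, t6, u6, a7] (vr 10 0) (pMul (vr 10 0) (vr 10 1)) (vr 10 3) (vr 10 4) (pMul (pF (vr 10 0)) (pAdd (pMul (vr 10 1) (pF (vr 10 1))) (pF (vr 10 2)))) (vr 10 5) (vr 10 6) (vr 10 7) (vr 10 8) (vr 10 9) [] [] (by decide +kernel)
  simp (disch := first | simp | decide) only [evalP_add, evalP_mul, evalP_F φ hφ2, evalP_Phi φ hφ2, evalP_pow, evalP_vr φ _ 10 _, Coll.evalP_nil, List.getD_cons_zero, List.getD_cons_succ] at hg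
  have hy0 := word_wB ax φ hφ2 [a, c, d, u2, a3, u4, a5, t6, u6, a7] 27 25 28 30 (vr 10 1) (vr 10 2) (by decide +kernel)
  simp (disch := first | simp | decide) only [evalP_add, evalP_mul, evalP_F φ hφ2, evalP_Phi φ hφ2, evalP_pow, evalP_vr φ _ 10 _, Coll.evalP_nil, List.getD_cons_zero, List.getD_cons_succ] at hy0
  have hy : wordG ax (evalW (envOf φ [a, c, d, u2, a3, u4, a5, t6, u6, a7]) yR2) = A8 ax φ c d := by
    simp only [yR2, evalW_app, wordG_append]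
    rw [hy0]
  obtain ⟨hok, e0, e1, e4, e10, e11⟩ := dR2
  have hw := word_gg ax φ hφ2 [a, c, d, u2, a3, u4, a5, t6, u6, a7] hok
  rw [word_conj, hy, show wordG ax (evalW (envOf φ [a, c, d, u2, a3, u4, a5, t6, u6, a7]) gR2) = _ from hg, ev_eq e0, ev_eq e1, ev_eq e4, ev_eq e10, ev_eq e11] at hw
  simp (disch := first | simp | decide) only [evalP_add, evalP_mul, evalP_F φ hφ2, evalP_Phi φ hφ2, evalP_pow, evalP_vr φ _ 10 _, Coll.evalP_nil, List.getD_cons_zero, List.getD_cons_succ] at hw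
  exact ⟨_, _, _, _, _, _, _, hw⟩

def gR3 : PW := gW (vr 8 0) [] (vr 8 1) (vr 8 2) [] (vr 8 3) (vr 8 4) (vr 8 5) (vr 8 6) (vr 8 7) [] []

theorem dR3 : chk2 L4 (nf (gR3 ++ gR3)).reverse = true ∧
    lk (nf (gR3 ++ gR3)).reverse 36 = (pMul (vr 8 0) (pPhi (vr 8 5))) ∧
    lk (nf (gR3 ++ gR3)).reverse 39 = (pMul (pPhi (vr 8 0)) (vr 8 7)) ∧
    lk (nf (gR3 ++ gR3)).reverse 44 = (pAdd (pAdd (pAdd (pMul (pPhi (vr 8 2)) (pPhi (vr 8 5))) (pMul (pPhi (vr 8 7)) (vr 8 1))) (pMul (pPhi (vr 8 0)) (vr 8 6))) (pMul (pMul (vr 8 0) (pPhi (vr 8 7))) (pPhi (vr 8 5)))) := by decide +kernel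

include hφ2 in
theorem R3 (a u2 a3 u4 a5 t6 u6 a7 : K)
    (h : gg ax φ a 0 u2 a3 0 u4 a5 t6 u6 a7 0 0 * gg ax φ a 0 u2 a3 0 u4 a5 t6 u6 a7 0 0 = 1) :
    (a * (φ t6)) = 0 ∧ ((φ a) * a7) = 0 ∧ (((((φ a3) * (φ t6)) + ((φ a7) * u2)) + ((φ a) * u6)) + ((a * (φ a7)) * (φ t6))) = 0 := by
  have hg := word_gW ax φ hφ2 [a, u2, a3, u4, a5, t6, u6, a7] (vr 8 0) [] (vr 8 1) (vr 8 2) [] (vr 8 3) (vr 8 4) (vr 8 5) (vr 8 6) (vr 8 7) [] [] (by decide +kernel)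
  simp (disch := first | simp | decide) only [evalP_add, evalP_mul, evalP_F φ hφ2, evalP_Phi φ hφ2, evalP_pow, evalP_vr φ _ 8 _, Coll.evalP_nil, List.getD_cons_zero, List.getD_cons_succ] at hg
  have hw : wordG ax (evalW (envOf φ [a, u2, a3, u4, a5, t6, u6, a7]) (gR3 ++ gR3)) = 1 := by
    rw [evalW_app, wordG_append]
    rw [show wordG ax (evalW (envOf φ [a, u2, a3, u4, a5, t6, u6, a7]) gR3) = _ from hg]
    exact h
  obtain ⟨hc, e36, e39, e44⟩ := dR3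
  have h36 := coord_zero ax _ hc hw 36 (by decide)
  rw [e36] at h36
  simp (disch := first | simp | decide) only [evalP_add, evalP_mul, evalP_F φ hφ2, evalP_Phi φ hφ2, evalP_pow, evalP_vr φ _ 8 _, Coll.evalP_nil, List.getD_cons_zero, List.getD_cons_succ] at h36
  have h39 := coord_zero ax _ hc hw 39 (by decide)
  rw [e39] at h39
  simp (disch := first | simp | decide) only [evalP_add, evalP_mul, evalP_F φ hφ2, evalP_Phi φ hφ2, evalP_pow, evalP_vr φ _ 8 _, Coll.evalP_nil, List.getD_cons_zero, List.getD_cons_succ] at h39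
  have h44 := coord_zero ax _ hc hw 44 (by decide)
  rw [e44] at h44
  simp (disch := first | simp | decide) only [evalP_add, evalP_mul, evalP_F φ hφ2, evalP_Phi φ hφ2, evalP_pow, evalP_vr φ _ 8 _, Coll.evalP_nil, List.getD_cons_zero, List.getD_cons_succ] at h44
  exact ⟨h36, h39, h44⟩

def yR4 : PW := wA 37 32 (vr 5 1) ++ wB 35 31 40 46 (vr 5 2) (vr 5 3) ++ wB 29 41 44 47 (vr 5 4) []

def gR4 : PW := gW (vr 5 0) [] [] [] [] [] [] [] [] [] [] []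

theorem dR4 : okW (yR4 ++ gR4 ++ yR4.reverse) = true ∧
    (peel (yR4 ++ gR4 ++ yR4.reverse)).getD 0 [] = (vr 5 0) ∧
    (peel (yR4 ++ gR4 ++ yR4.reverse)).getD 1 [] = [] ∧
    (peel (yR4 ++ gR4 ++ yR4.reverse)).getD 2 [] = (pAdd (pMul (pPhi (vr 5 0)) (pPhi (vr 5 4))) (pMul (vr 5 0) (pPhi (vr 5 2)))) ∧
    (peel (yR4 ++ gR4 ++ yR4.reverse)).getD 3 [] = (pAdd (pMul (pF (vr 5 0)) (vr 5 1)) (pMul (vr 5 0) (pF (vr 5 2)))) ∧
    (peel (yR4 ++ gR4 ++ yR4.reverse)).getD 4 [] = [] ∧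
    (peel (yR4 ++ gR4 ++ yR4.reverse)).getD 5 [] = (pAdd (pAdd (pMul (pMul (pPhi (vr 5 0)) (pPhi (vr 5 1))) (pPhi (vr 5 4))) (pMul (pPhi (vr 5 0)) (vr 5 3))) (pMul (pMul (vr 5 0) (pPhi (vr 5 1))) (pPhi (vr 5 2)))) ∧
    (peel (yR4 ++ gR4 ++ yR4.reverse)).getD 6 [] = (pMul (vr 5 0) (pF (vr 5 1))) ∧
    (peel (yR4 ++ gR4 ++ yR4.reverse)).getD 7 [] = [] ∧
    (peel (yR4 ++ gR4 ++ yR4.reverse)).getD 8 [] = [] ∧
    (peel (yR4 ++ gR4 ++ yR4.reverse)).getD 9 [] = [] ∧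
    (peel (yR4 ++ gR4 ++ yR4.reverse)).getD 10 [] = [] ∧
    (peel (yR4 ++ gR4 ++ yR4.reverse)).getD 11 [] = [] := by decide +kernel

include hφ2 in
theorem R4 (a e f h j : K) :
    (A7 ax φ e * A6 ax φ f h * A4 ax φ j 0) * gg ax φ a 0 0 0 0 0 0 0 0 0 0 0 * (A7 ax φ e * A6 ax φ f h * A4 ax φ j 0)⁻¹ = gg ax φ a 0 (((φ a) * (φ j)) + (a * (φ f))) ((((φ a) ^ 2) * e) + (a * ((φ f) ^ 2))) 0 (((((φ a) * (φ e)) * (φ j)) + ((φ a) * h)) + ((a * (φ e)) * (φ f))) (a * ((φ e) ^ 2)) 0 0 0 0 0 := by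
  have hg := word_gW ax φ hφ2 [a, e, f, h, j] (vr 5 0) [] [] [] [] [] [] [] [] [] [] [] (by decide +kernel)
  simp (disch := first | simp | decide) only [evalP_add, evalP_mul, evalP_F φ hφ2, evalP_Phi φ hφ2, evalP_pow, evalP_vr φ _ 5 _, Coll.evalP_nil, List.getD_cons_zero, List.getD_cons_succ] at hg
  have hy0 := word_wA ax φ hφ2 [a, e, f, h, j] 37 32 (vr 5 1) (by decide +kernel)
  simp (disch := first | simp | decide) only [evalP_add, evalP_mul, evalP_F φ hφ2, evalP_Phi φ hφ2, evalP_pow, evalP_vr φ _ 5 _, Coll.evalP_nil, List.getD_cons_zero, List.getD_cons_succ] at hy0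
  have hy1 := word_wB ax φ hφ2 [a, e, f, h, j] 35 31 40 46 (vr 5 2) (vr 5 3) (by decide +kernel)
  simp (disch := first | simp | decide) only [evalP_add, evalP_mul, evalP_F φ hφ2, evalP_Phi φ hφ2, evalP_pow, evalP_vr φ _ 5 _, Coll.evalP_nil, List.getD_cons_zero, List.getD_cons_succ] at hy1
  have hy2 := word_wB ax φ hφ2 [a, e, f, h, j] 29 41 44 47 (vr 5 4) [] (by decide +kernel)
  simp (disch := first | simp | decide) only [evalP_add, evalP_mul, evalP_F φ hφ2, evalP_Phi φ hφ2, evalP_pow, evalP_vr φ _ 5 _, Coll.evalP_nil, List.getD_cons_zero, List.getD_cons_succ] at hy2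
  have hy : wordG ax (evalW (envOf φ [a, e, f, h, j]) yR4) = A7 ax φ e * A6 ax φ f h * A4 ax φ j 0 := by
    simp only [yR4, evalW_app, wordG_append]
    rw [hy0, hy1, hy2]
  obtain ⟨hok, e0, e1, e2, e3, e4, e5, e6, e7, e8, e9, e10, e11⟩ := dR4
  have hw := word_gg ax φ hφ2 [a, e, f, h, j] hok
  rw [word_conj, hy, show wordG ax (evalW (envOf φ [a, e, f, h, j]) gR4) = _ from hg, ev_eq e0, ev_eq e1, ev_eq e2, ev_eq e3, ev_eq e4, ev_eq e5, ev_eq e6, ev_eq e7, ev_eq e8, ev_eq e9, ev_eq e10, ev_eq e11] at hw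
  simp (disch := first | simp | decide) only [evalP_add, evalP_mul, evalP_F φ hφ2, evalP_Phi φ hφ2, evalP_pow, evalP_vr φ _ 5 _, Coll.evalP_nil, List.getD_cons_zero, List.getD_cons_succ] at hw
  exact hw

def gR5 : PW := gW [] [] (vr 9 0) (vr 9 1) (vr 9 2) (vr 9 3) (vr 9 4) (vr 9 5) (vr 9 6) (vr 9 7) [] (vr 9 8)

theorem dR5 : chk2 L4 (nf (gR5 ++ gR5)).reverse = true ∧
    lk (nf (gR5 ++ gR5)).reverse 40 = (pAdd (pAdd (pAdd (pMul (pPhi (vr 9 1)) (vr 9 8)) (pMul (pPhi (vr 9 7)) (pPhi (vr 9 2)))) (pMul (vr 9 5) (pPhi (vr 9 5)))) (pMul (vr 9 0) (pF (vr 9 8)))) ∧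
    lk (nf (gR5 ++ gR5)).reverse 44 = (pAdd (pAdd (pAdd (pMul (pPhi (vr 9 1)) (pPhi (vr 9 5))) (pMul (pPhi (vr 9 7)) (vr 9 0))) (pMul (vr 9 2) (pPhi (vr 9 2)))) (pMul (pF (vr 9 0)) (vr 9 8))) ∧
    lk (nf (gR5 ++ gR5)).reverse 45 = (pAdd (pMul (vr 9 2) (vr 9 5)) (pMul (pF (vr 9 0)) (pF (vr 9 8)))) := by decide +kernel

include hφ2 in
theorem R5 (u2 a3 t4 u4 a5 t6 u6 a7 u8 : K)
    (h : gg ax φ 0 0 u2 a3 t4 u4 a5 t6 u6 a7 0 u8 * gg ax φ 0 0 u2 a3 t4 u4 a5 t6 u6 a7 0 u8 = 1) :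
    (((((φ a3) * u8) + ((φ a7) * (φ t4))) + (t6 * (φ t6))) + (u2 * ((φ u8) ^ 2))) = 0 ∧ (((((φ a3) * (φ t6)) + ((φ a7) * u2)) + (t4 * (φ t4))) + (((φ u2) ^ 2) * u8)) = 0 ∧ ((t4 * t6) + (((φ u2) ^ 2) * ((φ u8) ^ 2))) = 0 := by
  have hg := word_gW ax φ hφ2 [u2, a3, t4, u4, a5, t6, u6, a7, u8] [] [] (vr 9 0) (vr 9 1) (vr 9 2) (vr 9 3) (vr 9 4) (vr 9 5) (vr 9 6) (vr 9 7) [] (vr 9 8) (by decide +kernel)
  simp (disch := first | simp | decide) only [evalP_add, evalP_mul, evalP_F φ hφ2, evalP_Phi φ hφ2, evalP_pow, evalP_vr φ _ 9 _, Coll.evalP_nil, List.getD_cons_zero, List.getD_cons_succ] at hg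
  have hw : wordG ax (evalW (envOf φ [u2, a3, t4, u4, a5, t6, u6, a7, u8]) (gR5 ++ gR5)) = 1 := by
    rw [evalW_app, wordG_append]
    rw [show wordG ax (evalW (envOf φ [u2, a3, t4, u4, a5, t6, u6, a7, u8]) gR5) = _ from hg]
    exact h
  obtain ⟨hc, e40, e44, e45⟩ := dR5
  have h40 := coord_zero ax _ hc hw 40 (by decide)
  rw [e40] at h40
  simp (disch := first | simp | decide) only [evalP_add, evalP_mul, evalP_F φ hφ2, evalP_Phi φ hφ2, evalP_pow, evalP_vr φ _ 9 _, Coll.evalP_nil, List.getD_cons_zero, List.getD_cons_succ] at h40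
  have h44 := coord_zero ax _ hc hw 44 (by decide)
  rw [e44] at h44
  simp (disch := first | simp | decide) only [evalP_add, evalP_mul, evalP_F φ hφ2, evalP_Phi φ hφ2, evalP_pow, evalP_vr φ _ 9 _, Coll.evalP_nil, List.getD_cons_zero, List.getD_cons_succ] at h44
  have h45 := coord_zero ax _ hc hw 45 (by decide)
  rw [e45] at h45
  simp (disch := first | simp | decide) only [evalP_add, evalP_mul, evalP_F φ hφ2, evalP_Phi φ hφ2, evalP_pow, evalP_vr φ _ 9 _, Coll.evalP_nil, List.getD_cons_zero, List.getD_cons_succ] at h45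
  exact ⟨h40, h44, h45⟩

def yR6 : PW := wA 33 24 (vr 9 0)

def gR6 : PW := gW [] [] (vr 9 1) (vr 9 2) (pMul (pF (vr 9 0)) (pF (vr 9 8))) (vr 9 3) (vr 9 4) (vr 9 5) (vr 9 6) (vr 9 7) [] (vr 9 8)

theorem dR6 : okW (yR6 ++ gR6 ++ yR6.reverse) = true ∧
    (peel (yR6 ++ gR6 ++ yR6.reverse)).getD 0 [] = [] ∧
    (peel (yR6 ++ gR6 ++ yR6.reverse)).getD 1 [] = [] ∧
    (peel (yR6 ++ gR6 ++ yR6.reverse)).getD 4 [] = [] ∧
    (peel (yR6 ++ gR6 ++ yR6.reverse)).getD 10 [] = [] ∧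
    (peel (yR6 ++ gR6 ++ yR6.reverse)).getD 11 [] = (vr 9 8) := by decide +kernel

include hφ2 in
theorem R6 (x u2 a3 u4 a5 t6 u6 a7 u8 : K) :
    ∃ z2 z3 z5 z6 z7 z8 z9 : K, (A1 ax φ x) * gg ax φ 0 0 u2 a3 (((φ x) ^ 2) * ((φ u8) ^ 2)) u4 a5 t6 u6 a7 0 u8 * (A1 ax φ x)⁻¹ = gg ax φ 0 0 z2 z3 0 z5 z6 z7 z8 z9 0 u8 := by
  have hg := word_gW ax φ hφ2 [x, u2, a3, u4, a5, t6, u6, a7, u8] [] [] (vr 9 1) (vr 9 2) (pMul (pF (vr 9 0)) (pF (vr 9 8))) (vr 9 3) (vr 9 4) (vr 9 5) (vr 9 6) (vr 9 7) [] (vr 9 8) (by decide +kernel)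
  simp (disch := first | simp | decide) only [evalP_add, evalP_mul, evalP_F φ hφ2, evalP_Phi φ hφ2, evalP_pow, evalP_vr φ _ 9 _, Coll.evalP_nil, List.getD_cons_zero, List.getD_cons_succ] at hg
  have hy0 := word_wA ax φ hφ2 [x, u2, a3, u4, a5, t6, u6, a7, u8] 33 24 (vr 9 0) (by decide +kernel)
  simp (disch := first | simp | decide) only [evalP_add, evalP_mul, evalP_F φ hφ2, evalP_Phi φ hφ2, evalP_pow, evalP_vr φ _ 9 _, Coll.evalP_nil, List.getD_cons_zero, List.getD_cons_succ] at hy0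
  have hy : wordG ax (evalW (envOf φ [x, u2, a3, u4, a5, t6, u6, a7, u8]) yR6) = A1 ax φ x := by
    simp only [yR6, evalW_app, wordG_append]
    rw [hy0]
  obtain ⟨hok, e0, e1, e4, e10, e11⟩ := dR6
  have hw := word_gg ax φ hφ2 [x, u2, a3, u4, a5, t6, u6, a7, u8] hok
  rw [word_conj, hy, show wordG ax (evalW (envOf φ [x, u2, a3, u4, a5, t6, u6, a7, u8]) gR6) = _ from hg, ev_eq e0, ev_eq e1, ev_eq e4, ev_eq e10, ev_eq e11] at hw
  simp (disch := first | simp | decide) only [evalP_add, evalP_mul, evalP_F φ hφ2, evalP_Phi φ hφ2, evalP_pow, evalP_vr φ _ 9 _, Coll.evalP_nil, List.getD_cons_zero, List.getD_cons_succ] at hw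
  exact ⟨_, _, _, _, _, _, _, hw⟩

def yR7 : PW := wB 27 25 28 30 (vr 8 1) (vr 8 2)

def gR7 : PW := gW [] [] (vr 8 0) (pMul (pF (vr 8 0)) (vr 8 1)) (vr 8 3) (vr 8 4) (pMul (pF (vr 8 0)) (pF (vr 8 2))) (vr 8 5) (vr 8 6) (vr 8 7) [] []

theorem dR7 : okW (yR7 ++ gR7 ++ yR7.reverse) = true ∧
    (peel (yR7 ++ gR7 ++ yR7.reverse)).getD 0 [] = [] ∧
    (peel (yR7 ++ gR7 ++ yR7.reverse)).getD 1 [] = [] ∧
    (peel (yR7 ++ gR7 ++ yR7.reverse)).getD 2 [] = (vr 8 0) ∧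
    (peel (yR7 ++ gR7 ++ yR7.reverse)).getD 3 [] = [] ∧
    (peel (yR7 ++ gR7 ++ yR7.reverse)).getD 4 [] = (vr 8 3) ∧
    (peel (yR7 ++ gR7 ++ yR7.reverse)).getD 6 [] = [] ∧
    (peel (yR7 ++ gR7 ++ yR7.reverse)).getD 7 [] = (vr 8 5) ∧
    (peel (yR7 ++ gR7 ++ yR7.reverse)).getD 10 [] = [] ∧
    (peel (yR7 ++ gR7 ++ yR7.reverse)).getD 11 [] = [] := by decide +kernel

include hφ2 in
theorem R7 (u c d t4 u4 t6 u6 a7 : K) :
    ∃ z5 z8 z9 : K, (A8 ax φ c d) * gg ax φ 0 0 u (((φ u) ^ 2) * c) t4 u4 (((φ u) ^ 2) * ((φ d) ^ 2)) t6 u6 a7 0 0 * (A8 ax φ c d)⁻¹ = gg ax φ 0 0 u 0 t4 z5 0 t6 z8 z9 0 0 := by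
  have hg := word_gW ax φ hφ2 [u, c, d, t4, u4, t6, u6, a7] [] [] (vr 8 0) (pMul (pF (vr 8 0)) (vr 8 1)) (vr 8 3) (vr 8 4) (pMul (pF (vr 8 0)) (pF (vr 8 2))) (vr 8 5) (vr 8 6) (vr 8 7) [] [] (by decide +kernel)
  simp (disch := first | simp | decide) only [evalP_add, evalP_mul, evalP_F φ hφ2, evalP_Phi φ hφ2, evalP_pow, evalP_vr φ _ 8 _, Coll.evalP_nil, List.getD_cons_zero, List.getD_cons_succ] at hg
  have hy0 := word_wB ax φ hφ2 [u, c, d, t4, u4, t6, u6, a7] 27 25 28 30 (vr 8 1) (vr 8 2) (by decide +kernel)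
  simp (disch := first | simp | decide) only [evalP_add, evalP_mul, evalP_F φ hφ2, evalP_Phi φ hφ2, evalP_pow, evalP_vr φ _ 8 _, Coll.evalP_nil, List.getD_cons_zero, List.getD_cons_succ] at hy0
  have hy : wordG ax (evalW (envOf φ [u, c, d, t4, u4, t6, u6, a7]) yR7) = A8 ax φ c d := by
    simp only [yR7, evalW_app, wordG_append]
    rw [hy0]
  obtain ⟨hok, e0, e1, e2, e3, e4, e6, e7, e10, e11⟩ := dR7
  have hw := word_gg ax φ hφ2 [u, c, d, t4, u4, t6, u6, a7] hok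
  rw [word_conj, hy, show wordG ax (evalW (envOf φ [u, c, d, t4, u4, t6, u6, a7]) gR7) = _ from hg, ev_eq e0, ev_eq e1, ev_eq e2, ev_eq e3, ev_eq e4, ev_eq e6, ev_eq e7, ev_eq e10, ev_eq e11] at hw
  simp (disch := first | simp | decide) only [evalP_add, evalP_mul, evalP_F φ hφ2, evalP_Phi φ hφ2, evalP_pow, evalP_vr φ _ 8 _, Coll.evalP_nil, List.getD_cons_zero, List.getD_cons_succ] at hw
  exact ⟨_, _, _, hw⟩

def yR8 : PW := wA 37 32 (vr 4 2)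

def gR8 : PW := gW [] [] (vr 4 0) (vr 4 1) [] (pMul (vr 4 0) (pPhi (vr 4 2))) [] [] (vr 4 3) [] [] []

theorem dR8 : okW (yR8 ++ gR8 ++ yR8.reverse) = true ∧
    (peel (yR8 ++ gR8 ++ yR8.reverse)).getD 0 [] = [] ∧
    (peel (yR8 ++ gR8 ++ yR8.reverse)).getD 1 [] = [] ∧
    (peel (yR8 ++ gR8 ++ yR8.reverse)).getD 2 [] = (vr 4 0) ∧
    (peel (yR8 ++ gR8 ++ yR8.reverse)).getD 3 [] = (vr 4 1) ∧
    (peel (yR8 ++ gR8 ++ yR8.reverse)).getD 4 [] = [] ∧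
    (peel (yR8 ++ gR8 ++ yR8.reverse)).getD 5 [] = [] ∧
    (peel (yR8 ++ gR8 ++ yR8.reverse)).getD 6 [] = [] ∧
    (peel (yR8 ++ gR8 ++ yR8.reverse)).getD 7 [] = [] ∧
    (peel (yR8 ++ gR8 ++ yR8.reverse)).getD 8 [] = (vr 4 3) ∧
    (peel (yR8 ++ gR8 ++ yR8.reverse)).getD 9 [] = [] ∧
    (peel (yR8 ++ gR8 ++ yR8.reverse)).getD 10 [] = [] ∧
    (peel (yR8 ++ gR8 ++ yR8.reverse)).getD 11 [] = [] := by decide +kernel

include hφ2 in
theorem R8 (u s x v : K) :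
    (A7 ax φ x) * gg ax φ 0 0 u s 0 (u * (φ x)) 0 0 v 0 0 0 * (A7 ax φ x)⁻¹ = gg ax φ 0 0 u s 0 0 0 0 v 0 0 0 := by
  have hg := word_gW ax φ hφ2 [u, s, x, v] [] [] (vr 4 0) (vr 4 1) [] (pMul (vr 4 0) (pPhi (vr 4 2))) [] [] (vr 4 3) [] [] [] (by decide +kernel)
  simp (disch := first | simp | decide) only [evalP_add, evalP_mul, evalP_F φ hφ2, evalP_Phi φ hφ2, evalP_pow, evalP_vr φ _ 4 _, Coll.evalP_nil, List.getD_cons_zero, List.getD_cons_succ] at hg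
  have hy0 := word_wA ax φ hφ2 [u, s, x, v] 37 32 (vr 4 2) (by decide +kernel)
  simp (disch := first | simp | decide) only [evalP_add, evalP_mul, evalP_F φ hφ2, evalP_Phi φ hφ2, evalP_pow, evalP_vr φ _ 4 _, Coll.evalP_nil, List.getD_cons_zero, List.getD_cons_succ] at hy0
  have hy : wordG ax (evalW (envOf φ [u, s, x, v]) yR8) = A7 ax φ x := by
    simp only [yR8, evalW_app, wordG_append]
    rw [hy0]
  obtain ⟨hok, e0, e1, e2, e3, e4, e5, e6, e7, e8, e9, e10, e11⟩ := dR8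
  have hw := word_gg ax φ hφ2 [u, s, x, v] hok
  rw [word_conj, hy, show wordG ax (evalW (envOf φ [u, s, x, v]) gR8) = _ from hg, ev_eq e0, ev_eq e1, ev_eq e2, ev_eq e3, ev_eq e4, ev_eq e5, ev_eq e6, ev_eq e7, ev_eq e8, ev_eq e9, ev_eq e10, ev_eq e11] at hw
  simp (disch := first | simp | decide) only [evalP_add, evalP_mul, evalP_F φ hφ2, evalP_Phi φ hφ2, evalP_pow, evalP_vr φ _ 4 _, Coll.evalP_nil, List.getD_cons_zero, List.getD_cons_succ] at hw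
  exact hw

def yR9 : PW := wB 27 25 28 30 (vr 2 1) (pMul (pPhi (vr 2 1)) (vr 2 1))

def gR9 : PW := gW [] [] (vr 2 0) [] [] [] [] [] (pMul (pMul (vr 2 0) (vr 2 1)) (pF (vr 2 1))) [] [] []

theorem dR9 : okW (yR9 ++ gR9 ++ yR9.reverse) = true ∧
    (peel (yR9 ++ gR9 ++ yR9.reverse)).getD 0 [] = [] ∧
    (peel (yR9 ++ gR9 ++ yR9.reverse)).getD 1 [] = [] ∧
    (peel (yR9 ++ gR9 ++ yR9.reverse)).getD 2 [] = (vr 2 0) ∧
    (peel (yR9 ++ gR9 ++ yR9.reverse)).getD 3 [] = (pMul (pF (vr 2 0)) (vr 2 1)) ∧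
    (peel (yR9 ++ gR9 ++ yR9.reverse)).getD 4 [] = [] ∧
    (peel (yR9 ++ gR9 ++ yR9.reverse)).getD 5 [] = (pMul (pF (vr 2 0)) (pMul (pPhi (vr 2 1)) (vr 2 1))) ∧
    (peel (yR9 ++ gR9 ++ yR9.reverse)).getD 6 [] = [] ∧
    (peel (yR9 ++ gR9 ++ yR9.reverse)).getD 7 [] = [] ∧
    (peel (yR9 ++ gR9 ++ yR9.reverse)).getD 8 [] = [] ∧
    (peel (yR9 ++ gR9 ++ yR9.reverse)).getD 9 [] = [] ∧
    (peel (yR9 ++ gR9 ++ yR9.reverse)).getD 10 [] = [] ∧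
    (peel (yR9 ++ gR9 ++ yR9.reverse)).getD 11 [] = [] := by decide +kernel

include hφ2 in
theorem R9 (u c : K) :
    (A8 ax φ c ((φ c) * c)) * gg ax φ 0 0 u 0 0 0 0 0 ((u * c) * ((φ c) ^ 2)) 0 0 0 * (A8 ax φ c ((φ c) * c))⁻¹ = gg ax φ 0 0 u (((φ u) ^ 2) * c) 0 (((φ u) ^ 2) * ((φ c) * c)) 0 0 0 0 0 0 := by
  have hg := word_gW ax φ hφ2 [u, c] [] [] (vr 2 0) [] [] [] [] [] (pMul (pMul (vr 2 0) (vr 2 1)) (pF (vr 2 1))) [] [] [] (by decide +kernel)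
  simp (disch := first | simp | decide) only [evalP_add, evalP_mul, evalP_F φ hφ2, evalP_Phi φ hφ2, evalP_pow, evalP_vr φ _ 2 _, Coll.evalP_nil, List.getD_cons_zero, List.getD_cons_succ] at hg
  have hy0 := word_wB ax φ hφ2 [u, c] 27 25 28 30 (vr 2 1) (pMul (pPhi (vr 2 1)) (vr 2 1)) (by decide +kernel)
  simp (disch := first | simp | decide) only [evalP_add, evalP_mul, evalP_F φ hφ2, evalP_Phi φ hφ2, evalP_pow, evalP_vr φ _ 2 _, Coll.evalP_nil, List.getD_cons_zero, List.getD_cons_succ] at hy0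
  have hy : wordG ax (evalW (envOf φ [u, c]) yR9) = A8 ax φ c ((φ c) * c) := by
    simp only [yR9, evalW_app, wordG_append]
    rw [hy0]
  obtain ⟨hok, e0, e1, e2, e3, e4, e5, e6, e7, e8, e9, e10, e11⟩ := dR9
  have hw := word_gg ax φ hφ2 [u, c] hok
  rw [word_conj, hy, show wordG ax (evalW (envOf φ [u, c]) gR9) = _ from hg, ev_eq e0, ev_eq e1, ev_eq e2, ev_eq e3, ev_eq e4, ev_eq e5, ev_eq e6, ev_eq e7, ev_eq e8, ev_eq e9, ev_eq e10, ev_eq e11] at hw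
  simp (disch := first | simp | decide) only [evalP_add, evalP_mul, evalP_F φ hφ2, evalP_Phi φ hφ2, evalP_pow, evalP_vr φ _ 2 _, Coll.evalP_nil, List.getD_cons_zero, List.getD_cons_succ] at hw
  exact hw

def yR10 : PW := wB 29 41 44 47 (vr 2 1) []

def gR10 : PW := gW (vr 2 0) [] [] [] [] [] [] [] [] [] [] []

theorem dR10 : okW (yR10 ++ gR10 ++ yR10.reverse) = true ∧
    (peel (yR10 ++ gR10 ++ yR10.reverse)).getD 0 [] = (vr 2 0) ∧
    (peel (yR10 ++ gR10 ++ yR10.reverse)).getD 1 [] = [] ∧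
    (peel (yR10 ++ gR10 ++ yR10.reverse)).getD 2 [] = (pMul (pPhi (vr 2 0)) (pPhi (vr 2 1))) ∧
    (peel (yR10 ++ gR10 ++ yR10.reverse)).getD 3 [] = [] ∧
    (peel (yR10 ++ gR10 ++ yR10.reverse)).getD 4 [] = [] ∧
    (peel (yR10 ++ gR10 ++ yR10.reverse)).getD 5 [] = [] ∧
    (peel (yR10 ++ gR10 ++ yR10.reverse)).getD 6 [] = [] ∧
    (peel (yR10 ++ gR10 ++ yR10.reverse)).getD 7 [] = [] ∧
    (peel (yR10 ++ gR10 ++ yR10.reverse)).getD 8 [] = [] ∧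
    (peel (yR10 ++ gR10 ++ yR10.reverse)).getD 9 [] = [] ∧
    (peel (yR10 ++ gR10 ++ yR10.reverse)).getD 10 [] = [] ∧
    (peel (yR10 ++ gR10 ++ yR10.reverse)).getD 11 [] = [] := by decide +kernel

include hφ2 in
theorem R10 (s j : K) :
    (A4 ax φ j 0) * gg ax φ s 0 0 0 0 0 0 0 0 0 0 0 * (A4 ax φ j 0)⁻¹ = gg ax φ s 0 ((φ s) * (φ j)) 0 0 0 0 0 0 0 0 0 := by
  have hg := word_gW ax φ hφ2 [s, j] (vr 2 0) [] [] [] [] [] [] [] [] [] [] [] (by decide +kernel)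
  simp (disch := first | simp | decide) only [evalP_add, evalP_mul, evalP_F φ hφ2, evalP_Phi φ hφ2, evalP_pow, evalP_vr φ _ 2 _, Coll.evalP_nil, List.getD_cons_zero, List.getD_cons_succ] at hg
  have hy0 := word_wB ax φ hφ2 [s, j] 29 41 44 47 (vr 2 1) [] (by decide +kernel)
  simp (disch := first | simp | decide) only [evalP_add, evalP_mul, evalP_F φ hφ2, evalP_Phi φ hφ2, evalP_pow, evalP_vr φ _ 2 _, Coll.evalP_nil, List.getD_cons_zero, List.getD_cons_succ] at hy0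
  have hy : wordG ax (evalW (envOf φ [s, j]) yR10) = A4 ax φ j 0 := by
    simp only [yR10, evalW_app, wordG_append]
    rw [hy0]
  obtain ⟨hok, e0, e1, e2, e3, e4, e5, e6, e7, e8, e9, e10, e11⟩ := dR10
  have hw := word_gg ax φ hφ2 [s, j] hok
  rw [word_conj, hy, show wordG ax (evalW (envOf φ [s, j]) gR10) = _ from hg, ev_eq e0, ev_eq e1, ev_eq e2, ev_eq e3, ev_eq e4, ev_eq e5, ev_eq e6, ev_eq e7, ev_eq e8, ev_eq e9, ev_eq e10, ev_eq e11] at hw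
  simp (disch := first | simp | decide) only [evalP_add, evalP_mul, evalP_F φ hφ2, evalP_Phi φ hφ2, evalP_pow, evalP_vr φ _ 2 _, Coll.evalP_nil, List.getD_cons_zero, List.getD_cons_succ] at hw
  exact hw

def yR11 : PW := wA 33 24 (vr 2 0)

def gR11 : PW := gW [] [] (vr 2 1) [] [] [] [] [] [] [] [] []

theorem dR11 : okW (yR11 ++ gR11 ++ yR11.reverse) = true ∧
    (peel (yR11 ++ gR11 ++ yR11.reverse)).getD 0 [] = [] ∧
    (peel (yR11 ++ gR11 ++ yR11.reverse)).getD 1 [] = [] ∧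
    (peel (yR11 ++ gR11 ++ yR11.reverse)).getD 2 [] = (vr 2 1) ∧
    (peel (yR11 ++ gR11 ++ yR11.reverse)).getD 3 [] = [] ∧
    (peel (yR11 ++ gR11 ++ yR11.reverse)).getD 4 [] = [] ∧
    (peel (yR11 ++ gR11 ++ yR11.reverse)).getD 5 [] = [] ∧
    (peel (yR11 ++ gR11 ++ yR11.reverse)).getD 6 [] = [] ∧
    (peel (yR11 ++ gR11 ++ yR11.reverse)).getD 7 [] = [] ∧
    (peel (yR11 ++ gR11 ++ yR11.reverse)).getD 8 [] = [] ∧
    (peel (yR11 ++ gR11 ++ yR11.reverse)).getD 9 [] = [] ∧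
    (peel (yR11 ++ gR11 ++ yR11.reverse)).getD 10 [] = [] ∧
    (peel (yR11 ++ gR11 ++ yR11.reverse)).getD 11 [] = [] := by decide +kernel

include hφ2 in
theorem R11 (s u : K) :
    (A1 ax φ s) * gg ax φ 0 0 u 0 0 0 0 0 0 0 0 0 * (A1 ax φ s)⁻¹ = gg ax φ 0 0 u 0 0 0 0 0 0 0 0 0 := by
  have hg := word_gW ax φ hφ2 [s, u] [] [] (vr 2 1) [] [] [] [] [] [] [] [] [] (by decide +kernel)
  simp (disch := first | simp | decide) only [evalP_add, evalP_mul, evalP_F φ hφ2, evalP_Phi φ hφ2, evalP_pow, evalP_vr φ _ 2 _, Coll.evalP_nil, List.getD_cons_zero, List.getD_cons_succ] at hg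
  have hy0 := word_wA ax φ hφ2 [s, u] 33 24 (vr 2 0) (by decide +kernel)
  simp (disch := first | simp | decide) only [evalP_add, evalP_mul, evalP_F φ hφ2, evalP_Phi φ hφ2, evalP_pow, evalP_vr φ _ 2 _, Coll.evalP_nil, List.getD_cons_zero, List.getD_cons_succ] at hy0
  have hy : wordG ax (evalW (envOf φ [s, u]) yR11) = A1 ax φ s := by
    simp only [yR11, evalW_app, wordG_append]
    rw [hy0]
  obtain ⟨hok, e0, e1, e2, e3, e4, e5, e6, e7, e8, e9, e10, e11⟩ := dR11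
  have hw := word_gg ax φ hφ2 [s, u] hok
  rw [word_conj, hy, show wordG ax (evalW (envOf φ [s, u]) gR11) = _ from hg, ev_eq e0, ev_eq e1, ev_eq e2, ev_eq e3, ev_eq e4, ev_eq e5, ev_eq e6, ev_eq e7, ev_eq e8, ev_eq e9, ev_eq e10, ev_eq e11] at hw
  simp (disch := first | simp | decide) only [evalP_add, evalP_mul, evalP_F φ hφ2, evalP_Phi φ hφ2, evalP_pow, evalP_vr φ _ 2 _, Coll.evalP_nil, List.getD_cons_zero, List.getD_cons_succ] at hw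
  exact hw

def yR12 : PW := wB 34 26 36 42 (vr 2 0) []

def gR12 : PW := gW (vr 2 1) [] [] [] [] [] [] [] [] [] [] []

theorem dR12 : okW (yR12 ++ gR12 ++ yR12.reverse) = true ∧
    (peel (yR12 ++ gR12 ++ yR12.reverse)).getD 0 [] = (vr 2 1) ∧
    (peel (yR12 ++ gR12 ++ yR12.reverse)).getD 1 [] = [] ∧
    (peel (yR12 ++ gR12 ++ yR12.reverse)).getD 2 [] = [] ∧
    (peel (yR12 ++ gR12 ++ yR12.reverse)).getD 3 [] = [] ∧
    (peel (yR12 ++ gR12 ++ yR12.reverse)).getD 4 [] = [] ∧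
    (peel (yR12 ++ gR12 ++ yR12.reverse)).getD 5 [] = [] ∧
    (peel (yR12 ++ gR12 ++ yR12.reverse)).getD 6 [] = [] ∧
    (peel (yR12 ++ gR12 ++ yR12.reverse)).getD 7 [] = [] ∧
    (peel (yR12 ++ gR12 ++ yR12.reverse)).getD 8 [] = [] ∧
    (peel (yR12 ++ gR12 ++ yR12.reverse)).getD 9 [] = [] ∧
    (peel (yR12 ++ gR12 ++ yR12.reverse)).getD 10 [] = [] ∧
    (peel (yR12 ++ gR12 ++ yR12.reverse)).getD 11 [] = [] := by decide +kernel

include hφ2 in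
theorem R12 (t s : K) :
    (A2 ax φ t 0) * gg ax φ s 0 0 0 0 0 0 0 0 0 0 0 * (A2 ax φ t 0)⁻¹ = gg ax φ s 0 0 0 0 0 0 0 0 0 0 0 := by
  have hg := word_gW ax φ hφ2 [t, s] (vr 2 1) [] [] [] [] [] [] [] [] [] [] [] (by decide +kernel)
  simp (disch := first | simp | decide) only [evalP_add, evalP_mul, evalP_F φ hφ2, evalP_Phi φ hφ2, evalP_pow, evalP_vr φ _ 2 _, Coll.evalP_nil, List.getD_cons_zero, List.getD_cons_succ] at hg
  have hy0 := word_wB ax φ hφ2 [t, s] 34 26 36 42 (vr 2 0) [] (by decide +kernel)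
  simp (disch := first | simp | decide) only [evalP_add, evalP_mul, evalP_F φ hφ2, evalP_Phi φ hφ2, evalP_pow, evalP_vr φ _ 2 _, Coll.evalP_nil, List.getD_cons_zero, List.getD_cons_succ] at hy0
  have hy : wordG ax (evalW (envOf φ [t, s]) yR12) = A2 ax φ t 0 := by
    simp only [yR12, evalW_app, wordG_append]
    rw [hy0]
  obtain ⟨hok, e0, e1, e2, e3, e4, e5, e6, e7, e8, e9, e10, e11⟩ := dR12
  have hw := word_gg ax φ hφ2 [t, s] hok
  rw [word_conj, hy, show wordG ax (evalW (envOf φ [t, s]) gR12) = _ from hg, ev_eq e0, ev_eq e1, ev_eq e2, ev_eq e3, ev_eq e4, ev_eq e5, ev_eq e6, ev_eq e7, ev_eq e8, ev_eq e9, ev_eq e10, ev_eq e11] at hw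
  simp (disch := first | simp | decide) only [evalP_add, evalP_mul, evalP_F φ hφ2, evalP_Phi φ hφ2, evalP_pow, evalP_vr φ _ 2 _, Coll.evalP_nil, List.getD_cons_zero, List.getD_cons_succ] at hw
  exact hw

def yR13 : PW := wB 34 26 36 42 (vr 2 0) []

def gR13 : PW := gW [] [] (vr 2 1) [] [] [] [] [] [] [] [] []

theorem dR13 : okW (yR13 ++ gR13 ++ yR13.reverse) = true ∧
    (peel (yR13 ++ gR13 ++ yR13.reverse)).getD 0 [] = [] ∧
    (peel (yR13 ++ gR13 ++ yR13.reverse)).getD 1 [] = [] ∧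
    (peel (yR13 ++ gR13 ++ yR13.reverse)).getD 2 [] = (vr 2 1) ∧
    (peel (yR13 ++ gR13 ++ yR13.reverse)).getD 3 [] = [] ∧
    (peel (yR13 ++ gR13 ++ yR13.reverse)).getD 4 [] = [] ∧
    (peel (yR13 ++ gR13 ++ yR13.reverse)).getD 5 [] = [] ∧
    (peel (yR13 ++ gR13 ++ yR13.reverse)).getD 6 [] = [] ∧
    (peel (yR13 ++ gR13 ++ yR13.reverse)).getD 7 [] = [] ∧
    (peel (yR13 ++ gR13 ++ yR13.reverse)).getD 8 [] = [] ∧
    (peel (yR13 ++ gR13 ++ yR13.reverse)).getD 9 [] = [] ∧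
    (peel (yR13 ++ gR13 ++ yR13.reverse)).getD 10 [] = [] ∧
    (peel (yR13 ++ gR13 ++ yR13.reverse)).getD 11 [] = [] := by decide +kernel

include hφ2 in
theorem R13 (t s : K) :
    (A2 ax φ t 0) * gg ax φ 0 0 s 0 0 0 0 0 0 0 0 0 * (A2 ax φ t 0)⁻¹ = gg ax φ 0 0 s 0 0 0 0 0 0 0 0 0 := by
  have hg := word_gW ax φ hφ2 [t, s] [] [] (vr 2 1) [] [] [] [] [] [] [] [] [] (by decide +kernel)
  simp (disch := first | simp | decide) only [evalP_add, evalP_mul, evalP_F φ hφ2, evalP_Phi φ hφ2, evalP_pow, evalP_vr φ _ 2 _, Coll.evalP_nil, List.getD_cons_zero, List.getD_cons_succ] at hg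
  have hy0 := word_wB ax φ hφ2 [t, s] 34 26 36 42 (vr 2 0) [] (by decide +kernel)
  simp (disch := first | simp | decide) only [evalP_add, evalP_mul, evalP_F φ hφ2, evalP_Phi φ hφ2, evalP_pow, evalP_vr φ _ 2 _, Coll.evalP_nil, List.getD_cons_zero, List.getD_cons_succ] at hy0
  have hy : wordG ax (evalW (envOf φ [t, s]) yR13) = A2 ax φ t 0 := by
    simp only [yR13, evalW_app, wordG_append]
    rw [hy0]
  obtain ⟨hok, e0, e1, e2, e3, e4, e5, e6, e7, e8, e9, e10, e11⟩ := dR13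
  have hw := word_gg ax φ hφ2 [t, s] hok
  rw [word_conj, hy, show wordG ax (evalW (envOf φ [t, s]) gR13) = _ from hg, ev_eq e0, ev_eq e1, ev_eq e2, ev_eq e3, ev_eq e4, ev_eq e5, ev_eq e6, ev_eq e7, ev_eq e8, ev_eq e9, ev_eq e10, ev_eq e11] at hw
  simp (disch := first | simp | decide) only [evalP_add, evalP_mul, evalP_F φ hφ2, evalP_Phi φ hφ2, evalP_pow, evalP_vr φ _ 2 _, Coll.evalP_nil, List.getD_cons_zero, List.getD_cons_succ] at hw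
  exact hw

end Cfsg.Agent.Lib.F24.RelA
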